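import Mathlib

/-!
Even permutations supported in a given set, and generation by three-cycles.
-/

set_option autoImplicit false

namespace Cfsg.Agent.GKKL

open Equiv

variable {Ω : Type*} [DecidableEq Ω] [Fintype Ω]

/-- The even permutations fixing every point outside `T`. -/
def altOn (T : Set Ω) : Subgroup (Perm Ω) where
  carrier := {σ | Perm.sign σ = 1 ∧ ∀ x, x ∉ T → σ x = x}
  one_mem' := ⟨map_one _, fun _ _ => rfl⟩
  mul_mem' := fun {a b} ha hb => ⟨by rw [map_mul, ha.1, hb.1, one_mul], fun x hx => by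
    rw [Perm.mul_apply, hb.2 x hx, ha.2 x hx]⟩
  inv_mem' := fun {a} ha => ⟨by rw [map_inv, ha.1, inv_one], fun x hx =>
    Perm.inv_eq_iff_eq.2 (ha.2 x hx).symm⟩

theorem mem_altOn {T : Set Ω} {σ : Perm Ω} :
    σ ∈ altOn T ↔ Perm.sign σ = 1 ∧ ∀ x, x ∉ T → σ x = x := Iff.rfl

theorem altOn_mono {S T : Set Ω} (h : S ⊆ T) : altOn S ≤ altOn T :=
  fun _ hσ => ⟨hσ.1, fun x hx => hσ.2 x fun hxS => hx (h hxS)⟩

theorem commute_of_disjoint {S T : Set Ω} (h : ∀ x ∈ S, x ∉ T) {σ τ : Perm Ω}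
    (hσ : σ ∈ altOn S) (hτ : τ ∈ altOn T) : Commute σ τ :=
  Perm.Disjoint.commute fun x => by
    by_cases hx : x ∈ S
    · exact Or.inr (hτ.2 x (h x hx))
    · exact Or.inl (hσ.2 x hx)

theorem conj_mem_altOn {S T : Set Ω} {σ : Perm Ω} (u : Perm Ω) (hS : ∀ x, u x ∈ T → x ∈ S)
    (hσ : σ ∈ altOn T) : u⁻¹ * σ * u ∈ altOn S :=
  ⟨by rw [map_mul, map_mul, map_inv, hσ.1, mul_one, inv_mul_cancel], fun x hx => by
    rw [Perm.mul_apply, Perm.mul_apply, hσ.2 _ fun h => hx (hS x h)]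
    exact u.symm_apply_apply x⟩

theorem swap_mul_swap_mem {T : Set Ω} {a b c d : Ω} (hab : a ≠ b) (hcd : c ≠ d) (ha : a ∈ T)
    (hb : b ∈ T) (hc : c ∈ T) (hd : d ∈ T) : swap a b * swap c d ∈ altOn T :=
  ⟨by rw [map_mul, Perm.sign_swap hab, Perm.sign_swap hcd]; rfl, fun x hx => by
    have h1 : ∀ y, y ∈ T → x ≠ y := fun y hy e => hx (e ▸ hy)
    rw [Perm.mul_apply, swap_apply_of_ne_of_ne (h1 c hc) (h1 d hd),
      swap_apply_of_ne_of_ne (h1 a ha) (h1 b hb)]⟩

/-- The three-cycle `(a b c)`. -/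
def cyc3 (a b c : Ω) : Perm Ω := swap a b * swap b c

theorem cyc3_mem {T : Set Ω} {a b c : Ω} (hab : a ≠ b) (hbc : b ≠ c) (ha : a ∈ T) (hb : b ∈ T)
    (hc : c ∈ T) : cyc3 a b c ∈ altOn T := swap_mul_swap_mem hab hbc ha hb hb hc

theorem conj_cyc3 (π : Perm Ω) (a b c : Ω) : π * cyc3 a b c * π⁻¹ = cyc3 (π a) (π b) (π c) := by
  rw [cyc3, cyc3, Equiv.swap_apply_apply, Equiv.swap_apply_apply]
  group

theorem cyc3_swap {a b c : Ω} (hca : c ≠ a) (hcb : c ≠ b) : cyc3 b a c = (cyc3 a b c)⁻¹ := by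
  have h1 := Equiv.swap_apply_apply (swap a b) a c
  rw [swap_apply_left, swap_apply_of_ne_of_ne hca hcb, Equiv.swap_inv] at h1
  rw [cyc3, cyc3, mul_inv_rev, Equiv.swap_inv, Equiv.swap_inv, h1, swap_comm b a,
    mul_assoc (swap a b * swap a c), swap_mul_self, mul_one]

theorem cyc3_rotate {a b c : Ω} (hab : a ≠ b)
    (hac : a ≠ c) : cyc3 a b c = cyc3 b c a := by
  have h1 := Equiv.swap_apply_apply (swap b c) c a
  rw [swap_apply_right, swap_apply_of_ne_of_ne hab hac, Equiv.swap_inv] at h1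
  calc cyc3 a b c = swap b a * swap b c := by rw [cyc3, swap_comm a b]
    _ = cyc3 b c a := by rw [h1, mul_assoc, swap_mul_self, mul_one]; rfl

theorem cyc3_pow_mem {X : Subgroup (Perm Ω)} {π : Perm Ω} (hπ : π ∈ X) {c e : Ω} (hc : π c = c)
    (he : π e = e) {t : Ω} (ht : cyc3 t c e ∈ X) (j : ℕ) : cyc3 ((π ^ j) t) c e ∈ X := by
  induction j with
  | zero => simpa using ht
  | succ j ih =>
    have h := X.mul_mem (X.mul_mem hπ ih) (X.inv_mem hπ)
    rw [conj_cyc3, hc, he] at h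
    rw [pow_succ', Perm.mul_apply]
    exact h

private theorem swap_ce_mem {X : Subgroup (Perm Ω)} {T : Set Ω} {c e : Ω} (hce : c ≠ e)
    (h : ∀ t ∈ T, t ≠ c → t ≠ e → cyc3 t c e ∈ X) {x y : Ω} (hx : x ∈ T) (hy : y ∈ T)
    (hxy : x ≠ y) : swap x y * swap c e ∈ X := by
  have inv_eq : ∀ s : Perm Ω, s * s = 1 → (s * swap c e)⁻¹ = swap c e * s := fun s hs => by
    rw [mul_inv_rev, Equiv.swap_inv, inv_eq_of_mul_eq_one_right hs]
  have hC : ∀ t ∈ T, t ≠ c → swap t c * swap c e ∈ X := fun t ht htc => by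
    by_cases hte : t = e
    · subst hte
      rw [swap_comm t c, swap_mul_self]
      exact X.one_mem
    · exact h t ht htc hte
  have hC' : ∀ t ∈ T, t ≠ c → swap c e * swap t c ∈ X := fun t ht htc => by
    rw [← inv_eq _ (swap_mul_self t c)]
    exact X.inv_mem (hC t ht htc)
  by_cases hxc : x = c
  · subst hxc
    rw [swap_comm x y]
    exact hC y hy (Ne.symm hxy)
  by_cases hyc : y = c
  · subst hyc
    exact hC x hx hxc
  have key : swap x y = swap x c * swap y c * swap x c := by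
    have h1 := Equiv.swap_apply_apply (swap x c) y c
    rw [swap_apply_of_ne_of_ne (Ne.symm hxy) hyc, swap_apply_right, Equiv.swap_inv] at h1
    rw [← h1, swap_comm]
  have : swap x y * swap c e =
      swap x c * swap c e * (swap c e * swap y c) * (swap x c * swap c e) := by
    rw [key, mul_assoc (swap x c) (swap c e), ← mul_assoc (swap c e) (swap c e), swap_mul_self,
      one_mul]
    simp only [mul_assoc]
  rw [this]
  exact X.mul_mem (X.mul_mem (hC x hx hxc) (hC' y hy hyc)) (hC x hx hxc)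

/-- A subgroup containing all `(t c e)` for `t ∈ T` contains the alternating group on `T`. -/
theorem altOn_le_of_cyc3 {X : Subgroup (Perm Ω)} {T : Set Ω} {c e : Ω} (hce : c ≠ e)
    (h : ∀ t ∈ T, t ≠ c → t ≠ e → cyc3 t c e ∈ X) : altOn T ≤ X := by
  classical
  intro σ hσ
  set τ := swap c e
  have key : ∀ f : Perm T, (Perm.sign f = 1 → Perm.ofSubtype f ∈ X) ∧
      (Perm.sign f = -1 → Perm.ofSubtype f * τ ∈ X) := by
    intro f
    induction f using Perm.swap_induction_on' with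
    | one => exact ⟨fun _ => by rw [map_one]; exact X.one_mem, fun h1 => by
        rw [map_one] at h1; exact absurd h1 (by decide)⟩
    | mul_swap f a b hab ih =>
      have hs : Perm.ofSubtype (swap a b : Perm T) = swap (a : Ω) (b : Ω) :=
        Perm.ofSubtype_swap_eq a b
      have hm : swap (a : Ω) (b : Ω) * τ ∈ X :=
        swap_ce_mem hce h a.2 b.2 fun e => hab (Subtype.ext e)
      have hsign : Perm.sign (f * swap a b) = -Perm.sign f := by
        rw [map_mul, Perm.sign_swap hab, mul_neg, mul_one]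
      refine ⟨fun h1 => ?_, fun h1 => ?_⟩
      · rw [hsign, neg_eq_iff_eq_neg] at h1
        have := X.mul_mem (ih.2 h1) (X.inv_mem hm)
        rw [mul_inv_rev, Equiv.swap_inv, Equiv.swap_inv, mul_assoc, ← mul_assoc τ τ,
          swap_mul_self, one_mul] at this
        rw [map_mul, hs]
        exact this
      · rw [hsign, neg_inj] at h1
        have := X.mul_mem (ih.1 h1) hm
        rw [← mul_assoc] at this
        rw [map_mul, hs]
        exact this
  have hiff : ∀ x, σ x ∈ T ↔ x ∈ T := by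
    intro x
    by_cases hx : x ∈ T
    · refine ⟨fun _ => hx, fun _ => ?_⟩
      by_contra hσx
      have h2 := σ.injective (hσ.2 _ hσx)
      exact hσx (h2.symm ▸ hx)
    · rw [hσ.2 x hx]
  have e1 : Perm.ofSubtype (σ.subtypePerm hiff) = σ :=
    Perm.ofSubtype_subtypePerm hiff fun x hx => by_contra fun h' => hx (hσ.2 x h')
  have h1 : Perm.sign (σ.subtypePerm hiff) = 1 := by
    rw [← Perm.sign_ofSubtype, e1]; exact hσ.1
  rw [← e1]
  exact (key _).1 h1

end Cfsg.Agent.GKKL
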