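import Cfsg.Agent.GKKL.CyclicPres

/-!
Degree twelve: the antipodal pair relator follows from the others.
-/

set_option autoImplicit false

namespace Cfsg.Agent.GKKL

open Equiv

/-- A word of double transpositions with prescribed action of `0` and `5`. -/
def wordA (q : Fin 10) (L : List (Fin 10 × Fin 10)) (δ : ℕ) : FreeGroup (Fin 10) :=
  ee (FreeGroup.of 0) (FreeGroup.of q) *
    (L.map fun p => ee (FreeGroup.of p.1) (FreeGroup.of p.2)).prod *
      ee (FreeGroup.of (5 - q)) (FreeGroup.of 5) * FreeGroup.of 0 ^ (3 * δ)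

/-- The two points are not antipodal and avoid `0` and `5`. -/
def GoodPair (p : Fin 10 × Fin 10) : Prop :=
  p.1 ≠ p.2 ∧ p.1 ≠ 0 ∧ p.2 ≠ 0 ∧ p.1 ≠ 5 ∧ p.2 ≠ 5 ∧ p.1 + 5 ≠ p.2

instance : DecidablePred GoodPair := fun p => by unfold GoodPair; infer_instance

theorem map_ee {G H : Type*} [Group G] [Group H] (f : G →* H) (x y : G) :
    f (ee x y) = ee (f x) (f y) := by simp [ee]

variable {W : Type*} [Group W] {t z : W} {ε : ℤˣ}

theorem antipodal (q : Fin 10) (L : List (Fin 10 × Fin 10)) (δ : ℕ) (hq : q = 1 ∨ q = 2)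
    (hL : ∀ p ∈ L, GoodPair p) (hs : ε ^ q.val = (-1) ^ L.length)
    (hcc : ∀ x : W, Commute (z ^ 3) x) (hc4 : (z ^ 3) ^ 4 = 1)
    (hper : t ^ 10 * z * (t ^ 10)⁻¹ = z ^ ((ε ^ 10 : ℤˣ) : ℤ))
    (hid : t ^ q.val = evX t z ε 10 (wordA q L δ))
    (hpk : ∀ k, 1 ≤ k → k ≤ 4 → (z * cx t z ε k) ^ 2 = 1) :
    (z * cx t z ε 5) ^ 2 = 1 := by
  set c := z ^ 3 with hc
  let e : ℕ → ℤ := fun i => ((ε ^ i : ℤˣ) : ℤ)
  let y : ℕ → W := fun i => cx t z ε i * c ^ e i
  have he : ∀ i, e i = 1 ∨ e i = -1 := fun i => by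
    show ((ε ^ i : ℤˣ) : ℤ) = 1 ∨ ((ε ^ i : ℤˣ) : ℤ) = -1
    rcases Int.units_eq_one_or (ε ^ i) with h | h <;> rw [h]
    · exact Or.inl rfl
    · exact Or.inr rfl
  have hC4z : ∀ j : ℤ, c ^ (4 * j) = 1 := fun j => by
    rw [zpow_mul, zpow_ofNat, hc4, one_zpow]
  have pw : ∀ (k : ℕ) (j : ℤ), (c ^ j) ^ k = c ^ (j * (k : ℤ)) := fun k j =>
    (zpow_natCast (c ^ j) k).symm.trans (zpow_mul c j k).symm
  have hy3 : ∀ i, y i ^ 3 = 1 := fun i => by
    simp only [y]
    rw [((hcc _).zpow_left _).symm.mul_pow, cube_cx' (hcc t), ← hc, pw 3, ← zpow_add]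
    convert hC4z (e i) using 2
    simp only [e]
    push_cast
    ring
  have hyp : ∀ i j : ℕ, i < 10 → j < 10 → i ≠ j → i + 5 ≠ j → j + 5 ≠ i →
      (y i * y j) ^ 2 = 1 := by
    intro i j hi hj hij h5 h5'
    have hx : (cx t z ε i * cx t z ε j) ^ 2 = 1 := by
      rcases Nat.lt_or_gt_of_ne hij with hlt | hlt
      · exact pairs_of hper (P := fun k => 1 ≤ k ∧ k ≤ 4) (fun k hk => hpk k hk.1 hk.2)
          i j hlt hj (by omega)
      · exact sq_mul_flip (pairs_of hper (P := fun k => 1 ≤ k ∧ k ≤ 4)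
          (fun k hk => hpk k hk.1 hk.2) j i hlt hi (by omega))
    simp only [y]
    rw [((hcc _).zpow_left _).mul_mul_mul_comm, ← zpow_add,
      ((hcc _).zpow_left _).symm.mul_pow, hx, one_mul, pw 2]
    rcases he i with h1 | h1 <;> rcases he j with h2 | h2 <;> rw [h1, h2]
    · exact hC4z 1
    · simp
    · simp
    · exact hC4z (-1)
  have hT1 : ∀ i, t * y i * t⁻¹ = y (i + 1) ^ (ε : ℤ) := fun i => by
    simp only [y]
    rw [((hcc _).zpow_left _).symm.mul_zpow, ← zpow_mul,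
      show t * (cx t z ε i * c ^ e i) * t⁻¹ = t * cx t z ε i * t⁻¹ * (t * c ^ e i * t⁻¹) by group,
      cx_succ', ((hcc t).zpow_left _).symm.eq, mul_inv_cancel_right]
    simp only [e]
    rw [pow_succ, Units.val_mul, mul_assoc, ← Units.val_mul ε ε, ← sq, Int.units_sq,
      Units.val_one, mul_one]
  have hT : ∀ j i, t ^ j * y i * (t ^ j)⁻¹ = y (i + j) ^ ((ε ^ j : ℤˣ) : ℤ) := by
    intro j i
    induction j with
    | zero => simp
    | succ j ih =>
      rw [show t ^ (j + 1) * y i * (t ^ (j + 1))⁻¹ = t * (t ^ j * y i * (t ^ j)⁻¹) * t⁻¹ by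
        rw [pow_succ']; group, ih, ← conj_zpow, hT1, ← zpow_mul, ← Units.val_mul, ← pow_succ',
        add_assoc]
  let Y : FreeGroup (Fin 10) →* W := FreeGroup.lift fun i => y i.val
  have hconj : ∀ (v : FreeGroup (Fin 10)) (x : W),
      evX t z ε 10 v * x * (evX t z ε 10 v)⁻¹ = Y v * x * (Y v)⁻¹ := by
    intro v x
    have h := DFunLike.congr_fun (FreeGroup.ext_hom ((MulAut.conj (G := W)).comp (evX t z ε 10))
      ((MulAut.conj (G := W)).comp Y) fun i => ?_) v
    · exact DFunLike.congr_fun h x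
    · refine MulEquiv.ext fun x => ?_
      simp only [MonoidHom.comp_apply, evX, Y, FreeGroup.lift_apply_of, MulAut.conj_apply, y]
      rw [mul_inv_rev, show ∀ a b x : W, a * b * x * (b⁻¹ * a⁻¹) = a * (b * x * b⁻¹) * a⁻¹ from
        fun a b x => by group, ((hcc x).zpow_left _).eq, mul_inv_cancel_right]
  have hinv : ∀ i j : ℕ, i < 10 → j < 10 → i ≠ j → i + 5 ≠ j → j + 5 ≠ i →
      (ee (y i) (y j))⁻¹ = ee (y i) (y j) := fun i j a b c d f =>
    inv_eq_of_mul_eq_one_right (ee_sq (hy3 i) (hyp i j a b c d f))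
  have hP : ∀ L' : List (Fin 10 × Fin 10), (∀ p ∈ L', GoodPair p) →
      ∀ P : W, P = (L'.map fun p => ee (y p.1.val) (y p.2.val)).prod →
      P * y 5 * P⁻¹ = y 5 ^ ((((-1 : ℤˣ) ^ L'.length : ℤˣ)) : ℤ) := by
    intro L'
    induction L' with
    | nil => intro _ P hP; simp [hP]
    | cons p L'' ih =>
      intro hL' P hP
      obtain ⟨h1, h2, h3, h4, h5, h6⟩ := hL' p List.mem_cons_self
      simp only [ne_eq, Fin.ext_iff, Fin.val_add] at h1 h2 h3 h4 h5 h6
      have hne : p.1.val + 5 ≠ p.2.val ∧ p.2.val + 5 ≠ p.1.val := by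
        simp at h2 h3 h4 h5 h6; omega
      simp at h2 h3 h4 h5
      have hflip : ee (y p.1.val) (y p.2.val) * y 5 * (ee (y p.1.val) (y p.2.val))⁻¹ = (y 5)⁻¹ := by
        rw [hinv _ _ p.1.isLt p.2.isLt h1 hne.1 hne.2]
        exact ee_conj_other (hy3 _) (hyp _ _ p.1.isLt p.2.isLt h1 hne.1 hne.2)
          (hyp _ 5 p.1.isLt (by norm_num) (by omega) (by omega) (by omega))
          (hyp _ 5 p.2.isLt (by norm_num) (by omega) (by omega) (by omega))
      have ih' := ih (fun r hr => hL' r (List.mem_cons_of_mem _ hr)) _ rfl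
      rw [hP, List.map_cons, List.prod_cons]
      set P' := (L''.map fun p => ee (y p.1.val) (y p.2.val)).prod
      set E := ee (y p.1.val) (y p.2.val)
      rw [show E * P' * y 5 * (E * P')⁻¹ = E * (P' * y 5 * P'⁻¹) * E⁻¹ by group, ih',
        ← conj_zpow, hflip, List.length_cons, pow_succ, Units.val_mul, inv_zpow']
      simp
  set s : ℤ := ((((-1 : ℤˣ) ^ L.length : ℤˣ)) : ℤ) with hs'
  have hss : s * s = 1 := by
    rw [hs', ← Units.val_mul, ← sq, Int.units_sq, Units.val_one]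
  have hqv : q.val = 1 ∨ q.val = 2 := by rcases hq with rfl | rfl <;> simp
  have h5q : (5 - q).val = 5 - q.val := by rcases hq with rfl | rfl <;> rfl
  set P := (L.map fun p => ee (y p.1.val) (y p.2.val)).prod with hPdef
  set E0 := ee (y 0) (y q.val) with hE0
  set E2 := ee (y (5 - q.val)) (y 5) with hE2
  have hYw : Y (wordA q L δ) = E0 * P * E2 := by
    simp only [wordA, map_mul, map_pow, map_list_prod, List.map_map, map_ee, Y,
      FreeGroup.lift_apply_of, h5q]
    rw [pow_mul, show ((0 : Fin 10) : ℕ) = 0 from rfl, hy3, one_pow, mul_one, hE0, hPdef, hE2]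
    congr 3
    refine List.map_congr_left fun p _ => ?_
    simp only [Function.comp, map_ee, FreeGroup.lift_apply_of]
  have hfix2 : E2 * y (5 - q.val) * E2⁻¹ = (y 5)⁻¹ := by
    have hp := hyp (5 - q.val) 5 (by omega) (by norm_num) (by omega) (by omega) (by omega)
    rw [hE2, hinv _ _ (by omega) (by norm_num) (by omega) (by omega) (by omega)]
    exact ee_conj_self (hy3 _) (hy3 _) hp
  have key : E0 * y 5 * E0⁻¹ = (y 5)⁻¹ := by
    have h1 := hT q.val (5 - q.val)
    rw [show 5 - q.val + q.val = 5 by omega, hs, ← hs', hid, hconj, hYw,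
      show E0 * P * E2 * y (5 - q.val) * (E0 * P * E2)⁻¹ =
        E0 * (P * (E2 * y (5 - q.val) * E2⁻¹) * P⁻¹) * E0⁻¹ by group, hfix2,
      show P * (y 5)⁻¹ * P⁻¹ = (P * y 5 * P⁻¹)⁻¹ by group, hP L hL P rfl, ← hs'] at h1
    rw [← zpow_neg, ← conj_zpow] at h1
    have h2 := congrArg (· ^ (-s)) h1
    simp only [zpow_neg, inv_zpow, inv_inv, ← zpow_mul, hss, zpow_one] at h2
    exact h2
  have hy0q : E0 * y q.val * E0⁻¹ = (y 0)⁻¹ := by
    have hp := hyp 0 q.val (by norm_num) q.isLt (by omega) (by omega) (by omega)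
    rw [hE0, hinv _ _ (by norm_num) q.isLt (by omega) (by omega) (by omega)]
    exact ee_conj_right (hy3 _) (hy3 _) hp
  have h05 : (y 0 * y 5) ^ 2 = 1 := by
    have h := congrArg (fun x => E0 * x * E0⁻¹)
      (hyp q.val 5 q.isLt (by norm_num) (by omega) (by omega) (by omega))
    simp only [← conj_pow, mul_one, mul_inv_cancel] at h
    rw [show E0 * (y q.val * y 5) * E0⁻¹ = E0 * y q.val * E0⁻¹ * (E0 * y 5 * E0⁻¹) by group,
      hy0q, key, ← mul_inv_rev, inv_pow, inv_eq_one] at h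
    exact sq_mul_flip h
  simp only [y] at h05
  rw [((hcc _).zpow_left _).mul_mul_mul_comm, ← zpow_add,
    ((hcc _).zpow_left _).symm.mul_pow, pw 2, show cx t z ε 0 = z by simp [cx],
    show e 0 = 1 by simp [e]] at h05
  have h1 : c ^ ((1 + e 5) * ((2 : ℕ) : ℤ)) = 1 := by
    rcases he 5 with h | h <;> rw [h]
    · exact hC4z 1
    · simp
  rwa [h1, mul_one] at h05

/-- Degree twelve needs four pair relators only. -/
theorem cycRels_antipodal (q : Fin 10) (M : ℕ) (L : List (Fin 10 × Fin 10)) (δ : ℕ)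
    (hq : q = 1 ∨ q = 2) (hL : ∀ p ∈ L, GoodPair p) (hs : ε ^ q.val = (-1) ^ L.length)
    (hpar : expPar 10 (wordA q L δ) = 1) (hwM : evC 10 (wordA q L δ) ^ M = 1)
    (hgen : Subgroup.closure {t, z} = (⊤ : Subgroup W)) (h0 : t ^ (q.val * M) = z ^ 3)
    (hper : t ^ 10 * z * (t ^ 10)⁻¹ = z ^ ((ε ^ 10 : ℤˣ) : ℤ))
    (hid : t ^ q.val = evX t z ε 10 (wordA q L δ))
    (hpk : ∀ k, 1 ≤ k → k ≤ 4 → (z * cx t z ε k) ^ 2 = 1) :
    CycRels 10 q.val M ε (wordA q L δ) t z := by
  set c := z ^ 3 with hc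
  have hct : Commute c t := h0 ▸ Commute.pow_self t _
  have hcc : ∀ x : W, Commute c x := by
    intro x
    have hle : (⊤ : Subgroup W) ≤ Subgroup.centralizer {c} := by
      rw [← hgen, Subgroup.closure_le]
      rintro y (rfl | rfl)
      · exact Subgroup.mem_centralizer_singleton_iff.2 hct.eq.symm
      · exact Subgroup.mem_centralizer_singleton_iff.2 (Commute.self_pow _ 3).eq
    exact (Subgroup.mem_centralizer_singleton_iff.1 (hle trivial)).symm
  have h8 : c ^ 8 = 1 := by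
    refine pow_eight_of_pair (x := z) (y := cx t z ε 2) rfl ?_ (hpk 2 (by norm_num) (by norm_num))
    rw [cube_cx' hct, show (ε ^ 2 : ℤˣ) = 1 from Int.units_sq ε, Units.val_one, zpow_one]
  haveI : (Subgroup.zpowers (c ^ 4)).Normal := ⟨fun d hd x => by
    obtain ⟨j, rfl⟩ := Subgroup.mem_zpowers_iff.1 hd
    rw [← (((hcc x).pow_left 4).zpow_left j).eq, mul_inv_cancel_right]
    exact hd⟩
  let π := QuotientGroup.mk' (Subgroup.zpowers (c ^ 4))
  have hgen' : Subgroup.closure {π t, π z} = (⊤ : Subgroup (W ⧸ Subgroup.zpowers (c ^ 4))) := by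
    rw [← Set.image_pair, ← MonoidHom.map_closure, hgen,
      Subgroup.map_top_of_surjective _ (QuotientGroup.mk'_surjective _)]
  have hc4' : (π z ^ 3) ^ 4 = 1 := by
    rw [← map_pow, ← map_pow]
    exact (QuotientGroup.eq_one_iff _).2 (Subgroup.mem_zpowers _)
  have hper' : π t ^ 10 * π z * (π t ^ 10)⁻¹ = π z ^ ((ε ^ 10 : ℤˣ) : ℤ) := by
    rw [← map_pow, ← map_inv, ← map_mul, ← map_mul, hper, map_zpow]
  have hid' : π t ^ q.val = evX (π t) (π z) ε 10 (wordA q L δ) := by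
    rw [← map_evX, ← map_pow, hid]
  have hpk' : ∀ k, 1 ≤ k → k ≤ 4 → (π z * cx (π t) (π z) ε k) ^ 2 = 1 := fun k a b => by
    rw [← map_cx, ← map_mul, ← map_pow, hpk k a b, map_one]
  have hcc' : ∀ x, Commute (π z ^ 3) x := fun x => by
    obtain ⟨x, rfl⟩ := QuotientGroup.mk'_surjective _ x
    rw [← map_pow]
    exact (hcc x).map π
  have hQ : CycRels 10 q.val M ε (wordA q L δ) (π t) (π z) := by
    refine ⟨by rw [← map_pow, ← map_pow, h0], hper', fun k a b => ?_, hid'⟩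
    by_cases hk : k ≤ 4
    · exact hpk' k a hk
    · obtain rfl : k = 5 := by omega
      exact antipodal q L δ hq hL hs hcc' hc4' hper' hid' hpk'
  have hone := hQ.cube_one (by norm_num) hpar hwM hgen'
  rw [← map_pow] at hone
  obtain ⟨j, hj⟩ := Subgroup.mem_zpowers_iff.1 ((QuotientGroup.eq_one_iff c).1 hone)
  have hc4 : c ^ 4 = 1 := by
    calc c ^ 4 = ((c ^ 4) ^ j) ^ 4 := by rw [hj]
      _ = (c ^ 8) ^ (2 * j) := by
        simp only [← zpow_natCast, ← zpow_mul]
        congr 1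
        push_cast
        ring
      _ = 1 := by rw [h8, one_zpow]
  refine ⟨h0, hper, fun k a b => ?_, hid⟩
  by_cases hk : k ≤ 4
  · exact hpk k a hk
  · obtain rfl : k = 5 := by omega
    exact antipodal q L δ hq hL hs hcc hc4 hper hid hpk

/-- The ten-cycle on the last ten of twelve points. -/
def tenCyc : Perm (Fin 12) := ([2, 3, 4, 5, 6, 7, 8, 9, 10, 11] : List (Fin 12)).formPerm

theorem tbar_ten (ε : ℤˣ) :
    tbar 10 ε = tenCyc * if ε = 1 then 1 else swap (0 : Fin 12) 1 := by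
  refine Equiv.ext fun x => ?_
  obtain ⟨h0, h1⟩ := tbar_special 10 ε
  rcases lt_or_ge x.val 2 with hx | hx
  · rcases (show x.val = 0 ∨ x.val = 1 by omega) with e | e
    · rw [show x = ⟨0, by omega⟩ from Fin.ext e, h0]
      rcases Int.units_eq_one_or ε with rfl | rfl <;> decide +kernel +revert
    · rw [show x = ⟨1, by omega⟩ from Fin.ext e, h1]
      rcases Int.units_eq_one_or ε with rfl | rfl <;> decide +kernel +revert
  · obtain ⟨i, rfl⟩ : ∃ i : Fin 10, x = (⟨i.val + 2, Nat.add_lt_add_right i.isLt 2⟩ : Fin 12) :=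
      ⟨⟨x.val - 2, by omega⟩, Fin.ext (by simp; omega)⟩
    rw [tbar_apply]
    rcases Int.units_eq_one_or ε with rfl | rfl <;> revert i <;> decide +kernel

/-- Two generators, six relators for `A_12`. -/
theorem alt_twelve : ∃ v : Fin 2 → alternatingGroup (Fin 12),
    ∃ rels : Finset (FreeGroup (Fin 2)), rels.card ≤ 6 ∧
      ∃ e : PresentedGroup (↑rels : Set (FreeGroup (Fin 2))) ≃* alternatingGroup (Fin 12),
        ∀ i, e (PresentedGroup.of i) = v i := by
  let L : List (Fin 10 × Fin 10) := [(1, 2), (2, 3), (3, 4), (4, 6), (6, 7), (7, 8), (8, 9)]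
  have hpar : expPar 10 (wordA 1 L 1) = 1 := by decide +kernel
  have hwt : evC 10 (wordA 1 L 1) = tbar 10 (-1) ^ 1 := by rw [tbar_ten]; decide +kernel
  have ht : tbar 10 (-1) ∈ alternatingGroup (Fin (10 + 2)) := by
    rw [Perm.mem_alternatingGroup, sign_tbar]; decide
  have hM : tbar 10 (-1) ^ (1 * 10) = 1 := tbar_pow_eq_one 10 (by norm_num) (by decide)
  obtain ⟨e, -⟩ := (exists_iso 1 10 (-1) (wordA 1 L 1) [] 4 (by norm_num) (by norm_num) hpar hwt
    hM (fun r hr => absurd hr (by simp))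
    (fun W _ t z h0 _ => by
      rw [one_mul] at h0
      rw [show ((-1 : ℤˣ) ^ 10) = 1 by decide, Units.val_one, zpow_one, h0,
        (Commute.pow_self z 3).eq, mul_inv_cancel_right])
    (fun W _ t z hg h0 h1 h2 h3 => cycRels_antipodal 1 10 L 1 (Or.inl rfl) (by decide) (by decide)
      hpar (by rw [hwt, ← pow_mul, hM]) hg h0 h1 h2 h3)).1 rfl ht
  exact ⟨fun i => e (PresentedGroup.of i), _, cycList_length 1 10 (-1) (wordA 1 L 1) [] 4, e,
    fun i => rfl⟩

/-- Two generators, six relators for `S_12`. -/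
theorem perm_twelve : ∃ v : Fin 2 → Perm (Fin 12),
    ∃ rels : Finset (FreeGroup (Fin 2)), rels.card ≤ 6 ∧
      ∃ e : PresentedGroup (↑rels : Set (FreeGroup (Fin 2))) ≃* Perm (Fin 12),
        ∀ i, e (PresentedGroup.of i) = v i := by
  let L : List (Fin 10 × Fin 10) := [(1, 3), (3, 7), (7, 9), (2, 4), (4, 6), (6, 8)]
  have hpar : expPar 10 (wordA 2 L 0) = 1 := by decide +kernel
  have hwt : evC 10 (wordA 2 L 0) = tbar 10 1 ^ 2 := by rw [tbar_ten]; decide +kernel
  have hsg : Perm.sign (tbar 10 1) = -1 := by rw [sign_tbar]; decide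
  have hM : tbar 10 1 ^ (2 * 5) = 1 := tbar_pow_eq_one 10 (by norm_num) (one_pow _)
  obtain ⟨e, -⟩ := (exists_iso 2 5 1 (wordA 2 L 0) [] 4 (by norm_num) (by norm_num) hpar hwt
    hM (fun r hr => absurd hr (by simp))
    (fun W _ t z h0 _ => by
      rw [show 2 * 5 = 10 by norm_num] at h0
      rw [one_pow, Units.val_one, zpow_one, h0,
        (Commute.pow_self z 3).eq, mul_inv_cancel_right])
    (fun W _ t z hg h0 h1 h2 h3 => cycRels_antipodal 2 5 L 0 (Or.inr rfl) (by decide) (by decide)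
      hpar (by rw [hwt, ← pow_mul, hM]) hg h0 h1 h2 h3)).2 rfl hsg
  exact ⟨fun i => e (PresentedGroup.of i), _, cycList_length 2 5 1 (wordA 2 L 0) [] 4, e,
    fun i => rfl⟩

end Cfsg.Agent.GKKL
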