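import Cfsg.Agent.PSLTwoSub.AltHom
import Cfsg.Agent.GKKL.AltOn

/-!
Carmichael's presentation: elements of order three with pairwise products of order two give a
homomorphism from an alternating group.
-/

set_option autoImplicit false

namespace Cfsg.Agent.GKKL

open Equiv Cfsg.Agent.PSLTwoSub Cfsg.Agent.CoxeterSym

variable {W : Type*} [Group W]

/-- `z` satisfies Carmichael's relations on indices `< m`. -/
def Carm (z : ℕ → W) (m : ℕ) : Prop :=
  (∀ i < m, z i ^ 3 = 1) ∧ ∀ i j, i < m → j < m → i ≠ j → (z i * z j) ^ 2 = 1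

/-- The image of a double transposition `(i j)(P Q)`. -/
def ee (x y : W) : W := x * y⁻¹ * x

section identities

variable {x y l : W}

theorem xyx (h : (x * y) ^ 2 = 1) : x * y * x = y⁻¹ :=
  eq_inv_of_mul_eq_one_left (by rw [← h, sq]; group)

theorem yxy (h : (x * y) ^ 2 = 1) : y * x * y = x⁻¹ :=
  eq_inv_of_mul_eq_one_right (by rw [← h, sq]; group)

theorem ee_sq (hx : x ^ 3 = 1) (h : (x * y) ^ 2 = 1) : ee x y * ee x y = 1 := by
  have h1 : x⁻¹ = x * x := inv_eq_of_mul_eq_one_right (by rw [← hx, pow_three])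
  have h2 : y⁻¹ * x⁻¹ = x * y := by
    rw [← mul_inv_rev]
    exact inv_eq_of_mul_eq_one_right (by rw [← h, sq])
  have h3 : ee x y * ee x y = x * (y⁻¹ * x⁻¹) * y⁻¹ * x := by
    simp only [ee, h1, mul_assoc]
  rw [h3, h2]
  simp only [mul_assoc, mul_inv_cancel_left]
  rw [← mul_assoc x x, ← h1, inv_mul_cancel]

theorem ee_conj_self (hx : x ^ 3 = 1) (hy : y ^ 3 = 1) (h : (x * y) ^ 2 = 1) :
    ee x y * x * ee x y = y⁻¹ := by
  have h1 : x * x * x = 1 := by rw [← hx, pow_three, mul_assoc]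
  have h2 : y⁻¹ * y⁻¹ = y := by
    rw [← mul_inv_rev]
    exact inv_eq_of_mul_eq_one_right (by rw [← hy, pow_three, mul_assoc])
  calc ee x y * x * ee x y = x * y⁻¹ * (x * x * x) * y⁻¹ * x := by simp only [ee, mul_assoc]
    _ = x * (y⁻¹ * y⁻¹) * x := by rw [h1, mul_one]; simp only [mul_assoc]
    _ = y⁻¹ := by rw [h2, xyx h]

theorem ee_conj_right (hx : x ^ 3 = 1) (hy : y ^ 3 = 1) (h : (x * y) ^ 2 = 1) :
    ee x y * y * ee x y = x⁻¹ := by
  have h2 : y⁻¹ * y⁻¹ * y⁻¹ = 1 := by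
    rw [← mul_inv_rev, ← mul_inv_rev, inv_eq_one, ← hy, pow_three]
  calc ee x y * y * ee x y = x * y⁻¹ * (x * y * x) * y⁻¹ * x := by simp only [ee, mul_assoc]
    _ = x * (y⁻¹ * y⁻¹ * y⁻¹) * x := by rw [xyx h]; simp only [mul_assoc]
    _ = x⁻¹ := by rw [h2, mul_one]; exact eq_inv_of_mul_eq_one_left (by rw [← hx, pow_three, mul_assoc])

theorem ee_conj_other (hx : x ^ 3 = 1) (h : (x * y) ^ 2 = 1)
    (hxl : (x * l) ^ 2 = 1) (hyl : (y * l) ^ 2 = 1) : ee x y * l * ee x y = l⁻¹ := by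
  have hinv : (ee x y)⁻¹ = ee x y := inv_eq_of_mul_eq_one_right (ee_sq hx h)
  have a1 : x * l = l⁻¹ * x⁻¹ := by
    rw [← mul_inv_rev]; exact eq_inv_of_mul_eq_one_left (by rw [← hxl, sq])
  have a2 : x * y = y⁻¹ * x⁻¹ := by
    rw [← mul_inv_rev]; exact eq_inv_of_mul_eq_one_left (by rw [← h, sq])
  have a3 : x⁻¹ * x⁻¹ = x := by
    rw [← mul_inv_rev]
    exact inv_eq_of_mul_eq_one_right (by rw [← hx, pow_three, mul_assoc])
  calc ee x y * l * ee x y = ee x y * l * (ee x y)⁻¹ := by rw [hinv]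
    _ = x * y⁻¹ * (x * l) * x⁻¹ * y * x⁻¹ := by simp only [ee]; group
    _ = x * y⁻¹ * l⁻¹ * (x⁻¹ * x⁻¹) * y * x⁻¹ := by rw [a1]; simp only [mul_assoc]
    _ = x * y⁻¹ * l⁻¹ * (x * y) * x⁻¹ := by rw [a3]; simp only [mul_assoc]
    _ = x * (y * l * y)⁻¹ * (x⁻¹ * x⁻¹) := by rw [a2]; simp only [mul_inv_rev, mul_assoc]
    _ = x * l * x := by rw [a3, xyx hyl, inv_inv]
    _ = l⁻¹ := xyx hxl

end identities

variable {z : ℕ → W} {m : ℕ}

theorem ee_commute (h : Carm z m) {i j k l : ℕ} (hi : i < m) (hj : j < m) (hk : k < m)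
    (hl : l < m) (hij : i ≠ j) (hkl : k ≠ l) (hki : k ≠ i) (hkj : k ≠ j) (hli : l ≠ i)
    (hlj : l ≠ j) : Commute (ee (z i) (z j)) (ee (z k) (z l)) := by
  set e := ee (z i) (z j)
  have he : e * e = 1 := ee_sq (h.1 i hi) (h.2 i j hi hj hij)
  have hk' := ee_conj_other (h.1 i hi) (h.2 i j hi hj hij) (h.2 i k hi hk hki.symm)
    (h.2 j k hj hk hkj.symm)
  have hl' := ee_conj_other (h.1 i hi) (h.2 i j hi hj hij) (h.2 i l hi hl hli.symm)
    (h.2 j l hj hl hlj.symm)
  have he' : (ee (z i) (z j))⁻¹ = ee (z i) (z j) := inv_eq_of_mul_eq_one_right he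
  have hl'' : e * (z l)⁻¹ * e = z l := by
    have := congrArg (·⁻¹) hl'
    simp only [mul_inv_rev, inv_inv, he'] at this
    rw [mul_assoc]; exact this
  have h1 : e * ee (z k) (z l) * e = (ee (z k) (z l))⁻¹ := by
    have : e * ee (z k) (z l) * e =
        (e * z k * e) * (e * (z l)⁻¹ * e) * (e * z k * e) := by
      simp only [ee, mul_assoc]
      simp only [← mul_assoc e e, he, one_mul]
    rw [this, hk', hl'']
    simp only [ee, mul_inv_rev, inv_inv, mul_assoc]
  rw [inv_eq_of_mul_eq_one_right (ee_sq (h.1 k hk) (h.2 k l hk hl hkl))] at h1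
  calc e * ee (z k) (z l) = e * ee (z k) (z l) * (e * e) := by rw [he, mul_one]
    _ = ee (z k) (z l) * e := by rw [← mul_assoc, h1]

theorem ee_braid (h : Carm z m) {i j l : ℕ} (hi : i < m) (hj : j < m) (hl : l < m)
    (hij : i ≠ j) (hjl : j ≠ l) (hil : i ≠ l) :
    ee (z i) (z j) * ee (z j) (z l) * ee (z i) (z j) =
      ee (z j) (z l) * ee (z i) (z j) * ee (z j) (z l) := by
  set e := ee (z i) (z j)
  set f := ee (z j) (z l)
  have he : e * e = 1 := ee_sq (h.1 i hi) (h.2 i j hi hj hij)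
  have hf : f * f = 1 := ee_sq (h.1 j hj) (h.2 j l hj hl hjl)
  have e1 : e * z j * e = (z i)⁻¹ :=
    ee_conj_right (h.1 i hi) (h.1 j hj) (h.2 i j hi hj hij)
  have e2 : e * z l * e = (z l)⁻¹ := ee_conj_other (h.1 i hi) (h.2 i j hi hj hij)
    (h.2 i l hi hl hil) (h.2 j l hj hl hjl)
  have f1 : f * z i * f = (z i)⁻¹ := ee_conj_other (h.1 j hj) (h.2 j l hj hl hjl)
    (h.2 j i hj hi hij.symm) (h.2 l i hl hi hil.symm)
  have f2 : f * z j * f = (z l)⁻¹ :=
    ee_conj_self (h.1 j hj) (h.1 l hl) (h.2 j l hj hl hjl)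
  have he' : e⁻¹ = e := inv_eq_of_mul_eq_one_right he
  have hf' : f⁻¹ = f := inv_eq_of_mul_eq_one_right hf
  have e2' : e * (z l)⁻¹ * e = z l := by
    have := congrArg (·⁻¹) e2
    simp only [mul_inv_rev, inv_inv, he'] at this
    rw [mul_assoc]; exact this
  have f2' : f * (z j)⁻¹ * f = z l := by
    have := congrArg (·⁻¹) f2
    simp only [mul_inv_rev, inv_inv, hf'] at this
    rw [mul_assoc]; exact this
  have l1 : e * f * e = (z i)⁻¹ * z l * (z i)⁻¹ := by
    have : e * f * e = (e * z j * e) * (e * (z l)⁻¹ * e) * (e * z j * e) := by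
      simp only [f, ee, mul_assoc]
      simp only [← mul_assoc e e, he, one_mul]
    rw [this, e1, e2']
  have l2 : f * e * f = (z i)⁻¹ * z l * (z i)⁻¹ := by
    have : f * e * f = (f * z i * f) * (f * (z j)⁻¹ * f) * (f * z i * f) := by
      simp only [e, ee, mul_assoc]
      simp only [← mul_assoc f f, hf, one_mul]
    rw [this, f1, f2']
  rw [l1, l2]

/-- The sequence fed to `exists_alt_hom`. -/
def carmSeq (z : ℕ → W) : ℕ → W
  | 0 => 1
  | 1 => (z 0)⁻¹
  | i + 2 => ee (z i) (z (i + 1))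

theorem relAlt_carmSeq (h : Carm z m) : RelAlt (carmSeq z) (m + 1) := by
  have hinv : ∀ i, i + 1 < m → (ee (z i) (z (i + 1)))⁻¹ = ee (z i) (z (i + 1)) := fun i hi =>
    inv_eq_of_mul_eq_one_right (ee_sq (h.1 i (by omega)) (h.2 i (i + 1) (by omega) hi (by omega)))
  constructor
  · rintro (_ | _ | i) hi
    · show (1 * ((z 0)⁻¹)⁻¹) ^ 3 = 1
      rw [one_mul, inv_inv]
      exact h.1 0 (by omega)
    · show ((z 0)⁻¹ * (ee (z 0) (z 1))⁻¹) ^ 3 = 1
      rw [hinv 0 (by omega)]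
      have h01 := h.2 0 1 (by omega) (by omega) (by omega)
      have e' : (z 0)⁻¹ * ee (z 0) (z 1) = (z 1)⁻¹ * z 0 := by simp [ee, mul_assoc]
      rw [e']
      have hy : (z 1)⁻¹ = z 1 * z 1 :=
        inv_eq_of_mul_eq_one_right (by rw [← h.1 1 (by omega), pow_three])
      have hc : (z 1)⁻¹ * z 0 = z 1 * (z 1 * z 0 * z 1) * (z 1)⁻¹ := by
        simp only [mul_assoc, mul_inv_cancel, mul_one]
        rw [hy, mul_assoc]
      rw [hc, conj_pow, yxy h01, inv_pow, h.1 0 (by omega)]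
      group
    · show (ee (z i) (z (i + 1)) * (ee (z (i + 1)) (z (i + 2)))⁻¹) ^ 3 = 1
      rw [hinv (i + 1) (by omega)]
      set e := ee (z i) (z (i + 1))
      set f := ee (z (i + 1)) (z (i + 2))
      have hb : e * f * e = f * e * f :=
        ee_braid h (by omega) (by omega) (by omega) (by omega) (by omega) (by omega)
      calc (e * f) ^ 3 = e * f * e * (f * e * f) := by simp [pow_three, mul_assoc]
        _ = e * f * e * (e * f * e) := by rw [hb]
        _ = 1 := by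
          rw [show e * f * e * (e * f * e) = e * f * (e * e) * f * e by group,
            ee_sq (h.1 i (by omega)) (h.2 i (i + 1) (by omega) (by omega) (by omega)), mul_one,
            mul_assoc e f f,
            ee_sq (h.1 _ (by omega)) (h.2 (i + 1) (i + 2) (by omega) (by omega) (by omega)),
            mul_one, ee_sq (h.1 i (by omega)) (h.2 i (i + 1) (by omega) (by omega) (by omega))]
  · intro i j hij hj
    obtain ⟨j, rfl⟩ : ∃ j', j = j' + 2 := ⟨j - 2, by omega⟩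
    have hj2 := ee_sq (h.1 j (by omega)) (h.2 j (j + 1) (by omega) (by omega) (by omega))
    show (carmSeq z i * (ee (z j) (z (j + 1)))⁻¹) ^ 2 = 1
    rw [hinv j (by omega), sq]
    rcases i with _ | _ | i
    · show 1 * _ * (1 * _) = 1
      rw [one_mul, hj2]
    · show (z 0)⁻¹ * ee (z j) (z (j + 1)) * ((z 0)⁻¹ * ee (z j) (z (j + 1))) = 1
      have hc := ee_conj_other (h.1 j (by omega)) (h.2 j (j + 1) (by omega) (by omega) (by omega))
        (h.2 j 0 (by omega) (by omega) (by omega)) (h.2 (j + 1) 0 (by omega) (by omega) (by omega))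
      have hc' := congrArg (·⁻¹) hc
      simp only [mul_inv_rev, inv_inv, hinv j (by omega)] at hc'
      rw [mul_assoc, hc', inv_mul_cancel]
    · show ee (z i) (z (i + 1)) * _ * (ee (z i) (z (i + 1)) * _) = 1
      have hc : Commute (ee (z i) (z (i + 1))) (ee (z j) (z (j + 1))) := ee_commute h (by omega)
        (by omega) (by omega) (by omega) (by omega) (by omega) (by omega) (by omega) (by omega)
        (by omega)
      rw [hc.symm.mul_mul_mul_comm, ee_sq (h.1 i (by omega)) (h.2 i (i + 1) (by omega) (by omega)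
        (by omega)), hj2, one_mul]

/-- Carmichael's homomorphism. -/
theorem exists_carm_hom (h : Carm z m) :
    ∃ ψ : alternatingGroup (Fin (m + 2)) →* W, ∀ i (hi : i < m)
      (hm : cyc3 (⟨0, by omega⟩ : Fin (m + 2)) ⟨1, by omega⟩ ⟨i + 2, by omega⟩ ∈
        alternatingGroup (Fin (m + 2))), ψ ⟨_, hm⟩ = z i := by
  obtain ⟨ψ, hψ⟩ := exists_alt_hom (relAlt_carmSeq h)
  refine ⟨ψ, ?_⟩
  let x : ℕ → Perm (Fin (m + 2)) := fun i =>
    if hi : i < m then cyc3 ⟨0, by omega⟩ ⟨1, by omega⟩ ⟨i + 2, by omega⟩ else 1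
  have hswap : ∀ a b : ℕ, ∀ (ha : a < m + 1),
      b = a + 1 → ∀ (hb : b < m + 2), adjSwap (m + 1) a = swap ⟨a, by omega⟩ ⟨b, hb⟩ := by
    rintro a b ha rfl hb
    rw [adjSwap, dif_pos ha]
    rfl
  have hx : ∀ i (hi : i < m), x i ∈ alternatingGroup (Fin (m + 2)) := fun i hi => by
    simp only [x, dif_pos hi, cyc3, Perm.mem_alternatingGroup, map_mul]
    rw [Perm.sign_swap (by simp [Fin.ext_iff]), Perm.sign_swap (by simp [Fin.ext_iff])]
    rfl
  have key : ∀ i (hi : i < m), ψ ⟨x i, hx i hi⟩ = z i := by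
    intro i hi
    induction i with
    | zero =>
      have hs : adjSwap (m + 1) 1 * adjSwap (m + 1) 0 = (x 0)⁻¹ := by
        rw [hswap 1 2 (by omega) rfl (by omega), hswap 0 1 (by omega) rfl (by omega)]
        simp [x, dif_pos hi, cyc3]
      have hm' : adjSwap (m + 1) 1 * adjSwap (m + 1) 0 ∈ alternatingGroup (Fin (m + 2)) := by
        rw [hs]; exact inv_mem (hx 0 hi)
      have e := hψ 1 0 (by omega) (by omega) hm'
      rw [show (⟨_, hm'⟩ : alternatingGroup (Fin (m + 2))) = ⟨x 0, hx 0 hi⟩⁻¹ from Subtype.ext hs,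
        map_inv] at e
      simpa [carmSeq] using e
    | succ i ih =>
      set τ := adjSwap (m + 1) (i + 2) * adjSwap (m + 1) 0 with hτ
      have hτe : τ = swap (⟨i + 2, by omega⟩ : Fin (m + 2)) ⟨i + 3, by omega⟩ *
          swap ⟨0, by omega⟩ ⟨1, by omega⟩ := by
        rw [hτ, hswap _ _ (by omega) rfl (by omega), hswap 0 1 (by omega) rfl (by omega)]
      have hτm : τ ∈ alternatingGroup (Fin (m + 2)) := by
        rw [hτe, Perm.mem_alternatingGroup, map_mul, Perm.sign_swap (by simp [Fin.ext_iff]),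
          Perm.sign_swap (by simp [Fin.ext_iff])]
        rfl
      have e := hψ (i + 2) 0 (by omega) (by omega) hτm
      have hconj : (⟨τ, hτm⟩ : alternatingGroup (Fin (m + 2))) * ⟨x i, hx i (by omega)⟩ *
          (⟨τ, hτm⟩)⁻¹ = ⟨x (i + 1), hx (i + 1) hi⟩⁻¹ := by
        apply Subtype.ext
        show τ * x i * τ⁻¹ = (x (i + 1))⁻¹
        simp only [x, dif_pos hi, dif_pos (show i < m by omega)]
        have n1 : ∀ a b : Fin (m + 2), a.val ≠ b.val → a ≠ b := fun a b h e => h (congrArg _ e)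
        rw [conj_cyc3, hτe, Perm.mul_apply, Perm.mul_apply, Perm.mul_apply, swap_apply_left,
          swap_apply_right, swap_apply_of_ne_of_ne (n1 ⟨i + 2, _⟩ ⟨0, _⟩ (Nat.succ_ne_zero _))
            (n1 ⟨i + 2, _⟩ ⟨1, _⟩ (show i + 2 ≠ 1 by omega)), swap_apply_left,
          swap_apply_of_ne_of_ne (n1 ⟨0, _⟩ ⟨i + 2, _⟩ (show 0 ≠ i + 2 by omega))
            (n1 ⟨0, _⟩ ⟨i + 3, _⟩ (show 0 ≠ i + 3 by omega)),
          swap_apply_of_ne_of_ne (n1 ⟨1, _⟩ ⟨i + 2, _⟩ (show 1 ≠ i + 2 by omega))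
            (n1 ⟨1, _⟩ ⟨i + 3, _⟩ (show 1 ≠ i + 3 by omega))]
        exact cyc3_swap (n1 _ _ (show i + 3 ≠ 0 by omega)) (n1 _ _ (show i + 3 ≠ 1 by omega))
      have e2 := congrArg ψ hconj
      rw [map_mul, map_mul, ih (by omega)] at e2
      have e' : ψ ⟨τ, hτm⟩ = ee (z i) (z (i + 1)) := by
        rw [show (⟨τ, hτm⟩ : alternatingGroup (Fin (m + 2))) = ⟨_, hτm⟩ from rfl, e]
        simp [carmSeq]
      rw [map_inv, map_inv, e', inv_eq_of_mul_eq_one_right
        (ee_sq (h.1 i (by omega)) (h.2 i (i + 1) (by omega) hi (by omega))),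
        ee_conj_self (h.1 i (by omega)) (h.1 _ hi) (h.2 i (i + 1) (by omega) hi (by omega)),
        inv_inj] at e2
      exact e2.symm
  intro i hi hm
  have h2 := key i hi
  simp only [x, dif_pos hi] at h2
  exact h2

end Cfsg.Agent.GKKL
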