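import Cfsg.Agent.GKKL.Carmichael

/-!
Four relations on two generators presenting (a double cover of) `A_{p+2}`, built on the affine
group of degree `p`.
-/

set_option autoImplicit false

namespace Cfsg.Agent.GKKL

open Equiv

variable (p : ℕ) [hp : Fact p.Prime]

/-- The points of the small alternating group. -/
def ptEquiv : Fin 2 ⊕ ZMod p ≃ Fin (p + 2) :=
  ((Equiv.refl (Fin 2)).sumCongr (ZMod.finEquiv p).toEquiv.symm).trans
    (finSumFinEquiv.trans (finCongr (Nat.add_comm 2 p)))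

/-- The three-cycle attached to a residue. -/
def xp (i : ZMod p) : Perm (Fin (p + 2)) :=
  cyc3 (ptEquiv p (Sum.inl 0)) (ptEquiv p (Sum.inl 1)) (ptEquiv p (Sum.inr i))

/-- The translation. -/
def abar : Perm (Fin (p + 2)) :=
  (ptEquiv p).permCongr (Equiv.sumCongr 1 (Equiv.addRight (1 : ZMod p)))

/-- The multiplication by `g`, swapping the two special points. -/
def bbar (g : (ZMod p)ˣ) : Perm (Fin (p + 2)) :=
  (ptEquiv p).permCongr (Equiv.sumCongr (swap 0 1) (Units.mulLeft g))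

theorem xp_mem (i : ZMod p) : xp p i ∈ alternatingGroup (Fin (p + 2)) := by
  rw [Perm.mem_alternatingGroup, xp, cyc3, map_mul, Perm.sign_swap (by simp),
    Perm.sign_swap (by simp)]
  rfl

theorem abar_conj (i : ZMod p) : abar p * xp p i * (abar p)⁻¹ = xp p (i + 1) := by
  simp [xp, conj_cyc3, abar]

theorem bbar_conj (g : (ZMod p)ˣ) (i : ZMod p) :
    bbar p g * xp p i * (bbar p g)⁻¹ = (xp p (g * i))⁻¹ := by
  rw [xp, conj_cyc3]
  simp only [bbar, permCongr_apply, symm_apply_apply, Equiv.sumCongr_apply, Sum.map_inl,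
    Sum.map_inr, swap_apply_left, swap_apply_right, Units.mulLeft_apply]
  exact cyc3_swap (by simp) (by simp)

theorem permCongr_pow {α β : Type*} (e : α ≃ β) (σ : Perm α) (k : ℕ) :
    e.permCongr σ ^ k = e.permCongr (σ ^ k) := (map_pow e.permCongrHom σ k).symm

theorem abar_pow (k : ℕ) :
    abar p ^ k = (ptEquiv p).permCongr (Equiv.sumCongr 1 (Equiv.addRight (k : ZMod p))) := by
  induction k with
  | zero =>
    rw [pow_zero, Nat.cast_zero]
    refine Equiv.ext fun x => ?_
    obtain ⟨y, rfl⟩ := (ptEquiv p).surjective x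
    rcases y with y | y <;> simp
  | succ k ih =>
    rw [pow_succ, ih, abar]
    refine Equiv.ext fun x => ?_
    obtain ⟨y, rfl⟩ := (ptEquiv p).surjective x
    rcases y with y | y <;> simp [add_assoc, add_comm 1 (k : ZMod p)]

theorem abar_pow_self : abar p ^ p = 1 := by
  rw [abar_pow, ZMod.natCast_self]
  refine Equiv.ext fun x => ?_
  obtain ⟨y, rfl⟩ := (ptEquiv p).surjective x
  rcases y with y | y <;> simp

theorem bbar_conj_abar (g : (ZMod p)ˣ) (k l : ℕ) (h : (l : ZMod p) = g * k) :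
    bbar p g * abar p ^ k * (bbar p g)⁻¹ = abar p ^ l := by
  rw [mul_inv_eq_iff_eq_mul, abar_pow, abar_pow, h, bbar]
  refine Equiv.ext fun x => ?_
  obtain ⟨y, rfl⟩ := (ptEquiv p).surjective x
  rcases y with y | y <;> simp [mul_add]

theorem bbar_pow_pred (hp2 : p ≠ 2) (g : (ZMod p)ˣ) : bbar p g ^ (p - 1) = 1 := by
  obtain ⟨k, hk⟩ := hp.out.even_sub_one hp2
  have hpow : ∀ j, bbar p g ^ j =
      (ptEquiv p).permCongr (Equiv.sumCongr (swap 0 1 ^ j) (Units.mulLeft (g ^ j))) := by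
    intro j
    induction j with
    | zero =>
      refine Equiv.ext fun x => ?_
      obtain ⟨y, rfl⟩ := (ptEquiv p).surjective x
      rcases y with y | y <;> simp
    | succ j ih =>
      rw [pow_succ, ih, bbar]
      refine Equiv.ext fun x => ?_
      obtain ⟨y, rfl⟩ := (ptEquiv p).surjective x
      rcases y with y | y <;> simp [pow_succ, mul_assoc]
  rw [hpow, ZMod.units_pow_card_sub_one_eq_one, hk,
    show k + k = 2 * k by omega, pow_mul, sq, swap_mul_self, one_pow]
  refine Equiv.ext fun x => ?_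
  obtain ⟨y, rfl⟩ := (ptEquiv p).surjective x
  rcases y with y | y <;> simp

theorem abar_mem (hp2 : p ≠ 2) : abar p ∈ alternatingGroup (Fin (p + 2)) := by
  rw [Perm.mem_alternatingGroup]
  have h := congrArg Perm.sign (abar_pow_self p)
  rw [map_pow, map_one] at h
  rcases Int.units_eq_one_or (Perm.sign (abar p)) with h1 | h1
  · exact h1
  · rw [h1, (hp.out.odd_of_ne_two hp2).neg_one_pow] at h
    exact absurd h (by decide)

theorem sign_mulLeft (hp2 : p ≠ 2) (g : (ZMod p)ˣ) (hg : ∀ x : (ZMod p)ˣ, x ∈ Subgroup.zpowers g) :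
    Perm.sign (Units.mulLeft g : Perm (ZMod p)) = -1 := by
  classical
  have h3 : 3 ≤ p := by have := hp.out.two_le; omega
  have hg1 : g ≠ 1 := by
    rintro rfl
    have h : ∀ x : (ZMod p)ˣ, x = 1 := fun x => by
      have := hg x; rwa [Subgroup.zpowers_one_eq_bot, Subgroup.mem_bot] at this
    have := Fintype.card_le_one_iff_subsingleton.2 ⟨fun a b => (h a).trans (h b).symm⟩
    rw [ZMod.card_units] at this
    omega
  have hfix : ∀ x : ZMod p, Units.mulLeft g x ≠ x ↔ x ≠ 0 := fun x => by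
    show ¬ (g : ZMod p) * x = x ↔ ¬ x = 0
    refine not_congr ⟨fun h => ?_, fun h => by rw [h, mul_zero]⟩
    by_contra hx
    exact hg1 (Units.ext (mul_right_cancel₀ hx (h.trans (one_mul x).symm)))
  have hcyc : (Units.mulLeft g : Perm (ZMod p)).IsCycle := by
    refine ⟨1, (hfix 1).2 one_ne_zero, fun y hy => ?_⟩
    obtain ⟨j, hj⟩ := Subgroup.mem_zpowers_iff.1 (hg (Units.mk0 y ((hfix y).1 hy)))
    refine ⟨j, ?_⟩
    let φ : (ZMod p)ˣ →* Perm (ZMod p) :=
      { toFun := Units.mulLeft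
        map_one' := by ext x; simp
        map_mul' := fun u v => by ext x; simp [mul_assoc] }
    show (φ g ^ j) 1 = y
    rw [← map_zpow]
    show ((g ^ j : (ZMod p)ˣ) : ZMod p) * 1 = y
    rw [mul_one, hj, Units.val_mk0]
  rw [hcyc.sign, show Perm.support (Units.mulLeft g : Perm (ZMod p)) = {0}ᶜ by
    ext x; rw [Perm.mem_support, hfix x]; simp, Finset.card_compl, Finset.card_singleton, ZMod.card,
    (hp.out.even_sub_one hp2).neg_one_pow]

theorem bbar_mem (hp2 : p ≠ 2) (g : (ZMod p)ˣ) (hg : ∀ x : (ZMod p)ˣ, x ∈ Subgroup.zpowers g) :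
    bbar p g ∈ alternatingGroup (Fin (p + 2)) := by
  rw [Perm.mem_alternatingGroup, bbar, Perm.sign_permCongr, Perm.sign_sumCongr,
    Perm.sign_swap (by decide), sign_mulLeft p hp2 g hg]
  rfl

/-- The permutation value of a word. -/
def evalPerm : FreeGroup (ZMod p) →* Perm (Fin (p + 2)) := FreeGroup.lift (xp p)

theorem exists_word {σ : Perm (Fin (p + 2))} (hσ : σ ∈ alternatingGroup (Fin (p + 2))) :
    ∃ w, evalPerm p w = σ := by
  refine (altOn_le_of_cyc3 (T := Set.univ) (X := (evalPerm p).range)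
    (c := ptEquiv p (Sum.inl 0)) (e := ptEquiv p (Sum.inl 1)) (by simp) ?_)
    ⟨Perm.mem_alternatingGroup.1 hσ, fun x hx => absurd (Set.mem_univ x) hx⟩
  intro t _ h0 h1
  obtain ⟨y, rfl⟩ := (ptEquiv p).surjective t
  rcases y with y | y
  · fin_cases y
    · exact absurd rfl h0
    · exact absurd rfl h1
  · rw [cyc3_rotate h0 h1]
    exact ⟨FreeGroup.of y, FreeGroup.lift_apply_of ..⟩

variable {W : Type*} [Group W]

/-- The conjugates of `z` by powers of `a`. -/
def zc (a z : W) (i : ZMod p) : W := a ^ i.val * z * (a ^ i.val)⁻¹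

/-- The value of a word. -/
def evalW (a z : W) : FreeGroup (ZMod p) →* W := FreeGroup.lift (zc p a z)

theorem map_evalW {W' : Type*} [Group W'] (f : W →* W') (a z : W) (w : FreeGroup (ZMod p)) :
    f (evalW p a z w) = evalW p (f a) (f z) w := by
  have : f.comp (evalW p a z) = evalW p (f a) (f z) := FreeGroup.ext_hom _ _ fun i => by
    simp [evalW, zc]
  exact DFunLike.congr_fun this w

theorem hom_evalW {a z : W} (ψ : alternatingGroup (Fin (p + 2)) →* W)
    (hψ : ∀ i, ψ ⟨xp p i, xp_mem p i⟩ = zc p a z i) (w : FreeGroup (ZMod p))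
    (hw : evalPerm p w ∈ alternatingGroup (Fin (p + 2))) :
    ψ ⟨evalPerm p w, hw⟩ = evalW p a z w := by
  let ev : FreeGroup (ZMod p) →* alternatingGroup (Fin (p + 2)) :=
    FreeGroup.lift fun i => ⟨xp p i, xp_mem p i⟩
  have h1 : ψ.comp ev = evalW p a z := FreeGroup.ext_hom _ _ fun i => by
    simp [ev, evalW, hψ]
  have h2 : (alternatingGroup (Fin (p + 2))).subtype.comp ev = evalPerm p :=
    FreeGroup.ext_hom _ _ fun i => by simp [ev, evalPerm]
  have h3 : (⟨evalPerm p w, hw⟩ : alternatingGroup (Fin (p + 2))) = ev w :=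
    Subtype.ext (DFunLike.congr_fun h2 w).symm
  rw [h3]
  exact DFunLike.congr_fun h1 w

/-- The four relations; `s` is inverse to `g - 1` modulo `p`, `wb` a word for `bbar`. -/
structure Rels (s : ℕ) (wb : FreeGroup (ZMod p)) (a z : W) : Prop where
  r1 : a ^ p = evalW p a z wb ^ (p - 1)
  r2 : evalW p a z wb * a ^ s * (evalW p a z wb)⁻¹ = a ^ (s + 1)
  r4 : evalW p a z wb * z * (evalW p a z wb)⁻¹ = z⁻¹
  r5 : (z * (a * z * a⁻¹)) ^ 2 = z ^ 3

variable {p} {g : (ZMod p)ˣ} {s : ℕ} {wb : FreeGroup (ZMod p)} {a z : W}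

section facts

variable (h : Rels p s wb a z)
include h

theorem Rels.pow_p : a ^ p = 1 := by
  set b := evalW p a z wb
  have h1 : b * a ^ p * b⁻¹ = a ^ p := by
    rw [h.r1, ← pow_succ', pow_succ, mul_inv_cancel_right]
  have h2 : b * (a ^ p) ^ s * b⁻¹ = (a ^ p) ^ s := by rw [← conj_pow, h1]
  have h3 : b * (a ^ p) ^ s * b⁻¹ = (a ^ p) ^ (s + 1) := by
    rw [← pow_mul, mul_comm p s, pow_mul, ← conj_pow, h.r2, ← pow_mul, ← pow_mul, mul_comm]
  rw [h2, pow_succ] at h3
  exact (mul_eq_left.1 h3.symm)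

theorem Rels.pow_eq {k l : ℕ} (hkl : (k : ZMod p) = l) : a ^ k = a ^ l := by
  rw [← Nat.mod_add_div k p, ← Nat.mod_add_div l p, pow_add, pow_add, pow_mul, pow_mul,
    h.pow_p, one_pow, one_pow, (ZMod.natCast_eq_natCast_iff' k l p).1 hkl]

theorem Rels.zc_add (i : ZMod p) (k : ℕ) : a ^ k * zc p a z i * (a ^ k)⁻¹ = zc p a z (i + k) := by
  have : a ^ (i + (k : ZMod p)).val = a ^ k * a ^ i.val := by
    rw [← pow_add]
    exact h.pow_eq (by rw [ZMod.natCast_zmod_val, Nat.cast_add, ZMod.natCast_zmod_val, add_comm])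
  simp only [zc, this, mul_inv_rev, mul_assoc]

variable (hs : (s : ZMod p) * ((g : ZMod p) - 1) = 1)
include hs

theorem Rels.conj_pow_a (k l : ℕ) (hl : (l : ZMod p) = g * k) :
    evalW p a z wb * a ^ k * (evalW p a z wb)⁻¹ = a ^ l := by
  set t := ((g : ZMod p) - 1).val
  have ht : a ^ (s * (t * k)) = a ^ k := h.pow_eq (by
    push_cast [t]
    rw [ZMod.natCast_zmod_val, ← mul_assoc, hs, one_mul])
  rw [← ht, pow_mul, ← conj_pow, h.r2, ← pow_mul]
  refine h.pow_eq ?_
  push_cast [t]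
  rw [hl, ZMod.natCast_zmod_val, add_mul, one_mul, ← mul_assoc, hs, one_mul]
  ring

theorem Rels.conj_zc (i : ZMod p) :
    evalW p a z wb * zc p a z i * (evalW p a z wb)⁻¹ = (zc p a z (g * i))⁻¹ := by
  set b := evalW p a z wb
  have h1 : b * a ^ i.val * b⁻¹ = a ^ ((g : ZMod p) * i).val :=
    h.conj_pow_a hs _ _ (by rw [ZMod.natCast_zmod_val, ZMod.natCast_zmod_val])
  calc b * zc p a z i * b⁻¹
      = (b * a ^ i.val * b⁻¹) * (b * z * b⁻¹) * (b * a ^ i.val * b⁻¹)⁻¹ := by
        simp only [zc]; group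
    _ = _ := by rw [h1, h.r4]; simp only [zc, mul_inv_rev, inv_inv, mul_assoc]

variable (hg : ∀ x : (ZMod p)ˣ, x ∈ Subgroup.zpowers g)
include hg

theorem Rels.pair (i j : ZMod p) (hij : i ≠ j) :
    (zc p a z i * zc p a z j) ^ 2 = zc p a z i ^ 3 := by
  let D : ZMod p → Prop := fun d => ∀ i, (zc p a z i * zc p a z (i + d)) ^ 2 = zc p a z i ^ 3
  have h1 : D 1 := by
    intro i
    have e1 : a * zc p a z i * a⁻¹ = zc p a z (i + 1) := by
      simpa using h.zc_add i 1
    have e0 : zc p a z i = a ^ i.val * zc p a z 0 * (a ^ i.val)⁻¹ := by simp [zc]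
    have : zc p a z (i + 1) = a ^ i.val * (a * z * a⁻¹) * (a ^ i.val)⁻¹ := by
      rw [← e1]
      have hc : a * a ^ i.val = a ^ i.val * a := (Commute.self_pow a _).eq
      simp only [zc, ← mul_assoc, hc]
      rw [mul_assoc _ (a ^ i.val)⁻¹ a⁻¹, ← mul_inv_rev, hc, mul_inv_rev, ← mul_assoc]
    rw [this, zc, show ∀ u x y : W, u * x * u⁻¹ * (u * y * u⁻¹) = u * (x * y) * u⁻¹ from
      fun u x y => by group, conj_pow, conj_pow, h.r5]
  have hstep : ∀ d, D d → D (g * d) := by
    intro d hd I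
    obtain ⟨i, rfl⟩ : ∃ i, (g : ZMod p) * i = I := ⟨_, Units.mul_inv_cancel_left g I⟩
    have e := congrArg (fun x => evalW p a z wb * x * (evalW p a z wb)⁻¹) (hd i)
    simp only [← conj_pow] at e
    rw [show ∀ b x y : W, b * (x * y) * b⁻¹ = (b * x * b⁻¹) * (b * y * b⁻¹) from
      fun b x y => by group, h.conj_zc hs, h.conj_zc hs, mul_add] at e
    rw [← mul_inv_rev, inv_pow, inv_pow, inv_inj] at e
    set x := zc p a z ((g : ZMod p) * i)
    set y := zc p a z ((g : ZMod p) * i + (g : ZMod p) * d)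
    calc (x * y) ^ 2 = x * (y * x) ^ 2 * x⁻¹ := by rw [sq, sq]; group
      _ = x ^ 3 := by rw [e]; group
  have hall : ∀ k : ℕ, D ((g : ZMod p) ^ k) := fun k => by
    induction k with
    | zero => simpa using h1
    | succ k ih => rw [pow_succ']; exact hstep _ ih
  obtain ⟨k, hk⟩ := mem_powers_iff_mem_zpowers.2 (hg (Units.mk0 (j - i) (sub_ne_zero.2 hij.symm)))
  have h2 := hall k i
  rw [← Units.val_pow_eq_pow_val, show g ^ k = _ from hk, Units.val_mk0, add_sub_cancel] at h2
  exact h2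

theorem Rels.cube (i : ZMod p) : zc p a z i ^ 3 = z ^ 3 := by
  rcases eq_or_ne i 0 with rfl | hi
  · simp [zc]
  · have e1 := h.pair hs hg i 0 hi
    have e2 := h.pair hs hg 0 i hi.symm
    set x := zc p a z i
    rw [show zc p a z 0 = z by simp [zc]] at e1 e2
    calc x ^ 3 = x⁻¹ * x ^ 3 * x := by group
      _ = x⁻¹ * (x * z) ^ 2 * x := by rw [e1]
      _ = (z * x) ^ 2 := by rw [sq, sq]; group
      _ = z ^ 3 := e2

theorem Rels.cube_comm_zc (i : ZMod p) : Commute (z ^ 3) (zc p a z i) := by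
  rw [← h.cube hs hg i]
  exact Commute.pow_self _ _

theorem Rels.cube_comm_a : Commute (z ^ 3) a := by
  have e := h.cube hs hg 1
  haveI : Fact (1 < p) := ⟨hp.out.one_lt⟩
  rw [zc, ZMod.val_one, pow_one, conj_pow] at e
  exact (mul_inv_eq_iff_eq_mul.1 e).symm

theorem Rels.cube_sq : z ^ 3 * z ^ 3 = 1 := by
  have hne : (0 : ZMod p) ≠ 1 := zero_ne_one
  have e1 := h.pair hs hg 0 1 hne
  have e2 := h.pair hs hg 1 0 hne.symm
  have hy := h.cube hs hg 1
  rw [show zc p a z 0 = z by simp [zc]] at e1 e2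
  rw [hy] at e2
  generalize zc p a z 1 = y at e1 e2 hy
  set x := z
  -- `y x y⁻¹ = x⁻¹ y` and `x y x⁻¹ = y⁻¹ x`
  have f : ∀ u v : W, u ^ 3 = v ^ 3 → (u * v) ^ 2 = u ^ 3 → v * u * v⁻¹ = u⁻¹ * v := by
    intro u v h3 h2
    have a1 : v * u * v = u * u := by
      have := congrArg (u⁻¹ * ·) h2
      simpa [sq, pow_three, mul_assoc] using this
    calc v * u * v⁻¹ = v * u * v * (v⁻¹ * v⁻¹) := by group
      _ = u * u * (v⁻¹ * v⁻¹) := by rw [a1]
      _ = u⁻¹ * u ^ 3 * (v⁻¹ * v⁻¹) := by rw [pow_three, inv_mul_cancel_left]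
      _ = u⁻¹ * v := by rw [h3]; group
  have g1 := congrArg (· ^ 3) (f x y hy.symm e1)
  have g2 := congrArg (· ^ 3) (f y x hy (e2.trans hy.symm))
  simp only [conj_pow] at g1 g2
  rw [← hy, mul_assoc, show y ^ 3 * y⁻¹ = y⁻¹ * y ^ 3 by group, mul_inv_cancel_left] at g1
  rw [hy, mul_assoc, show x ^ 3 * x⁻¹ = x⁻¹ * x ^ 3 by group, mul_inv_cancel_left,
    show (y⁻¹ * x) = (x⁻¹ * y)⁻¹ by group, inv_pow, ← g1, hy] at g2
  rw [← inv_mul_cancel (x ^ 3), ← g2]

end facts

section homs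

/-- With `z ^ 3 = 1`, the hom from the alternating group. -/
theorem Rels.exists_hom (h : Rels p s wb a z) (hs : (s : ZMod p) * ((g : ZMod p) - 1) = 1)
    (hg : ∀ x : (ZMod p)ˣ, x ∈ Subgroup.zpowers g) (hz : z ^ 3 = 1) :
    ∃ ψ : alternatingGroup (Fin (p + 2)) →* W, ∀ i, ψ ⟨xp p i, xp_mem p i⟩ = zc p a z i := by
  have hC : Carm (fun i : ℕ => zc p a z (i : ZMod p)) p := by
    refine ⟨fun i _ => (h.cube hs hg _).trans hz, fun i j hi hj hij => ?_⟩
    refine (h.pair hs hg _ _ fun e => hij ?_).trans ((h.cube hs hg _).trans hz)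
    rw [ZMod.natCast_eq_natCast_iff', Nat.mod_eq_of_lt hi, Nat.mod_eq_of_lt hj] at e
    exact e
  obtain ⟨ψ, hψ⟩ := exists_carm_hom hC
  refine ⟨ψ, fun i => ?_⟩
  have e : xp p i = cyc3 (⟨0, by omega⟩ : Fin (p + 2)) ⟨1, by omega⟩
      ⟨i.val + 2, by have := ZMod.val_lt i; omega⟩ := by
    have hv : ((ZMod.finEquiv p).symm i).val = i.val := by
      cases p with
      | zero => exact absurd hp.out Nat.not_prime_zero
      | succ n => rfl
    rw [xp]
    congr 1 <;> apply Fin.ext <;> simp [ptEquiv, hv, add_comm]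
  have h2 := hψ i.val (ZMod.val_lt i) (e ▸ xp_mem p i)
  rw [ZMod.natCast_zmod_val] at h2
  rw [← h2]
  exact congrArg ψ (Subtype.ext e)

theorem Rels.eq_hom_abar (h : Rels p s wb a z) (hs : (s : ZMod p) * ((g : ZMod p) - 1) = 1)
    (hp2 : p ≠ 2) (hwb : evalPerm p wb = bbar p g)
    (hg : ∀ x : (ZMod p)ˣ, x ∈ Subgroup.zpowers g) (ψ : alternatingGroup (Fin (p + 2)) →* W)
    (hψ : ∀ i, ψ ⟨xp p i, xp_mem p i⟩ = zc p a z i) :
    ψ ⟨abar p, abar_mem p hp2⟩ = a := by
  set A : alternatingGroup (Fin (p + 2)) := ⟨abar p, abar_mem p hp2⟩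
  set B : alternatingGroup (Fin (p + 2)) := ⟨bbar p g, bbar_mem p hp2 g hg⟩
  have hb : ψ B = evalW p a z wb := by
    rw [← hom_evalW p ψ hψ wb (hwb ▸ B.2)]
    exact congrArg ψ (Subtype.ext hwb.symm)
  have hev : ∀ w : FreeGroup (ZMod p), evalPerm p w ∈ alternatingGroup (Fin (p + 2)) := by
    intro w
    induction w using FreeGroup.induction_on with
    | C1 => rw [map_one]; exact one_mem _
    | of x => rw [evalPerm, FreeGroup.lift_apply_of]; exact xp_mem p x
    | inv_of x hx => rw [map_inv]; exact inv_mem hx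
    | mul x y hx hy => rw [map_mul]; exact mul_mem hx hy
  have hcj : ∀ σ : alternatingGroup (Fin (p + 2)), a * ψ σ * a⁻¹ = ψ (A * σ * A⁻¹) := by
    intro σ
    obtain ⟨w, hw⟩ := exists_word p σ.2
    have hσ : σ = ⟨evalPerm p w, hev w⟩ := Subtype.ext hw.symm
    subst hσ
    let ev : FreeGroup (ZMod p) →* alternatingGroup (Fin (p + 2)) :=
      FreeGroup.lift fun i => ⟨xp p i, xp_mem p i⟩
    have h3 : (⟨evalPerm p w, hev w⟩ : alternatingGroup (Fin (p + 2))) = ev w :=
      Subtype.ext (DFunLike.congr_fun (FreeGroup.ext_hom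
        ((alternatingGroup (Fin (p + 2))).subtype.comp ev) (evalPerm p)
        fun i => by simp [ev, evalPerm]) w).symm
    rw [h3]
    have : (MulAut.conj a).toMonoidHom.comp (ψ.comp ev) =
        (ψ.comp (MulAut.conj A).toMonoidHom).comp ev := FreeGroup.ext_hom _ _ fun i => by
      have e1 : A * ⟨xp p i, xp_mem p i⟩ * A⁻¹ =
          (⟨xp p (i + 1), xp_mem p (i + 1)⟩ : alternatingGroup (Fin (p + 2))) :=
        Subtype.ext (abar_conj p i)
      have e2 : a * zc p a z i * a⁻¹ = zc p a z (i + 1) := by simpa using h.zc_add i 1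
      simp [ev, hψ, e1, e2]
    exact DFunLike.congr_fun this w
  set e := (ψ A)⁻¹ * a
  have hce : ∀ σ, e * ψ σ * e⁻¹ = ψ σ := by
    intro σ
    have := hcj σ
    rw [map_mul, map_mul, map_inv] at this
    calc e * ψ σ * e⁻¹ = (ψ A)⁻¹ * (a * ψ σ * a⁻¹) * ψ A := by simp only [e]; group
      _ = ψ σ := by rw [this]; group
  have hcA : Commute e (ψ A) := mul_inv_eq_iff_eq_mul.1 (hce A)
  have hcB : Commute e (ψ B) := mul_inv_eq_iff_eq_mul.1 (hce B)
  have ha : a = ψ A * e := by simp [e]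
  have hep : e ^ p = 1 := by
    have := h.pow_p
    rw [ha, hcA.symm.mul_pow, ← map_pow, show A ^ p = 1 from Subtype.ext (abar_pow_self p),
      map_one, one_mul] at this
    exact this
  set r := (g : ZMod p).val
  have her : e ^ r = e := by
    have h1 := h.conj_pow_a hs 1 r (by rw [ZMod.natCast_zmod_val, Nat.cast_one, mul_one])
    rw [pow_one, ← hb] at h1
    have h2 : B * A * B⁻¹ = A ^ r := Subtype.ext (by
      have := bbar_conj_abar p g 1 r (by rw [ZMod.natCast_zmod_val, Nat.cast_one, mul_one])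
      simpa using this)
    rw [ha, hcA.symm.mul_pow, show ψ B * (ψ A * e) * (ψ B)⁻¹ =
      (ψ B * ψ A * (ψ B)⁻¹) * (ψ B * e * (ψ B)⁻¹) by group, ← map_inv ψ, ← map_mul, ← map_mul,
      h2, map_pow, map_inv, ← hcB.eq, mul_inv_cancel_right] at h1
    exact (mul_left_cancel h1).symm
  have he : e = 1 := by
    by_contra hne
    have ho : orderOf e = p := orderOf_eq_prime hep hne
    have : r % p = 1 % p := by
      rw [← ho]; exact (pow_eq_pow_iff_modEq.1 (her.trans (pow_one e).symm))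
    have hg1 : (g : ZMod p) = 1 := by
      rw [← ZMod.natCast_zmod_val (g : ZMod p), ← Nat.cast_one, ZMod.natCast_eq_natCast_iff']
      exact this
    rw [hg1, sub_self, mul_zero] at hs
    exact zero_ne_one hs
  rw [ha, he, mul_one]

/-- Words trivial on points have powers in the central subgroup generated by `z ^ 3`. -/
theorem Rels.evalW_mem (h : Rels p s wb a z) (hs : (s : ZMod p) * ((g : ZMod p) - 1) = 1)
    (hg : ∀ x : (ZMod p)ˣ, x ∈ Subgroup.zpowers g) (w : FreeGroup (ZMod p))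
    (hw : evalPerm p w = 1) : evalW p a z w ∈ Subgroup.zpowers (z ^ 3) := by
  let N : Subgroup W := Subgroup.closure {a, z}
  have ha : a ∈ N := Subgroup.subset_closure (Or.inl rfl)
  have hz : z ∈ N := Subgroup.subset_closure (Or.inr rfl)
  let a' : N := ⟨a, ha⟩
  let z' : N := ⟨z, hz⟩
  have hcN : ∀ x : N, Commute (z' ^ 3) x := by
    intro x
    refine Subtype.ext (?_ : z ^ 3 * (x : W) = x * z ^ 3)
    have hle : N ≤ Subgroup.centralizer {z ^ 3} := by
      rw [Subgroup.closure_le]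
      rintro y (rfl | rfl)
      · exact Subgroup.mem_centralizer_singleton_iff.2 (h.cube_comm_a hs hg).eq.symm
      · exact Subgroup.mem_centralizer_singleton_iff.2 (Commute.self_pow _ 3).eq
    exact (Subgroup.mem_centralizer_singleton_iff.1 (hle x.2)).symm
  let C : Subgroup N := Subgroup.zpowers (z' ^ 3)
  haveI : C.Normal := ⟨fun c hc x => by
    obtain ⟨j, rfl⟩ := Subgroup.mem_zpowers_iff.1 hc
    rw [← ((hcN x).zpow_left j).eq, mul_inv_cancel_right]
    exact hc⟩
  let π := QuotientGroup.mk' C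
  have hsub : evalW p a z wb = N.subtype (evalW p a' z' wb) := (map_evalW p N.subtype a' z' wb).symm
  have h' : Rels p s wb (π a') (π z') := by
    have hN : Rels p s wb a' z' := by
      constructor <;> apply N.subtype_injective <;>
        simp only [map_pow, map_mul, map_inv, map_evalW] <;> simp [a', z', h.r1, h.r2, h.r4, h.r5]
    constructor <;> simp only [← map_evalW, ← map_pow, ← map_mul, ← map_inv]
    · simp only [map_pow, hN.r1]
    · simpa only [map_mul, map_pow, map_inv] using congrArg π hN.r2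
    · simpa only [map_mul, map_pow, map_inv] using congrArg π hN.r4
    · simpa only [map_mul, map_pow, map_inv] using congrArg π hN.r5
  obtain ⟨ψ, hψ⟩ := h'.exists_hom hs hg (by
    rw [← map_pow, QuotientGroup.mk'_apply, QuotientGroup.eq_one_iff]
    exact Subgroup.mem_zpowers _)
  have e := hom_evalW p ψ hψ w (hw ▸ one_mem _)
  rw [show (⟨evalPerm p w, hw ▸ one_mem _⟩ : alternatingGroup (Fin (p + 2))) = 1 from
    Subtype.ext hw, map_one, ← map_evalW] at e
  obtain ⟨j, hj⟩ := Subgroup.mem_zpowers_iff.1 ((QuotientGroup.eq_one_iff _).1 e.symm)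
  refine Subgroup.mem_zpowers_iff.2 ⟨j, ?_⟩
  have := congrArg N.subtype hj
  rw [map_zpow, map_pow, map_evalW] at this
  exact this

end homs

end Cfsg.Agent.GKKL
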