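import Cfsg.Agent.GKKL.AltOn

/-!
Cycles through prescribed points and generation by a cycle and a three-cycle.
-/

set_option autoImplicit false

namespace Cfsg.Agent.GKKL

open Equiv
open scoped Fin.NatCast

variable {Ω : Type*} [DecidableEq Ω] [Fintype Ω] {L : ℕ}

/-- The cycle `f 0 → f 1 → ... → f L → f 0`. -/
noncomputable def cyc (f : Fin (L + 1) → Ω) (hf : Function.Injective f) : Perm Ω :=
  (finRotate (L + 1)).viaEmbedding ⟨f, hf⟩

variable (f : Fin (L + 1) → Ω) (hf : Function.Injective f)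

theorem cyc_apply (i : Fin (L + 1)) : cyc f hf (f i) = f (i + 1) := by
  rw [cyc]
  exact (Perm.viaEmbedding_apply _ ⟨f, hf⟩ i).trans (by rw [finRotate_succ_apply]; rfl)

theorem cyc_fix {x : Ω} (hx : ∀ i, f i ≠ x) : cyc f hf x = x :=
  Perm.viaEmbedding_apply_of_notMem _ _ x fun ⟨i, hi⟩ => hx i hi

theorem cyc_pow_apply (j : ℕ) (i : Fin (L + 1)) :
    (cyc f hf ^ j) (f i) = f (i + (j : Fin (L + 1))) := by
  induction j with
  | zero => simp
  | succ j ih => rw [pow_succ', Perm.mul_apply, ih, cyc_apply, Nat.cast_succ, add_assoc]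

theorem cyc_reach (i : Fin (L + 1)) : ∃ j : ℕ, (cyc f hf ^ j) (f 0) = f i :=
  ⟨i.val, by rw [cyc_pow_apply, zero_add, Fin.cast_val_eq_self]⟩

theorem cyc_pow_self : cyc f hf ^ (L + 1) = 1 := by
  refine Equiv.ext fun x => ?_
  by_cases hx : ∃ i, f i = x
  · obtain ⟨i, rfl⟩ := hx
    rw [cyc_pow_apply, show ((L + 1 : ℕ) : Fin (L + 1)) = 0 from Fin.natCast_self _, add_zero]
    rfl
  · push Not at hx
    have hfix : ∀ k : ℕ, (cyc f hf ^ k) x = x := fun k => by
      induction k with
      | zero => rfl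
      | succ k ih => rw [pow_succ', Perm.mul_apply, ih, cyc_fix f hf hx]
    exact hfix (L + 1)

theorem sign_cyc : Perm.sign (cyc f hf) = (-1) ^ L := by
  classical
  rw [cyc, Perm.viaEmbedding, Perm.sign_extendDomain, sign_finRotate, Nat.add_sub_cancel]

theorem cyc_mem {T : Set Ω} (hT : ∀ i, f i ∈ T) (hL : Even L) : cyc f hf ∈ altOn T :=
  ⟨by rw [sign_cyc, hL.neg_one_pow], fun x hx => cyc_fix f hf fun i e => hx (e ▸ hT i)⟩

theorem cyc3_rev {a b c : Ω} : cyc3 c b a = (cyc3 a b c)⁻¹ := by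
  rw [cyc3, cyc3, mul_inv_rev, Equiv.swap_inv, Equiv.swap_inv, swap_comm c b, swap_comm b a]

/-- A cycle fixing `v`, together with `(v, f 0, f 1)`, gives every `(f i, v, f 0)`. -/
theorem cyc3_mem_of_cyc {X : Subgroup (Perm Ω)} {π : Perm Ω} (hπ : π ∈ X)
    (hπf : ∀ i, π (f i) = f (i + 1)) {v : Ω} (hπv : π v = v) (hv : ∀ i, f i ≠ v)
    (h0 : cyc3 v (f 0) (f 1) ∈ X) (hfi : Function.Injective f) (i : Fin (L + 1)) (hi : i ≠ 0) :
    cyc3 (f i) v (f 0) ∈ X := by
  have hseq : ∀ j : ℕ, cyc3 v (f (j : Fin (L + 1))) (f ((j : Fin (L + 1)) + 1)) ∈ X := by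
    intro j
    induction j with
    | zero => simpa using h0
    | succ j ih =>
      have h := X.mul_mem (X.mul_mem hπ ih) (X.inv_mem hπ)
      rw [conj_cyc3, hπv, hπf, hπf] at h
      rw [Nat.cast_succ]
      exact h
  have key : ∀ j : ℕ, 1 ≤ j → j ≤ L → cyc3 v (f 0) (f (j : Fin (L + 1))) ∈ X := by
    intro j h1 h2
    induction j, h1 using Nat.le_induction with
    | base => simpa using h0
    | succ j h1 ih =>
      set q := f (j : Fin (L + 1)) with hq
      set q' := f ((j : Fin (L + 1)) + 1) with hq'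
      have hτ := hseq j
      have hne : ∀ k : ℕ, 1 ≤ k → k ≤ L → f (k : Fin (L + 1)) ≠ f 0 := fun k a b e => by
        have := congrArg Fin.val (hfi e)
        rw [Fin.val_natCast, Nat.mod_eq_of_lt (by omega), Fin.val_zero] at this
        omega
      have n2 : q' ≠ f 0 := by rw [hq', ← Nat.cast_succ]; exact hne _ (by omega) h2
      have n3 : q ≠ q' := fun e => by
        have h3 := hfi e
        rw [← Nat.cast_succ] at h3
        have := congrArg Fin.val h3
        rw [Fin.val_natCast, Fin.val_natCast, Nat.mod_eq_of_lt (by omega),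
          Nat.mod_eq_of_lt (by omega)] at this
        omega
      have h3 := X.mul_mem (X.mul_mem (X.inv_mem hτ) (ih (by omega))) (X.inv_mem (X.inv_mem hτ))
      rw [← cyc3_rev, conj_cyc3] at h3
      have a1 : cyc3 q' q v v = q' := by
        rw [cyc3, Perm.mul_apply, swap_apply_right, swap_apply_right]
      have a2 : cyc3 q' q v q = v := by
        rw [cyc3, Perm.mul_apply, swap_apply_left]
        exact swap_apply_of_ne_of_ne (fun e => hv _ e.symm) (fun e => hv _ e.symm)
      have a3 : cyc3 q' q v (f 0) = f 0 := by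
        rw [cyc3, Perm.mul_apply,
          swap_apply_of_ne_of_ne (hne _ h1 (by omega)).symm (hv 0),
          swap_apply_of_ne_of_ne n2.symm (hne _ h1 (by omega)).symm]
      rw [a1, a2, a3] at h3
      rw [cyc3_rev, X.inv_mem_iff, cyc3_rotate (fun e => hv _ e.symm) (fun e => hv _ e.symm)] at h3
      rw [Nat.cast_succ, ← hq', cyc3_rotate (fun e => hv _ e.symm) (fun e => hv _ e.symm)]
      exact h3
  have hi' : 1 ≤ i.val := Nat.one_le_iff_ne_zero.2 fun e => hi (Fin.ext e)
  have := key i.val hi' (by have := i.2; omega)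
  rw [Fin.cast_val_eq_self, cyc3_rotate (fun e => hv _ e.symm) (fun e => hv _ e.symm),
    cyc3_rotate (fun e => hi (hfi e).symm) (hv 0)] at this
  exact this

end Cfsg.Agent.GKKL
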