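import Cfsg.Agent.GKKL.Carmichael

/-!
Carmichael's presentation with a cyclic group of symmetries.
-/

set_option autoImplicit false
set_option linter.unusedSectionVars false

namespace Cfsg.Agent.GKKL

open Equiv

variable {W : Type*} [Group W]

/-- Conjugates of `z ^ (ε ^ i)` by powers of `t`. -/
def cx (t z : W) (ε : ℤˣ) (i : ℕ) : W := t ^ i * z ^ ((ε ^ i : ℤˣ) : ℤ) * (t ^ i)⁻¹

/-- The three-cycles, indexed by naturals. -/
def cycP (m : ℕ) (i : Fin m) : Perm (Fin (m + 2)) :=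
  cyc3 (⟨0, by omega⟩ : Fin (m + 2)) ⟨1, by omega⟩ ⟨i.val + 2, by omega⟩

theorem cycP_mem (m : ℕ) (i : Fin m) : cycP m i ∈ alternatingGroup (Fin (m + 2)) := by
  rw [Perm.mem_alternatingGroup, cycP, cyc3, map_mul, Perm.sign_swap (by simp),
    Perm.sign_swap (by simp [Fin.ext_iff])]
  rfl

/-- Words in the three-cycles. -/
def evC (m : ℕ) : FreeGroup (Fin m) →* Perm (Fin (m + 2)) := FreeGroup.lift (cycP m)

/-- Words in the conjugates. -/
def evX (t z : W) (ε : ℤˣ) (m : ℕ) : FreeGroup (Fin m) →* W :=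
  FreeGroup.lift fun i => cx t z ε i.val

theorem map_cx {W' : Type*} [Group W'] (f : W →* W') (t z : W) (ε : ℤˣ) (i : ℕ) :
    f (cx t z ε i) = cx (f t) (f z) ε i := by
  simp [cx]

theorem map_evX {W' : Type*} [Group W'] (f : W →* W') (t z : W) (ε : ℤˣ) (m : ℕ)
    (w : FreeGroup (Fin m)) : f (evX t z ε m w) = evX (f t) (f z) ε m w :=
  DFunLike.congr_fun (FreeGroup.ext_hom (f.comp (evX t z ε m)) (evX (f t) (f z) ε m)
    fun i => by simp [evX, map_cx]) w

/-- The parity of the exponent sum. -/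
def expPar (m : ℕ) : FreeGroup (Fin m) →* Multiplicative (ZMod 2) :=
  FreeGroup.lift fun _ => Multiplicative.ofAdd 1

theorem exists_even_word (m : ℕ) (hm : 1 ≤ m) {σ : Perm (Fin (m + 2))}
    (hσ : σ ∈ alternatingGroup (Fin (m + 2))) : ∃ w, evC m w = σ ∧ expPar m w = 1 := by
  obtain ⟨w, hw⟩ : ∃ w, evC m w = σ := by
    refine (altOn_le_of_cyc3 (T := Set.univ) (X := (evC m).range)
      (c := (⟨0, by omega⟩ : Fin (m + 2))) (e := ⟨1, by omega⟩) (by simp) ?_)
      ⟨Perm.mem_alternatingGroup.1 hσ, fun x hx => absurd (Set.mem_univ x) hx⟩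
    intro t _ h0 h1
    rw [cyc3_rotate h0 h1]
    have ht : 2 ≤ t.val := by
      rcases t with ⟨_ | _ | v, hv⟩
      · exact absurd rfl h0
      · exact absurd rfl h1
      · simp
    refine ⟨FreeGroup.of ⟨t.val - 2, by omega⟩, ?_⟩
    rw [evC, FreeGroup.lift_apply_of, cycP]
    congr 1
    exact Fin.ext (by simp; omega)
  rcases (show ∀ x : Multiplicative (ZMod 2), x = 1 ∨ x = Multiplicative.ofAdd 1 by decide)
    (expPar m w) with h | h
  · exact ⟨w, hw, h⟩
  · refine ⟨w * FreeGroup.of ⟨0, hm⟩ ^ 3, ?_, ?_⟩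
    · have h3 : cycP m ⟨0, hm⟩ ^ 3 = 1 := by
        have h : (cycP m ⟨0, hm⟩).IsThreeCycle := by
          rw [cycP, cyc3, swap_comm (⟨0, _⟩ : Fin (m + 2))]
          exact Perm.isThreeCycle_swap_mul_swap_same (by simp) (by simp [Fin.ext_iff])
            (by simp [Fin.ext_iff])
        rw [← h.orderOf, pow_orderOf_eq_one]
      rw [map_mul, map_pow, hw, evC, FreeGroup.lift_apply_of, h3, mul_one]
    · rw [map_mul, map_pow, h, expPar, FreeGroup.lift_apply_of]
      decide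

/-- The relations: `t ^ (q * M) = z ^ 3`, the periodicity, the pairs, and `t ^ q = w`. -/
structure CycRels (m q M : ℕ) (ε : ℤˣ) (w : FreeGroup (Fin m)) (t z : W) : Prop where
  r0 : t ^ (q * M) = z ^ 3
  per : t ^ m * z * (t ^ m)⁻¹ = z ^ ((ε ^ m : ℤˣ) : ℤ)
  pair : ∀ k, 1 ≤ k → 2 * k ≤ m → (z * cx t z ε k) ^ 2 = 1
  ident : t ^ q = evX t z ε m w

variable {m q M : ℕ} {ε : ℤˣ} {w : FreeGroup (Fin m)} {t z : W}

theorem sq_mul_flip {x y : W} (e : (x * y) ^ 2 = 1) : (y * x) ^ 2 = 1 := by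
  rw [show y * x = x⁻¹ * (x * y) * x⁻¹⁻¹ by group, conj_pow, e]; group

theorem cx_succ' (t z : W) (ε : ℤˣ) (i : ℕ) :
    t * cx t z ε i * t⁻¹ = cx t z ε (i + 1) ^ (ε : ℤ) := by
  rw [cx, cx, conj_zpow, ← zpow_mul, ← Units.val_mul, pow_succ ε i, mul_assoc (ε ^ i) ε ε,
    ← sq, Int.units_sq, mul_one, pow_succ' t i]
  group

theorem cx_period' (per : t ^ m * z * (t ^ m)⁻¹ = z ^ ((ε ^ m : ℤˣ) : ℤ)) (i : ℕ) :
    cx t z ε (i + m) = cx t z ε i := by
  have e : ((ε ^ m : ℤˣ) : ℤ) * ((ε ^ m : ℤˣ) : ℤ) = 1 := by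
    rcases Int.units_eq_one_or (ε ^ m) with h | h <;> rw [h] <;> rfl
  have h1 : t ^ m * z ^ ((ε ^ m : ℤˣ) : ℤ) * (t ^ m)⁻¹ = z := by
    rw [← conj_zpow, per, ← zpow_mul, e, zpow_one]
  calc cx t z ε (i + m)
      = t ^ i * (t ^ m * z ^ ((ε ^ m : ℤˣ) : ℤ) * (t ^ m)⁻¹) ^ ((ε ^ i : ℤˣ) : ℤ) * (t ^ i)⁻¹ := by
        rw [conj_zpow, ← zpow_mul, ← Units.val_mul, ← pow_add, add_comm m i, cx, pow_add]
        group
    _ = cx t z ε i := by rw [h1]; rfl

theorem pair_key {k : ℕ} (hk : (z * cx t z ε k) ^ 2 = 1) (i : ℕ) :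
    (cx t z ε i * cx t z ε (i + k)) ^ 2 = 1 := by
  induction i with
  | zero => simpa [cx] using hk
  | succ i ih =>
    have e : (t * cx t z ε i * t⁻¹ * (t * cx t z ε (i + k) * t⁻¹)) ^ 2 = 1 := by
      rw [show ∀ x y : W, t * x * t⁻¹ * (t * y * t⁻¹) = t * (x * y) * t⁻¹ from
        fun x y => by group, conj_pow, ih]
      group
    rw [cx_succ', cx_succ', show i + k + 1 = i + 1 + k by omega] at e
    rcases Int.units_eq_one_or ε with hε | hε <;> rw [hε] at e
    · simpa [hε] using e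
    · simp only [Units.val_neg, Units.val_one, zpow_neg, zpow_one] at e
      rw [← mul_inv_rev, inv_pow, inv_eq_one] at e
      rw [← hε] at e
      exact sq_mul_flip e

theorem pairs_of (per : t ^ m * z * (t ^ m)⁻¹ = z ^ ((ε ^ m : ℤˣ) : ℤ)) {P : ℕ → Prop}
    (hP : ∀ k, P k → (z * cx t z ε k) ^ 2 = 1) (i j : ℕ) (hij : i < j) (hj : j < m)
    (hk : P (j - i) ∨ P (m - (j - i))) : (cx t z ε i * cx t z ε j) ^ 2 = 1 := by
  rcases hk with hk | hk
  · have := pair_key (hP _ hk) i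
    rwa [show i + (j - i) = j by omega] at this
  · have := pair_key (hP _ hk) j
    rw [show j + (m - (j - i)) = i + m by omega, cx_period' per] at this
    exact sq_mul_flip this

theorem cube_cx' (hc : Commute (z ^ 3) t) (i : ℕ) :
    cx t z ε i ^ 3 = (z ^ 3) ^ ((ε ^ i : ℤˣ) : ℤ) := by
  have e : ∀ j : ℤ, (z ^ j) ^ (3 : ℕ) = (z ^ (3 : ℕ)) ^ j := fun j => by
    rw [← zpow_natCast (z ^ j), ← zpow_mul, mul_comm, zpow_mul, zpow_natCast]
  rw [cx, conj_pow, e, ((hc.zpow_left _).pow_right i).symm.eq, mul_inv_cancel_right]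

theorem pow_eight_of_pair {x y c : W} (hx : x ^ 3 = c) (hy : y ^ 3 = c) (e1 : (x * y) ^ 2 = 1) :
    c ^ 8 = 1 := by
  have f : ∀ u v : W, u ^ 3 = c → v ^ 3 = c → (u * v) ^ 2 = 1 →
      c ^ 4 = (u⁻¹ * v) ^ 3 := by
    intro u v hu hv huv
    have hcv : Commute c v := hv ▸ Commute.pow_self v 3
    have hcu : Commute c u := hu ▸ Commute.pow_self u 3
    have a1 : v * u * v = u⁻¹ := yxy huv
    have a2 : v * u * v⁻¹ = u⁻¹ * v * c⁻¹ := by
      calc v * u * v⁻¹ = v * u * v * (v ^ 3)⁻¹ * v := by group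
        _ = u⁻¹ * c⁻¹ * v := by rw [a1, hv]
        _ = u⁻¹ * v * c⁻¹ := by rw [mul_assoc, hcv.inv_left.eq, ← mul_assoc]
    have a3 := congrArg (· ^ 3) a2
    simp only [conj_pow] at a3
    rw [hu, ((hcu.inv_right.mul_right hcv).inv_left.symm).mul_pow, ← hcv.eq,
      mul_inv_cancel_right, inv_pow] at a3
    rw [show c ^ 4 = c * c ^ 3 from pow_succ' c 3, eq_mul_inv_iff_mul_eq.1 a3]
  have g1 := f x y hx hy e1
  have g2 := f y x hy hx (sq_mul_flip e1)
  rw [show y⁻¹ * x = (x⁻¹ * y)⁻¹ by group, inv_pow, ← g1] at g2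
  rw [show (8 : ℕ) = 4 + 4 from rfl, pow_add]
  nth_rewrite 1 [g2]
  exact inv_mul_cancel _

section facts

variable (h : CycRels m q M ε w t z)
include h

theorem CycRels.cube_comm_t : Commute (z ^ 3) t := by
  rw [← h.r0]; exact Commute.pow_self t _

theorem CycRels.cx_succ (i : ℕ) : t * cx t z ε i * t⁻¹ = cx t z ε (i + 1) ^ (ε : ℤ) :=
  cx_succ' t z ε i

theorem CycRels.cx_period (i : ℕ) : cx t z ε (i + m) = cx t z ε i :=
  cx_period' h.per i

theorem CycRels.pairs (i j : ℕ) (hi : i < m) (hj : j < m) (hij : i ≠ j) :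
    (cx t z ε i * cx t z ε j) ^ 2 = 1 := by
  rcases Nat.lt_or_gt_of_ne hij with hlt | hlt
  · exact pairs_of h.per (P := fun k => 1 ≤ k ∧ 2 * k ≤ m) (fun k hk => h.pair k hk.1 hk.2)
      i j hlt hj (by omega)
  · exact sq_mul_flip (pairs_of h.per (P := fun k => 1 ≤ k ∧ 2 * k ≤ m)
      (fun k hk => h.pair k hk.1 hk.2) j i hlt hi (by omega))

theorem CycRels.cube_cx (i : ℕ) : cx t z ε i ^ 3 = (z ^ 3) ^ ((ε ^ i : ℤˣ) : ℤ) :=
  cube_cx' h.cube_comm_t i

theorem CycRels.cube_pow_eight (hm : 3 ≤ m) : (z ^ 3) ^ 8 = 1 := by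
  have e1 := h.pairs 0 2 (by omega) (by omega) (by omega)
  rw [show cx t z ε 0 = z by simp [cx]] at e1
  have hy := h.cube_cx 2
  rw [show (ε ^ 2 : ℤˣ) = 1 from Int.units_sq ε, Units.val_one, zpow_one] at hy
  exact pow_eight_of_pair rfl hy e1

end facts

/-- The central element dies. -/
theorem CycRels.cube_one (h : CycRels m q M ε w t z) (hm : 3 ≤ m)
    (hw : expPar m w = 1) (hwM : evC m w ^ M = 1) (hgen : Subgroup.closure {t, z} = (⊤ : Subgroup W)) :
    z ^ 3 = 1 := by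
  set c := z ^ 3 with hc
  have hcc : ∀ x : W, Commute c x := by
    intro x
    have hle : (⊤ : Subgroup W) ≤ Subgroup.centralizer {c} := by
      rw [← hgen, Subgroup.closure_le]
      rintro y (rfl | rfl)
      · exact Subgroup.mem_centralizer_singleton_iff.2 h.cube_comm_t.eq.symm
      · exact Subgroup.mem_centralizer_singleton_iff.2 (Commute.self_pow _ 3).eq
    exact (Subgroup.mem_centralizer_singleton_iff.1 (hle trivial)).symm
  haveI : (Subgroup.zpowers (c ^ 4)).Normal := ⟨fun d hd x => by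
    obtain ⟨j, rfl⟩ := Subgroup.mem_zpowers_iff.1 hd
    rw [← (((hcc x).pow_left 4).zpow_left j).eq, mul_inv_cancel_right]
    exact hd⟩
  let π := QuotientGroup.mk' (Subgroup.zpowers (c ^ 4))
  set T := π t
  set Z := π z
  set C := π c with hC
  have hC4 : C ^ 4 = 1 := by
    rw [hC, ← map_pow]
    exact (QuotientGroup.eq_one_iff _).2 (Subgroup.mem_zpowers _)
  have hCC : ∀ x : W, Commute C (π x) := fun x => (hcc x).map π
  let e : Fin m → ℤ := fun i => ((ε ^ i.val : ℤˣ) : ℤ)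
  let z' : Fin m → W ⧸ Subgroup.zpowers (c ^ 4) := fun i => π (cx t z ε i.val) * C ^ e i
  have hpm : ∀ i, e i = 1 ∨ e i = -1 := fun i => by
    show ((ε ^ i.val : ℤˣ) : ℤ) = 1 ∨ ((ε ^ i.val : ℤˣ) : ℤ) = -1
    rcases Int.units_eq_one_or (ε ^ i.val) with h | h <;> rw [h]
    · exact Or.inl rfl
    · exact Or.inr rfl
  have hcomC : ∀ (i : Fin m) (j : ℤ), Commute (C ^ j) (π (cx t z ε i.val)) :=
    fun i j => (hCC _).zpow_left j
  have hC4z : ∀ j : ℤ, C ^ (4 * j) = 1 := fun j => by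
    rw [zpow_mul, zpow_ofNat, hC4, one_zpow]
  have pw : ∀ (k : ℕ) (j : ℤ), (C ^ j) ^ k = C ^ (j * (k : ℤ)) := fun k j =>
    (zpow_natCast (C ^ j) k).symm.trans (zpow_mul C j k).symm
  have hcarm : Carm (fun i => if hi : i < m then z' ⟨i, hi⟩ else 1) m := by
    refine ⟨fun i hi => ?_, fun i j hi hj hij => ?_⟩
    · simp only [dif_pos hi, z']
      rw [(hcomC ⟨i, hi⟩ _).symm.mul_pow, ← map_pow, h.cube_cx, ← hc, map_zpow, ← hC,
        pw 3, ← zpow_add]
      convert hC4z (e ⟨i, hi⟩) using 2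
      simp only [e]
      push_cast
      ring
    · simp only [dif_pos hi, dif_pos hj, z']
      rw [(hcomC ⟨j, hj⟩ _).mul_mul_mul_comm, ← map_mul, ← zpow_add,
        ((hCC _).zpow_left _).symm.mul_pow, ← map_pow, h.pairs i j hi hj hij, map_one, one_mul,
        pw 2]
      rcases hpm ⟨i, hi⟩ with h1 | h1 <;> rcases hpm ⟨j, hj⟩ with h2 | h2 <;> rw [h1, h2]
      · exact hC4z 1
      · simp
      · simp
      · exact hC4z (-1)
  obtain ⟨ψ, hψ⟩ := exists_carm_hom hcarm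
  let cH : Multiplicative ℤ →* W ⧸ Subgroup.zpowers (c ^ 4) := zpowersHom _ C
  let S : FreeGroup (Fin m) →* Multiplicative ℤ := FreeGroup.lift fun i => Multiplicative.ofAdd (e i)
  -- evaluation on the shifted elements
  have hz' : ∀ v : FreeGroup (Fin m),
      FreeGroup.lift z' v = π (evX t z ε m v) * C ^ (S v).toAdd := by
    intro v
    induction v using FreeGroup.induction_on with
    | C1 => simp
    | of i => simp [z', S, evX]
    | inv_of i hi =>
      simp only [map_inv, hi, toAdd_inv, zpow_neg, mul_inv_rev]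
      exact (((hCC _).zpow_left _).inv_left.inv_right).eq
    | mul x y hx hy =>
      simp only [map_mul, hx, hy, toAdd_mul, zpow_add]
      exact ((hCC _).zpow_left _).mul_mul_mul_comm _ _
  have hpar : ∀ v : FreeGroup (Fin m), ((S v).toAdd : ZMod 2) = (expPar m v).toAdd := by
    intro v
    induction v using FreeGroup.induction_on with
    | C1 => simp
    | of i =>
      simp only [S, expPar, FreeGroup.lift_apply_of, toAdd_ofAdd]
      rcases hpm i with h | h <;> rw [h] <;> decide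
    | inv_of i hi => simp [hi]
    | mul x y hx hy => simp [hx, hy]
  let ev' : FreeGroup (Fin m) →* alternatingGroup (Fin (m + 2)) :=
    FreeGroup.lift fun i => ⟨cycP m i, cycP_mem m i⟩
  have hψev : ψ.comp ev' = FreeGroup.lift z' := FreeGroup.ext_hom _ _ fun i => by
    simp only [MonoidHom.comp_apply, ev', FreeGroup.lift_apply_of]
    exact (hψ i.val i.2 (cycP_mem m i)).trans (dif_pos i.2)
  have hsub : (alternatingGroup (Fin (m + 2))).subtype.comp ev' = evC m :=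
    FreeGroup.ext_hom _ _ fun i => by simp [ev', evC]
  have hev1 : ev' (w ^ M) = 1 := Subtype.ext (by
    have := DFunLike.congr_fun hsub (w ^ M)
    simp only [MonoidHom.comp_apply, map_pow] at this
    rw [hwM] at this
    simpa using this)
  have h1 : FreeGroup.lift z' (w ^ M) = 1 := by
    rw [← hψev, MonoidHom.comp_apply, hev1, map_one]
  have e1 : evX t z ε m w ^ M = c := by rw [← h.ident, ← pow_mul]; exact h.r0
  rw [hz', map_pow (evX t z ε m), e1, ← hC, ← zpow_one_add C, map_pow S, toAdd_pow] at h1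
  obtain ⟨d, hd⟩ : (2 : ℤ) ∣ (S w).toAdd := by
    have := hpar w
    rw [hw, toAdd_one] at this
    exact (ZMod.intCast_zmod_eq_zero_iff_dvd _ 2).1 this
  rw [hd, nsmul_eq_mul] at h1
  have hCone : C = 1 := by
    set N : ℤ := (M : ℤ) * d
    have h2 : C ^ (1 + 2 * N) = 1 := by rw [← h1]; congr 1; simp [N]; ring
    have hN : C = (C ^ (1 + 2 * N)) ^ (1 - 2 * N) * (C ^ (4 * (N * N))) := by
      rw [← zpow_mul, ← zpow_add, show (1 + 2 * N) * (1 - 2 * N) + 4 * (N * N) = 1 by ring,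
        zpow_one]
    rw [hN, h2, hC4z, one_zpow, one_mul]
  obtain ⟨j, hj⟩ := Subgroup.mem_zpowers_iff.1 ((QuotientGroup.eq_one_iff c).1 hCone)
  have h8 : c ^ 8 = 1 := h.cube_pow_eight hm
  set y := (c ^ (4 : ℕ)) ^ j with hy
  have h4 : c ^ (4 : ℕ) = (c ^ (8 : ℕ)) ^ (2 * j) := by
    rw [← zpow_natCast c 8, ← zpow_mul]
    calc c ^ (4 : ℕ) = ((c ^ (4 : ℕ)) ^ j) ^ (4 : ℕ) := by rw [← hy, hj]
      _ = c ^ (((8 : ℕ) : ℤ) * (2 * j)) := by
        rw [← zpow_natCast c 4, ← zpow_mul, ← zpow_natCast _ 4, ← zpow_mul]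
        congr 1
        push_cast
        ring
  rw [h8, one_zpow] at h4
  calc c = (c ^ (4 : ℕ)) ^ j := hj.symm
    _ = 1 := by rw [h4, one_zpow]

/-- The homomorphism. -/
theorem CycRels.exists_hom (h : CycRels m q M ε w t z) (hz : z ^ 3 = 1) :
    ∃ ψ : alternatingGroup (Fin (m + 2)) →* W,
      ∀ i : Fin m, ψ ⟨cycP m i, cycP_mem m i⟩ = cx t z ε i.val := by
  obtain ⟨ψ, hψ⟩ := exists_carm_hom (z := cx t z ε) (m := m)
    ⟨fun i _ => by rw [h.cube_cx, hz, one_zpow], fun i j hi hj hij => h.pairs i j hi hj hij⟩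
  exact ⟨ψ, fun i => hψ i.val i.2 (cycP_mem m i)⟩

end Cfsg.Agent.GKKL
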