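import Cfsg.Agent.GKKL.Cyclic
import Cfsg.Agent.GKKL.Cycle

/-!
Two-generator presentations of small alternating and symmetric groups.
-/

set_option autoImplicit false
set_option linter.unusedSectionVars false

namespace Cfsg.Agent.GKKL

open Equiv

variable (m : ℕ) [NeZero m]

/-- The cycle on the last `m` points, times the swap of the first two if `ε = -1`. -/
noncomputable def tbar (ε : ℤˣ) : Perm (Fin (m + 2)) :=
  (finRotate m).viaEmbedding ⟨fun i : Fin m => (⟨i.val + 2, by omega⟩ : Fin (m + 2)),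
      fun i j e => Fin.ext (by simpa using e)⟩ *
    if ε = 1 then 1 else swap ⟨0, by omega⟩ ⟨1, by omega⟩

theorem tbar_apply (ε : ℤˣ) (i : Fin m) :
    tbar m ε ⟨i.val + 2, Nat.add_lt_add_right i.isLt 2⟩ =
      ⟨(i + 1).val + 2, Nat.add_lt_add_right (i + 1).isLt 2⟩ := by
  have h0 : (if ε = 1 then (1 : Perm (Fin (m + 2))) else swap ⟨0, by omega⟩ ⟨1, by omega⟩)
      ⟨i.val + 2, Nat.add_lt_add_right i.isLt 2⟩ =
      ⟨i.val + 2, Nat.add_lt_add_right i.isLt 2⟩ := by
    split_ifs
    · rfl
    · exact swap_apply_of_ne_of_ne (Fin.ne_of_val_ne (show i.val + 2 ≠ 0 by omega))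
        (Fin.ne_of_val_ne (show i.val + 2 ≠ 1 by omega))
  rw [tbar, Perm.mul_apply, h0]
  refine (Perm.viaEmbedding_apply (finRotate m)
    ⟨fun i : Fin m => (⟨i.val + 2, by omega⟩ : Fin (m + 2)), _⟩ i).trans ?_
  rw [finRotate_apply]
  rfl

theorem tbar_special (ε : ℤˣ) : tbar m ε ⟨0, by omega⟩ =
      (if ε = 1 then ⟨0, by omega⟩ else ⟨1, by omega⟩) ∧
    tbar m ε ⟨1, by omega⟩ = (if ε = 1 then ⟨1, by omega⟩ else ⟨0, by omega⟩) := by
  have hfix : ∀ x : Fin (m + 2), x.val < 2 → (finRotate m).viaEmbedding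
      ⟨fun i : Fin m => (⟨i.val + 2, by omega⟩ : Fin (m + 2)),
        fun i j e => Fin.ext (by simpa using e)⟩ x = x := fun x hx =>
    Perm.viaEmbedding_apply_of_notMem _ _ x (by rintro ⟨i, rfl⟩; replace hx : i.val + 2 < 2 := hx; omega)
  constructor <;> (rw [tbar, Perm.mul_apply]; split_ifs)
  · exact hfix _ (by simp)
  · rw [swap_apply_left]; exact hfix _ (by simp)
  · exact hfix _ (by simp)
  · rw [swap_apply_right]; exact hfix _ (by simp)

theorem tbar_conj (ε : ℤˣ) (i : Fin m) :
    tbar m ε * cycP m i * (tbar m ε)⁻¹ = cycP m (i + 1) ^ (ε : ℤ) := by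
  rw [cycP, conj_cyc3, tbar_apply, (tbar_special m ε).1, (tbar_special m ε).2, cycP]
  rcases Int.units_eq_one_or ε with rfl | rfl
  · rw [if_pos rfl, if_pos rfl, Units.val_one, zpow_one]
  · rw [if_neg (by decide), if_neg (by decide), Units.val_neg, Units.val_one, zpow_neg, zpow_one]
    exact cyc3_swap (Fin.ne_of_val_ne (Nat.succ_ne_zero _))
      (Fin.ne_of_val_ne (fun e => Nat.succ_ne_zero _ (Nat.succ.inj e)))

theorem sign_tbar (ε : ℤˣ) : Perm.sign (tbar m ε) = (-1) ^ (m - 1) * ε := by
  rw [tbar, map_mul, Perm.viaEmbedding, Perm.sign_extendDomain, sign_finRotate]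
  congr 1
  rcases Int.units_eq_one_or ε with rfl | rfl
  · rw [if_pos rfl, map_one]
  · rw [if_neg (by decide), Perm.sign_swap (by simp)]

open scoped Fin.NatCast in
theorem cx_tbar (ε : ℤˣ) (i : ℕ) :
    cx (tbar m ε) (cycP m 0) ε i = cycP m (i : Fin m) := by
  have e : (ε : ℤ) * ε = 1 := by rcases Int.units_eq_one_or ε with rfl | rfl <;> rfl
  induction i with
  | zero => simp [cx]
  | succ i ih =>
    have h : tbar m ε * cx (tbar m ε) (cycP m 0) ε i * (tbar m ε)⁻¹ =
        cx (tbar m ε) (cycP m 0) ε (i + 1) ^ (ε : ℤ) := by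
      rw [cx, cx, conj_zpow, ← zpow_mul, ← Units.val_mul, pow_succ ε i, mul_assoc (ε ^ i) ε ε,
        ← sq, Int.units_sq, mul_one, pow_succ' (tbar m ε) i]
      group
    rw [ih, tbar_conj] at h
    have h2 := congrArg (· ^ (ε : ℤ)) h
    simp only [← zpow_mul, e, zpow_one] at h2
    rw [Nat.cast_succ]
    exact h2.symm

open scoped Fin.NatCast in
theorem tbar_pow_apply (ε : ℤˣ) (j : ℕ) (i : Fin m) :
    (tbar m ε ^ j) ⟨i.val + 2, Nat.add_lt_add_right i.isLt 2⟩ =
      ⟨(i + (j : Fin m)).val + 2, Nat.add_lt_add_right (i + (j : Fin m)).isLt 2⟩ := by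
  induction j with
  | zero => simp
  | succ j ih => rw [pow_succ', Perm.mul_apply, ih, tbar_apply, Nat.cast_succ, add_assoc]

open scoped Fin.NatCast in
theorem tbar_pow_eq_one {ε : ℤˣ} {j : ℕ} (hj : m ∣ j) (hε : ε ^ j = 1) : tbar m ε ^ j = 1 := by
  refine Equiv.ext fun x => ?_
  rcases lt_or_ge x.val 2 with hx | hx
  · rcases Int.units_eq_one_or ε with rfl | rfl
    · have hfix : tbar m 1 x = x := by
        obtain ⟨h0, h1⟩ := tbar_special m 1
        rcases (show x.val = 0 ∨ x.val = 1 by omega) with e | e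
        · rw [show x = ⟨0, by omega⟩ from Fin.ext e, h0, if_pos rfl]
        · rw [show x = ⟨1, by omega⟩ from Fin.ext e, h1, if_pos rfl]
      have : ∀ k : ℕ, (tbar m 1 ^ k) x = x := fun k => by
        induction k with
        | zero => rfl
        | succ k ih => rw [pow_succ', Perm.mul_apply, ih, hfix]
      exact this j
    · obtain ⟨j', rfl⟩ : Even j := by
        by_contra hc
        rw [(Nat.not_even_iff_odd.1 hc).neg_one_pow] at hε
        exact absurd hε (by decide)
      have hfix : (tbar m (-1) * tbar m (-1)) x = x := by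
        obtain ⟨h0, h1⟩ := tbar_special m (-1)
        rw [if_neg (by decide)] at h0 h1
        rcases (show x.val = 0 ∨ x.val = 1 by omega) with e | e
        · rw [show x = ⟨0, by omega⟩ from Fin.ext e, Perm.mul_apply, h0, h1]
        · rw [show x = ⟨1, by omega⟩ from Fin.ext e, Perm.mul_apply, h1, h0]
      have : ∀ k : ℕ, ((tbar m (-1) * tbar m (-1)) ^ k) x = x := fun k => by
        induction k with
        | zero => rfl
        | succ k ih => rw [pow_succ', Perm.mul_apply, ih, hfix]
      have h2 := this j'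
      rw [← sq, ← pow_mul] at h2
      rw [show j' + j' = 2 * j' by omega]
      exact h2
  · obtain ⟨i, rfl⟩ : ∃ i : Fin m, x = (⟨i.val + 2, Nat.add_lt_add_right i.isLt 2⟩ : Fin (m + 2)) :=
      ⟨⟨x.val - 2, by omega⟩, Fin.ext (by simp; omega)⟩
    rw [tbar_pow_apply, (Fin.natCast_eq_zero).2 hj, add_zero]
    rfl

variable {m}

/-- Gens of `F`. -/
abbrev ft : FreeGroup (Fin 2) := FreeGroup.of 0
/-- Gens of `F`. -/
abbrev fx : FreeGroup (Fin 2) := FreeGroup.of 1

/-- The relators, with a list of optional extra ones. -/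
def cycList (q M : ℕ) (ε : ℤˣ) (w : FreeGroup (Fin m)) (extra : List (FreeGroup (Fin 2)))
    (d : ℕ) :
    List (FreeGroup (Fin 2)) :=
  (ft ^ (q * M) * (fx ^ 3)⁻¹) :: (ft ^ q * (evX ft fx ε m w)⁻¹) ::
    (extra ++ (List.range d).map fun k => (fx * cx ft fx ε (k + 1)) ^ 2)

theorem cycList_length (q M : ℕ) (ε : ℤˣ) (w : FreeGroup (Fin m))
    (extra : List (FreeGroup (Fin 2))) (d : ℕ) :
    (cycList q M ε w extra d).toFinset.card ≤ 2 + extra.length + d := by
  refine (List.toFinset_card_le _).trans (le_of_eq ?_)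
  simp [cycList]
  omega

open scoped Fin.NatCast in
theorem exists_iso (q M : ℕ) (ε : ℤˣ) (w : FreeGroup (Fin m)) (extra : List (FreeGroup (Fin 2)))
    (d : ℕ) (hd : 2 * d ≤ m) (hm : 3 ≤ m) (hw : expPar m w = 1) (hwt : evC m w = tbar m ε ^ q)
    (hM : tbar m ε ^ (q * M) = 1)
    (hextra : ∀ r ∈ extra, FreeGroup.lift ![tbar m ε, cycP m 0] r = 1)
    (hper : ∀ (W : Type) [Group W] (t z : W), t ^ (q * M) = z ^ 3 →
      (∀ r ∈ extra, FreeGroup.lift ![t, z] r = 1) →
      t ^ m * z * (t ^ m)⁻¹ = z ^ ((ε ^ m : ℤˣ) : ℤ))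
    (hfull : ∀ (W : Type) [Group W] (t z : W), Subgroup.closure {t, z} = (⊤ : Subgroup W) →
      t ^ (q * M) = z ^ 3 → t ^ m * z * (t ^ m)⁻¹ = z ^ ((ε ^ m : ℤˣ) : ℤ) →
      t ^ q = evX t z ε m w → (∀ k, 1 ≤ k → k ≤ d → (z * cx t z ε k) ^ 2 = 1) →
      CycRels m q M ε w t z) :
    (q = 1 → ∀ (ht : tbar m ε ∈ alternatingGroup (Fin (m + 2))),
      ∃ e : PresentedGroup (↑(cycList q M ε w extra d).toFinset : Set (FreeGroup (Fin 2))) ≃*
          alternatingGroup (Fin (m + 2)),
        e (PresentedGroup.of 0) = ⟨tbar m ε, ht⟩ ∧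
          e (PresentedGroup.of 1) = ⟨cycP m 0, cycP_mem m 0⟩) ∧
    (q = 2 → Perm.sign (tbar m ε) = -1 →
      ∃ e : PresentedGroup (↑(cycList q M ε w extra d).toFinset : Set (FreeGroup (Fin 2))) ≃*
          Perm (Fin (m + 2)),
        e (PresentedGroup.of 0) = tbar m ε ∧ e (PresentedGroup.of 1) = cycP m 0) := by
  classical
  let R : Set (FreeGroup (Fin 2)) := ↑(cycList q M ε w extra d).toFinset
  let G := PresentedGroup R
  set mk := PresentedGroup.mk R
  have hmem : ∀ r ∈ cycList q M ε w extra d, mk r = 1 := fun r hr =>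
    PresentedGroup.one_of_mem (List.mem_toFinset.2 hr)
  set t : G := PresentedGroup.of 0
  set z : G := PresentedGroup.of 1
  have hlift : ∀ r, FreeGroup.lift ![t, z] r = mk r := fun r =>
    DFunLike.congr_fun (FreeGroup.ext_hom (FreeGroup.lift ![t, z]) mk
      fun i => by fin_cases i <;> simp [t, z, mk] <;> rfl) r
  have hev : evX t z ε m w = mk (evX ft fx ε m w) := (map_evX mk ft fx ε m w).symm
  have hr0 : t ^ (q * M) = z ^ 3 := by
    have := hmem (ft ^ (q * M) * (fx ^ 3)⁻¹) (by simp [cycList])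
    rw [map_mul, map_inv, map_pow, map_pow] at this
    exact mul_inv_eq_one.1 this
  have hgen : Subgroup.closure {t, z} = (⊤ : Subgroup G) := by
    rw [eq_top_iff, ← PresentedGroup.closure_range_of, Subgroup.closure_le]
    rintro _ ⟨i, rfl⟩
    refine Subgroup.subset_closure ?_
    fin_cases i
    · exact Or.inl rfl
    · exact Or.inr rfl
  have h : CycRels m q M ε w t z := by
    refine hfull G t z hgen hr0 (hper G t z hr0 fun r hr => ?_) ?_ fun k h1 h2 => ?_
    · rw [hlift]; exact hmem r (by simp [cycList, hr])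
    · have := hmem (ft ^ q * (evX ft fx ε m w)⁻¹) (by simp [cycList])
      rw [map_mul, map_inv, map_pow, ← hev] at this
      exact mul_inv_eq_one.1 this
    · obtain ⟨k, rfl⟩ : ∃ k', k = k' + 1 := ⟨k - 1, by omega⟩
      have := hmem ((fx * cx ft fx ε (k + 1)) ^ 2) (by
        simp only [cycList, List.mem_cons, List.mem_append, List.mem_map, List.mem_range]
        exact Or.inr (Or.inr (Or.inr ⟨k, by omega, rfl⟩)))
      rw [map_pow, map_mul, map_cx] at this
      exact this
  have hz := h.cube_one hm hw (by rw [hwt, ← pow_mul, hM]) hgen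
  obtain ⟨ψ, hψ⟩ := h.exists_hom hz
  -- the map to permutations
  let img : Fin 2 → Perm (Fin (m + 2)) := ![tbar m ε, cycP m 0]
  have f0 : FreeGroup.lift img ft = tbar m ε := FreeGroup.lift_apply_of ..
  have f1 : FreeGroup.lift img fx = cycP m 0 := FreeGroup.lift_apply_of ..
  have himgX : ∀ v, FreeGroup.lift img (evX ft fx ε m v) = evC m v := fun v => by
    rw [map_evX, f0, f1]
    exact DFunLike.congr_fun (FreeGroup.ext_hom (evX (tbar m ε) (cycP m 0) ε m) (evC m) fun i => by
      rw [evX, evC, FreeGroup.lift_apply_of, FreeGroup.lift_apply_of, cx_tbar,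
        Fin.cast_val_eq_self]) v
  have h3 : cycP m 0 ^ 3 = 1 := by
    have h : (cycP m 0).IsThreeCycle := by
      rw [cycP, cyc3, swap_comm (⟨0, _⟩ : Fin (m + 2))]
      exact Perm.isThreeCycle_swap_mul_swap_same (by simp) (by simp [Fin.ext_iff])
        (by simp [Fin.ext_iff])
    rw [← h.orderOf, pow_orderOf_eq_one]
  have htrue : ∀ r ∈ R, FreeGroup.lift img r = 1 := by
    intro r hr
    simp only [R, Finset.mem_coe, List.mem_toFinset, cycList, List.mem_cons, List.mem_append,
      List.mem_map, List.mem_range] at hr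
    rcases hr with rfl | rfl | hr | ⟨k, hk, rfl⟩
    · rw [map_mul, map_inv, map_pow, map_pow, f0, f1, hM, h3, inv_one, mul_one]
    · rw [map_mul, map_inv, map_pow, himgX, f0, hwt, mul_inv_cancel]
    · exact hextra r hr
    · rw [map_pow, map_mul, map_cx, f0, f1, cx_tbar]
      have hne : (((k + 1 : ℕ) : Fin m)).val = k + 1 := by
        rw [Fin.val_natCast, Nat.mod_eq_of_lt]; omega
      have hd : ((0 : Fin m).val + 2) ≠ (((k + 1 : ℕ) : Fin m)).val + 2 := by
        rw [hne, Fin.val_zero]; omega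
      simp only [cycP]
      have e := cyc3_mul_cyc3' (a := (⟨0, by omega⟩ : Fin (m + 2))) (b := ⟨1, by omega⟩)
        (i := ⟨(0 : Fin m).val + 2, by omega⟩)
        (j := ⟨(((k + 1 : ℕ) : Fin m)).val + 2, by omega⟩) (by simp)
        (Fin.ne_of_val_ne (show (0 : ℕ) ≠ (0 : Fin m).val + 2 by omega))
        (Fin.ne_of_val_ne (show (0 : ℕ) ≠ (((k + 1 : ℕ) : Fin m)).val + 2 by omega))
        (Fin.ne_of_val_ne (show (1 : ℕ) ≠ (0 : Fin m).val + 2 by omega))
        (Fin.ne_of_val_ne (show (1 : ℕ) ≠ (((k + 1 : ℕ) : Fin m)).val + 2 by omega))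
        (fun e => hd (congrArg Fin.val e))
      exact e
  let π : G →* Perm (Fin (m + 2)) := PresentedGroup.toGroup htrue
  have hπmk : ∀ r, π (mk r) = FreeGroup.lift img r := fun r =>
    DFunLike.congr_fun (FreeGroup.ext_hom (π.comp mk) (FreeGroup.lift img)
      fun i => by simp [π, mk] <;> rfl) r
  have hπt : π t = tbar m ε := PresentedGroup.toGroup.of _
  have hπz : π z = cycP m 0 := PresentedGroup.toGroup.of _
  let ev' : FreeGroup (Fin m) →* alternatingGroup (Fin (m + 2)) :=
    FreeGroup.lift fun i => ⟨cycP m i, cycP_mem m i⟩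
  have hψev : ∀ v, ψ (ev' v) = evX t z ε m v := fun v =>
    DFunLike.congr_fun (FreeGroup.ext_hom (ψ.comp ev') (evX t z ε m) fun i => by
      simp only [MonoidHom.comp_apply, ev', evX, FreeGroup.lift_apply_of]
      exact hψ i) v
  have hsub : ∀ v, (ev' v).1 = evC m v := fun v =>
    DFunLike.congr_fun (FreeGroup.ext_hom ((alternatingGroup (Fin (m + 2))).subtype.comp ev')
      (evC m) fun i => by simp [ev', evC]) v
  have hid : ∀ σ, π (ψ σ) = σ.1 := by
    intro σ
    obtain ⟨v, hv, -⟩ := exists_even_word m (by omega) σ.2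
    have hσ : σ = ev' v := Subtype.ext ((hsub v).trans hv).symm
    rw [hσ, hψev, show evX t z ε m v = mk (evX ft fx ε m v) from (map_evX mk ft fx ε m v).symm,
      hπmk, himgX, hsub]
  have hinj : Function.Injective ψ := fun x y e => Subtype.ext (by rw [← hid x, ← hid y, e])
  have hzr : z ∈ ψ.range := ⟨_, (hψ 0).trans (by simp [cx])⟩
  have htq : t ^ q ∈ ψ.range := ⟨ev' w, (hψev w).trans h.ident.symm⟩
  refine ⟨fun hq ht => ?_, fun hq hsg => ?_⟩
  · subst hq
    rw [pow_one] at htq
    have hsurj : Function.Surjective ψ := by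
      rw [← MonoidHom.range_eq_top, eq_top_iff, ← hgen, Subgroup.closure_le]
      rintro y (rfl | rfl)
      · exact htq
      · exact hzr
    refine ⟨(MulEquiv.ofBijective ψ ⟨hinj, hsurj⟩).symm, Subtype.ext ?_, Subtype.ext ?_⟩
    · show ((MulEquiv.ofBijective ψ ⟨hinj, hsurj⟩).symm t).1 = tbar m ε
      rw [← hid]
      show π (MulEquiv.ofBijective ψ ⟨hinj, hsurj⟩ _) = _
      rw [MulEquiv.apply_symm_apply, hπt]
    · show ((MulEquiv.ofBijective ψ ⟨hinj, hsurj⟩).symm z).1 = cycP m 0
      rw [← hid]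
      show π (MulEquiv.ofBijective ψ ⟨hinj, hsurj⟩ _) = _
      rw [MulEquiv.apply_symm_apply, hπz]
  · subst hq
    rw [sq] at htq
    set K := ψ.range
    have hcxK : ∀ i, cx t z ε i ∈ K := fun i => by
      have hi : cx t z ε i = cx t z ε (i % m) := by
        conv_lhs => rw [← Nat.mod_add_div i m]
        induction i / m with
        | zero => simp
        | succ d ih =>
          rw [Nat.mul_succ, ← add_assoc, h.cx_period, ih]
      exact ⟨_, (hψ ⟨i % m, Nat.mod_lt _ (by omega)⟩).trans hi.symm⟩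
    have hnorm : ∀ x ∈ K, t * x * t⁻¹ ∈ K := by
      have hle : K ≤ K.comap (MulAut.conj t).toMonoidHom := by
        rintro _ ⟨σ, rfl⟩
        obtain ⟨v, hv, -⟩ := exists_even_word m (by omega) σ.2
        rw [show σ = ev' v from Subtype.ext ((hsub v).trans hv).symm, hψev]
        induction v using FreeGroup.induction_on generalizing σ with
        | C1 => rw [map_one]; exact one_mem _
        | of i =>
          show t * evX t z ε m (FreeGroup.of i) * t⁻¹ ∈ K
          rw [evX, FreeGroup.lift_apply_of, h.cx_succ]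
          exact K.zpow_mem (hcxK _) _
        | inv_of i hi =>
          rw [map_inv]
          exact inv_mem (hi ⟨_, cycP_mem m i⟩ (by rw [evC, FreeGroup.lift_apply_of]))
        | mul x y hx hy =>
          rw [map_mul]
          exact mul_mem (hx ⟨_, (ev' x).2⟩ (hsub x).symm) (hy ⟨_, (ev' y).2⟩ (hsub y).symm)
      exact fun x hx => hle hx
    have hall : ∀ x : G, x ∈ K ∨ x * t⁻¹ ∈ K := by
      intro x
      have hx : x ∈ Subgroup.closure ({t, z} : Set G) := by rw [hgen]; trivial
      induction hx using Subgroup.closure_induction_left with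
      | one => exact Or.inl K.one_mem
      | mul_left v hv y _ ih =>
        rcases hv with rfl | rfl
        · rcases ih with hy | hy
          · exact Or.inr (hnorm y hy)
          · exact Or.inl (by
              have := K.mul_mem (hnorm _ hy) htq
              rwa [show t * (y * t⁻¹) * t⁻¹ * (t * t) = t * y by group] at this)
        · rcases ih with hy | hy
          · exact Or.inl (K.mul_mem hzr hy)
          · exact Or.inr (by rw [mul_assoc]; exact K.mul_mem hzr hy)
      | inv_mul_cancel v hv y _ ih =>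
        rcases hv with rfl | rfl
        · rcases ih with hy | hy
          · exact Or.inr (by
              have := K.mul_mem (K.inv_mem htq) (hnorm _ hy)
              rwa [show (t * t)⁻¹ * (t * y * t⁻¹) = t⁻¹ * y * t⁻¹ by group] at this)
          · exact Or.inl (by
              have := K.mul_mem (K.mul_mem (K.inv_mem htq) (hnorm _ hy)) htq
              rwa [show (t * t)⁻¹ * (t * (y * t⁻¹) * t⁻¹) * (t * t) = t⁻¹ * y by group] at this)
        · rcases ih with hy | hy
          · exact Or.inl (K.mul_mem (K.inv_mem hzr) hy)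
          · exact Or.inr (by rw [mul_assoc]; exact K.mul_mem (K.inv_mem hzr) hy)
    have hπinj : Function.Injective π := by
      rw [injective_iff_map_eq_one]
      intro x hx
      rcases hall x with hy | hy
      · obtain ⟨σ, rfl⟩ := hy
        rw [hid] at hx
        rw [show σ = 1 from Subtype.ext hx, map_one]
      · obtain ⟨σ, hσ⟩ := hy
        have e := congrArg π hσ
        rw [hid, map_mul, map_inv, hx, one_mul, hπt] at e
        have h1 := Perm.mem_alternatingGroup.1 σ.2
        rw [e, map_inv, hsg] at h1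
        exact absurd h1 (by decide)
    have hπsurj : Function.Surjective π := by
      intro τ
      rcases Int.units_eq_one_or (Perm.sign τ) with hτ | hτ
      · exact ⟨ψ ⟨τ, Perm.mem_alternatingGroup.2 hτ⟩, hid _⟩
      · have hm' : τ * (tbar m ε)⁻¹ ∈ alternatingGroup (Fin (m + 2)) := by
          rw [Perm.mem_alternatingGroup, map_mul, map_inv, hτ, hsg]; rfl
        exact ⟨ψ ⟨_, hm'⟩ * t, by rw [map_mul, hid, hπt]; exact inv_mul_cancel_right τ _⟩
    exact ⟨MulEquiv.ofBijective π ⟨hπinj, hπsurj⟩, hπt, hπz⟩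
where
  cyc3_mul_cyc3' {Ω : Type} [DecidableEq Ω] [Fintype Ω] {a b i j : Ω} (hab : a ≠ b)
      (hai : a ≠ i) (haj : a ≠ j) (hbi : b ≠ i) (hbj : b ≠ j) (hij : i ≠ j) :
      (cyc3 a b i * cyc3 a b j) ^ 2 = 1 := by
    have h1 := Equiv.swap_apply_apply (swap a b) b i
    rw [swap_apply_right, swap_apply_of_ne_of_ne hai.symm hbi.symm, Equiv.swap_inv] at h1
    have e : cyc3 a b i * cyc3 a b j = swap a i * swap b j := by
      rw [h1, cyc3, cyc3]; group
    have hd : Perm.Disjoint (swap a i) (swap b j) := fun x => by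
      by_cases h : x = a ∨ x = i
      · right
        rcases h with rfl | rfl
        · exact swap_apply_of_ne_of_ne hab haj
        · exact swap_apply_of_ne_of_ne hbi.symm hij
      · left
        push Not at h
        exact swap_apply_of_ne_of_ne h.1 h.2
    rw [e, hd.commute.mul_pow, sq, sq, swap_mul_self, swap_mul_self, one_mul]

/-- All the pairs are given. -/
theorem cycRels_full {q M : ℕ} {ε : ℤˣ} {w : FreeGroup (Fin m)} (W : Type) [Group W] (t z : W)
    (_ : Subgroup.closure {t, z} = (⊤ : Subgroup W)) (h0 : t ^ (q * M) = z ^ 3)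
    (h1 : t ^ m * z * (t ^ m)⁻¹ = z ^ ((ε ^ m : ℤˣ) : ℤ)) (h2 : t ^ q = evX t z ε m w)
    (h3 : ∀ k, 1 ≤ k → k ≤ m / 2 → (z * cx t z ε k) ^ 2 = 1) : CycRels m q M ε w t z :=
  ⟨h0, h1, fun k hk hk' => h3 k hk (by omega), h2⟩

/-- Two-generator presentation of a small alternating group. -/
theorem alt_pres_cyclic (hm : 3 ≤ m) :
    ∃ rels : Finset (FreeGroup (Fin 2)), rels.card ≤ 2 + m / 2 ∧
      ∃ e : PresentedGroup (↑rels : Set (FreeGroup (Fin 2))) ≃* alternatingGroup (Fin (m + 2)),
        e (PresentedGroup.of 1) = ⟨cycP m 0, cycP_mem m 0⟩ := by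
  set ε : ℤˣ := (-1) ^ (m + 1) with hε
  have hεm : ε ^ m = 1 := by
    rw [hε, ← pow_mul, mul_comm]; exact (Nat.even_mul_succ_self m).neg_one_pow
  have ht : tbar m ε ∈ alternatingGroup (Fin (m + 2)) := by
    rw [Perm.mem_alternatingGroup, sign_tbar, hε, ← pow_add,
      show m - 1 + (m + 1) = 2 * m by omega]
    exact (even_two_mul m).neg_one_pow
  obtain ⟨w, hw, hpar⟩ := exists_even_word m (by omega) ht
  obtain ⟨e, -, he⟩ := (exists_iso 1 m ε w [] (m / 2) (by omega) hm hpar (by rw [pow_one, hw])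
    (by rw [one_mul]; exact tbar_pow_eq_one m dvd_rfl hεm) (fun r hr => absurd hr (by simp))
    (fun W _ t z h0 _ => by
      rw [one_mul] at h0
      rw [hεm, Units.val_one, zpow_one, h0, (Commute.pow_self z 3).eq, mul_inv_cancel_right])
    cycRels_full).1
    rfl ht
  exact ⟨_, (cycList_length 1 m ε w [] _).trans (by simp), e, he⟩

/-- Two-generator presentation of a small symmetric group. -/
theorem perm_pres_cyclic (hm : 3 ≤ m) :
    ∃ rels : Finset (FreeGroup (Fin 2)), rels.card ≤ 2 + m % 2 + m / 2 ∧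
      ∃ e : PresentedGroup (↑rels : Set (FreeGroup (Fin 2))) ≃* Perm (Fin (m + 2)),
        e (PresentedGroup.of 1) = cycP m 0 := by
  rcases Nat.even_or_odd m with hev | hodd
  · have hs : Perm.sign (tbar m 1) = -1 := by
      rw [sign_tbar, mul_one]
      exact (Nat.odd_iff.2 (by have := Nat.even_iff.1 hev; omega)).neg_one_pow
    have hsq : tbar m 1 ^ 2 ∈ alternatingGroup (Fin (m + 2)) := by
      rw [Perm.mem_alternatingGroup, map_pow, hs]; rfl
    obtain ⟨w, hw, hpar⟩ := exists_even_word m (by omega) hsq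
    obtain ⟨M, hM⟩ := hev
    obtain ⟨e, -, he⟩ := (exists_iso 2 M 1 w [] (m / 2) (by omega) hm hpar hw
      (tbar_pow_eq_one m (by rw [hM, two_mul]) (one_pow _)) (fun r hr => absurd hr (by simp))
      (fun W _ t z h0 _ => by
        rw [two_mul, ← hM] at h0
        rw [one_pow, Units.val_one, zpow_one, h0, (Commute.pow_self z 3).eq, mul_inv_cancel_right])
      cycRels_full).2
      rfl hs
    exact ⟨_, (cycList_length 2 M 1 w [] _).trans (by simp), e, he⟩
  · have hs : Perm.sign (tbar m (-1)) = -1 := by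
      rw [sign_tbar, (Nat.even_iff.2 (by have := Nat.odd_iff.1 hodd; omega)).neg_one_pow, one_mul]
    have hsq : tbar m (-1) ^ 2 ∈ alternatingGroup (Fin (m + 2)) := by
      rw [Perm.mem_alternatingGroup, map_pow, hs]; rfl
    obtain ⟨w, hw, hpar⟩ := exists_even_word m (by omega) hsq
    obtain ⟨e, -, he⟩ := (exists_iso 2 m (-1) w [ft ^ m * fx * (ft ^ m)⁻¹ * fx] (m / 2) (by omega) hm hpar hw
      (tbar_pow_eq_one m (dvd_mul_left m 2) ((even_two_mul m).neg_one_pow))
      (fun r hr => by
        obtain rfl := List.mem_singleton.1 hr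
        have h1 : ∀ j : ℕ, tbar m (-1) ^ j * cycP m 0 * (tbar m (-1) ^ j)⁻¹ =
            cx (tbar m (-1)) (cycP m 0) (-1) j ^ (((-1 : ℤˣ) ^ j : ℤˣ) : ℤ) := fun j => by
          rw [cx, conj_zpow, ← zpow_mul, ← Units.val_mul, ← sq, Int.units_sq, Units.val_one,
            zpow_one]
        simp only [map_mul, map_inv, map_pow, FreeGroup.lift_apply_of, Matrix.cons_val_zero,
          Matrix.cons_val_one]
        rw [h1, hodd.neg_one_pow, cx_tbar, Units.val_neg, Units.val_one, zpow_neg, zpow_one,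
          Fin.natCast_self, inv_mul_cancel])
      (fun W _ t z _ hr => by
        have := hr _ (List.mem_singleton.2 rfl)
        simp only [map_mul, map_inv, map_pow, FreeGroup.lift_apply_of, Matrix.cons_val_zero,
          Matrix.cons_val_one] at this
        rw [hodd.neg_one_pow, Units.val_neg, Units.val_one, zpow_neg, zpow_one]
        exact eq_inv_of_mul_eq_one_left this) cycRels_full).2 rfl hs
    refine ⟨_, (cycList_length 2 m (-1) w _ _).trans ?_, e, he⟩
    simp [Nat.odd_iff.1 hodd]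

end Cfsg.Agent.GKKL
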