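import Cfsg.Agent.GKKL.Setup

/-!
The three cycles used for gluing, and the generation facts about them.
-/

set_option autoImplicit false

namespace Cfsg.Agent.GKKL

open Equiv

variable (p k : ℕ)

/-- Extra points for the first cycle. -/
def extra : ℕ :=
  if k % 2 = 0 then (if (k + 1) % 3 = 0 then 2 else 0) else (if (k + 2) % 3 = 0 then 3 else 1)

theorem extra_spec : extra k ≤ 3 ∧ (k + extra k) % 2 = 0 ∧ (k + extra k + 1) % 3 ≠ 0 := by
  unfold extra
  split_ifs <;> omega

/-- Points of the first cycle. -/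
def alF (j : Fin (k + extra k + 1)) : Fin (NN p k + 1) :=
  pt p k (if j.val = 0 then k else if j.val ≤ k then j.val - 1 else j.val + 3)

/-- Points of the second cycle. -/
def beF (j : Fin (k + k % 2 + 1)) : Fin (NN p k + 1) := pt p k (p + 1 - k % 2 + j.val)

/-- Length of the third cycle, minus one. -/
def lenG : ℕ := p - k - 1 + k % 2

/-- Points of the third cycle. -/
def gF (j : Fin (lenG p k + 1)) : Fin (NN p k + 1) :=
  pt p k (if k + 3 - k % 2 + j.val < p + 2 then k + 3 - k % 2 + j.val else k)

variable (hk : k + 7 ≤ p)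
include hk

theorem alF_val (j : Fin (k + extra k + 1)) :
    (alF p k j).val = if j.val = 0 then k else if j.val ≤ k then j.val - 1 else j.val + 3 := by
  have := j.2
  have := (extra_spec k).1
  refine pt_val p k ?_
  split_ifs <;> omega

theorem beF_val (j : Fin (k + k % 2 + 1)) : (beF p k j).val = p + 1 - k % 2 + j.val := by
  have := j.2
  refine pt_val p k ?_
  omega

theorem gF_val (j : Fin (lenG p k + 1)) : (gF p k j).val =
    if k + 3 - k % 2 + j.val < p + 2 then k + 3 - k % 2 + j.val else k := by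
  refine pt_val p k ?_
  split_ifs <;> omega

theorem alF_inj : Function.Injective (alF p k) := by
  intro i j e
  have := congrArg Fin.val e
  rw [alF_val p k hk, alF_val p k hk] at this
  refine Fin.ext ?_
  split_ifs at this <;> omega

theorem beF_inj : Function.Injective (beF p k) := by
  intro i j e
  have := congrArg Fin.val e
  rw [beF_val p k hk, beF_val p k hk] at this
  exact Fin.ext (by omega)

theorem gF_inj : Function.Injective (gF p k) := by
  intro i j e
  have := congrArg Fin.val e
  rw [gF_val p k hk, gF_val p k hk] at this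
  have hi := i.2
  have hj := j.2
  unfold lenG at hi hj
  refine Fin.ext ?_
  split_ifs at this <;> omega

omit hk in
/-- The first cycle. -/
noncomputable def alC (hk : k + 7 ≤ p) : Perm (Fin (NN p k + 1)) := cyc (alF p k) (alF_inj p k hk)

omit hk in
/-- The second cycle. -/
noncomputable def beC (hk : k + 7 ≤ p) : Perm (Fin (NN p k + 1)) := cyc (beF p k) (beF_inj p k hk)

omit hk in
/-- The third cycle. -/
noncomputable def gC (hk : k + 7 ≤ p) : Perm (Fin (NN p k + 1)) := cyc (gF p k) (gF_inj p k hk)

theorem alC_mem : alC p k hk ∈ altOn (seg (NN p k + 1) 0 p) := by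
  refine cyc_mem _ _ (fun i => ⟨Nat.zero_le _, ?_⟩) (Nat.even_iff.2 (extra_spec k).2.1)
  have := i.2
  have := (extra_spec k).1
  rw [alF_val p k hk]
  split_ifs <;> omega

theorem alC_fix {x : Fin (NN p k + 1)} (h1 : k + 1 ≤ x.val) (h2 : x.val < k + 4) :
    alC p k hk x = x := by
  refine cyc_fix _ _ fun i e => ?_
  have := congrArg Fin.val e
  rw [alF_val p k hk] at this
  split_ifs at this <;> omega

theorem alC_sig : Commute (alC p k hk) (sig p k) := by
  refine Perm.Disjoint.commute fun x => ?_
  by_cases h : k + 1 ≤ x.val ∧ x.val < k + 4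
  · exact Or.inl (alC_fix p k hk h.1 h.2)
  · exact Or.inr ((sig_mem p k hk (lo := k + 1) (hi := k + 4) le_rfl (by omega)).2 _ h)

/-- `σ` is a power of the product. -/
theorem sig_eq_pow : (alC p k hk * sig p k) ^ ((k + extra k + 1) * (k + extra k + 1)) = sig p k := by
  rw [(alC_sig p k hk).mul_pow, pow_mul, alC, cyc_pow_self, one_pow, one_mul]
  have h3 := sig_cube p k hk
  have h1 : ((k + extra k + 1) * (k + extra k + 1)) % 3 = 1 := by
    have := (extra_spec k).2.2
    rw [Nat.mul_mod]
    have : (k + extra k + 1) % 3 = 1 ∨ (k + extra k + 1) % 3 = 2 := by omega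
    rcases this with e | e <;> rw [e]
  rw [← Nat.div_add_mod ((k + extra k + 1) * (k + extra k + 1)) 3, h1, pow_add, pow_mul, h3,
    one_pow, one_mul, pow_one]

theorem beC_mem : beC p k hk ∈ altOn (seg (NN p k + 1) k (NN p k + 1)) := by
  refine cyc_mem _ _ (fun i => ⟨?_, (beF p k i).2⟩) (Nat.even_iff.2 (by omega))
  rw [beF_val p k hk]
  omega

theorem beC_mem' : beC p k hk ∈ altOn (seg (NN p k + 1) p (NN p k + 1)) := by
  refine cyc_mem _ _ (fun i => ⟨?_, (beF p k i).2⟩) (Nat.even_iff.2 (by omega))
  rw [beF_val p k hk]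
  omega

theorem beC_fix {x : Fin (NN p k + 1)} (h : x.val < p) : beC p k hk x = x :=
  cyc_fix _ _ fun i e => by have := congrArg Fin.val e; rw [beF_val p k hk] at this; omega

theorem gC_mem (hodd : p % 2 = 1) : gC p k hk ∈ altOn (seg (NN p k + 1) k (p + 2)) := by
  refine cyc_mem _ _ (fun i => ⟨?_, ?_⟩) (Nat.even_iff.2 (by unfold lenG; omega)) <;>
    (rw [gF_val p k hk]; split_ifs <;> omega)

theorem lenG_even (hodd : p % 2 = 1) : lenG p k % 2 = 0 := by unfold lenG; omega

/-- Generation of the first block. -/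
theorem gen_first {X : Subgroup (Perm (Fin (NN p k + 1)))} (h1 : alC p k hk ∈ X)
    (h2 : altOn (seg (NN p k + 1) k p) ≤ X) : altOn (seg (NN p k + 1) 0 p) ≤ X := by
  have hne : pt p k (k + 1) ≠ pt p k (k + 2) := pt_ne p k (by omega) (by omega) (by omega)
  refine altOn_le_of_cyc3 hne fun t ht htc hte => ?_
  have hmem : ∀ j : ℕ, k ≤ j → j < p → pt p k j ∈ seg (NN p k + 1) k p := fun j a b => by
    constructor <;> (rw [pt_val p k (by omega)]; omega)
  by_cases htk : k ≤ t.val
  · exact h2 (cyc3_mem htc hne ⟨htk, ht.2⟩ (hmem _ (by omega) (by omega))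
      (hmem _ (by omega) (by omega)))
  · push Not at htk
    have hbase : cyc3 (pt p k k) (pt p k (k + 1)) (pt p k (k + 2)) ∈ X :=
      h2 (cyc3_mem (pt_ne p k (by omega) (by omega) (by omega)) hne (hmem _ le_rfl (by omega))
        (hmem _ (by omega) (by omega)) (hmem _ (by omega) (by omega)))
    obtain ⟨j, hj⟩ := cyc_reach (alF p k) (alF_inj p k hk) ⟨t.val + 1, by omega⟩
    have e0 : alF p k 0 = pt p k k := by simp [alF]
    have e1 : alF p k ⟨t.val + 1, by omega⟩ = t := by
      refine Fin.ext ?_
      rw [alF_val p k hk]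
      simp only [if_neg (Nat.succ_ne_zero t.val), if_pos (show t.val + 1 ≤ k by omega),
        Nat.add_sub_cancel]
    rw [e0, e1] at hj
    have := cyc3_pow_mem h1 (alC_fix p k hk (by rw [pt_val p k (by omega)])
        (by rw [pt_val p k (by omega)]; omega))
      (alC_fix p k hk (by rw [pt_val p k (by omega)]; omega)
        (by rw [pt_val p k (by omega)]; omega)) hbase j
    rwa [alC, hj] at this

/-- Generation of the second block. -/
theorem gen_second {X : Subgroup (Perm (Fin (NN p k + 1)))} {lo : ℕ} (h1 : beC p k hk ∈ X)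
    (hlo : k + 3 ≤ lo) (hlo' : lo + 2 ≤ p) (h2 : altOn (seg (NN p k + 1) lo (p + 2)) ≤ X) :
    altOn (seg (NN p k + 1) lo (NN p k + 1)) ≤ X := by
  have hne : pt p k lo ≠ pt p k (lo + 1) := pt_ne p k (by omega) (by omega) (by omega)
  refine altOn_le_of_cyc3 hne fun t ht htc hte => ?_
  have hmem : ∀ j : ℕ, lo ≤ j → j < p + 2 → pt p k j ∈ seg (NN p k + 1) lo (p + 2) := fun j a b => by
    constructor <;> (rw [pt_val p k (by omega)]; omega)
  by_cases htk : t.val < p + 2
  · exact h2 (cyc3_mem htc hne ⟨ht.1, htk⟩ (hmem _ le_rfl (by omega))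
      (hmem _ (by omega) (by omega)))
  · push Not at htk
    have hbase : cyc3 (beF p k 0) (pt p k lo) (pt p k (lo + 1)) ∈ X := by
      refine h2 (cyc3_mem ?_ hne (hmem _ ?_ ?_) (hmem _ le_rfl (by omega))
        (hmem _ (by omega) (by omega)))
      · intro e
        have := congrArg Fin.val e
        rw [beF_val p k hk, pt_val p k (by omega)] at this
        omega
      · omega
      · simp only [Fin.val_zero]; omega
    have hlt : t.val < p + 1 + k + 1 := t.2
    obtain ⟨j, hj⟩ := cyc_reach (beF p k) (beF_inj p k hk)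
      ⟨t.val - (p + 1 - k % 2), by omega⟩
    have e1 : beF p k ⟨t.val - (p + 1 - k % 2), by omega⟩ = t := by
      refine Fin.ext ?_
      rw [beF_val p k hk]
      simp only
      omega
    rw [e1] at hj
    have := cyc3_pow_mem h1 (beC_fix p k hk (by rw [pt_val p k (by omega)]; omega))
      (beC_fix p k hk (by rw [pt_val p k (by omega)]; omega)) hbase j
    rwa [beC, hj] at this

/-- Generation of the common block. -/
theorem gen_common {X : Subgroup (Perm (Fin (NN p k + 1)))} (h1 : gC p k hk ∈ X)
    (h2 : sig p k ∈ X) : altOn (seg (NN p k + 1) k (p + 2)) ≤ X := by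
  have hne : pt p k (k + 1) ≠ pt p k (k + 2) := pt_ne p k (by omega) (by omega) (by omega)
  refine altOn_le_of_cyc3 hne fun t ht htc hte => ?_
  have n1 : t.val ≠ k + 1 := fun e => htc (Fin.ext (e.trans (pt_val p k (by omega)).symm))
  have n2 : t.val ≠ k + 2 := fun e => hte (Fin.ext (e.trans (pt_val p k (by omega)).symm))
  have hlen : lenG p k = p - k - 1 + k % 2 := rfl
  have hpk : ∀ i, (gF p k i) ≠ pt p k (k + 1) := fun i e => by
    have := congrArg Fin.val e
    rw [gF_val p k hk, pt_val p k (by omega)] at this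
    split_ifs at this <;> omega
  have hgfix : gC p k hk (pt p k (k + 1)) = pt p k (k + 1) := cyc_fix _ _ hpk
  obtain ⟨i, hi⟩ : ∃ i, gF p k i = t := by
    by_cases htk : t.val = k
    · refine ⟨⟨lenG p k, by omega⟩, Fin.ext ?_⟩
      rw [gF_val p k hk]
      simp only
      split_ifs <;> omega
    · have := ht.1
      have := ht.2
      refine ⟨⟨t.val - (k + 3 - k % 2), by omega⟩, Fin.ext ?_⟩
      rw [gF_val p k hk]
      simp only
      split_ifs <;> omega
  rcases Nat.mod_two_eq_zero_or_one k with he | ho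
  · have e0 : gF p k 0 = pt p k (k + 3) := by
      simp [gF, he, show k + 3 < p + 2 by omega]
    have hfix2 : gC p k hk (pt p k (k + 2)) = pt p k (k + 2) := cyc_fix _ _ fun i e => by
      have := congrArg Fin.val e
      rw [gF_val p k hk, pt_val p k (by omega)] at this
      split_ifs at this <;> omega
    obtain ⟨j, hj⟩ := cyc_reach (gF p k) (gF_inj p k hk) i
    have hb : cyc3 (gF p k 0) (pt p k (k + 1)) (pt p k (k + 2)) ∈ X := by
      rw [e0, cyc3_rotate (pt_ne p k (by omega) (by omega) (by omega))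
        (pt_ne p k (by omega) (by omega) (by omega))]
      exact h2
    have := cyc3_pow_mem h1 hgfix hfix2 hb j
    rwa [gC, hj, hi] at this
  · have e0 : gF p k 0 = pt p k (k + 2) := by
      simp [gF, ho, show k + 2 < p + 2 by omega]
    have e1 : gF p k 1 = pt p k (k + 3) := by
      refine Fin.ext ?_
      have hv : (1 : Fin (lenG p k + 1)).val = 1 := by
        rw [Fin.val_one', Nat.mod_eq_of_lt]; omega
      rw [gF_val p k hk, hv, pt_val p k (by omega)]
      split_ifs <;> omega
    have hb : cyc3 (pt p k (k + 1)) (gF p k 0) (gF p k 1) ∈ X := by rw [e0, e1]; exact h2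
    have := cyc3_mem_of_cyc (gF p k) h1 (cyc_apply _ _) hgfix hpk hb (gF_inj p k hk) i
      (fun e => hte (by rw [← hi, e, e0]))
    rwa [hi, e0] at this

/-- Generation of everything fixing the support of `σ`. -/
theorem gen_off_sig {X : Subgroup (Perm (Fin (NN p k + 1)))} (h1 : beC p k hk ∈ X)
    (h2 : altOn (seg (NN p k + 1) 0 (p + 2) \ seg (NN p k + 1) (k + 1) (k + 4)) ≤ X) :
    altOn (seg (NN p k + 1) 0 (NN p k + 1) \ seg (NN p k + 1) (k + 1) (k + 4)) ≤ X := by
  have hne : pt p k k ≠ pt p k (k + 4) := pt_ne p k (by omega) (by omega) (by omega)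
  refine altOn_le_of_cyc3 hne fun t ht htc hte => ?_
  have hmem : ∀ j : ℕ, j < p + 2 → (j ≤ k ∨ k + 4 ≤ j) →
      pt p k j ∈ seg (NN p k + 1) 0 (p + 2) \ seg (NN p k + 1) (k + 1) (k + 4) := fun j a b => by
    simp only [seg, Set.mem_diff, Set.mem_ofPred_eq, pt_val p k (show j < p + 2 + k by omega)]
    omega
  by_cases htk : t.val < p + 2
  · exact h2 (cyc3_mem htc hne ⟨⟨Nat.zero_le _, htk⟩, ht.2⟩ (hmem _ (by omega) (Or.inl le_rfl))
      (hmem _ (by omega) (Or.inr le_rfl)))
  · push Not at htk
    have hbase : cyc3 (beF p k 0) (pt p k k) (pt p k (k + 4)) ∈ X := by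
      refine h2 (cyc3_mem ?_ hne (hmem _ ?_ ?_) (hmem _ (by omega) (Or.inl le_rfl))
        (hmem _ (by omega) (Or.inr le_rfl)))
      · intro e
        have := congrArg Fin.val e
        rw [beF_val p k hk, pt_val p k (by omega)] at this
        omega
      · simp only [Fin.val_zero]; omega
      · exact Or.inr (by omega)
    have hlt : t.val < p + 1 + k + 1 := t.2
    obtain ⟨j, hj⟩ := cyc_reach (beF p k) (beF_inj p k hk)
      ⟨t.val - (p + 1 - k % 2), by omega⟩
    have e1 : beF p k ⟨t.val - (p + 1 - k % 2), by omega⟩ = t := by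
      refine Fin.ext ?_
      rw [beF_val p k hk]
      simp only
      omega
    rw [e1] at hj
    have := cyc3_pow_mem h1 (beC_fix p k hk (by rw [pt_val p k (by omega)]; omega))
      (beC_fix p k hk (by rw [pt_val p k (by omega)]; omega)) hbase j
    rwa [beC, hj] at this

end Cfsg.Agent.GKKL
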