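import Mathlib

/-!
A prime in a slightly trimmed Bertrand interval.
-/

set_option autoImplicit false

namespace Cfsg.Agent.GKKL

theorem eight_mul_le_two_pow (t : ℕ) (ht : 8 ≤ t) : 8 * t + 8 ≤ 2 ^ t := by
  induction t, ht using Nat.le_induction with
  | base => norm_num
  | succ t ht ih => rw [pow_succ]; omega

theorem trimmed_inequality (M : ℕ) (hM : 2048 ≤ M) :
    (2 * M) ^ (Nat.sqrt (2 * M) + 4) * 4 ^ (2 * M / 3) ≤ 4 ^ M := by
  set s := Nat.sqrt (2 * M) with hs
  have h1 : s * s ≤ 2 * M := Nat.sqrt_le _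
  have h2 : 2 * M < (s + 1) * (s + 1) := Nat.lt_succ_sqrt _
  have hs64 : 64 ≤ s := Nat.le_sqrt.2 (by omega)
  have h3 : s + 1 ≤ 2 ^ (s / 8) := by
    have := eight_mul_le_two_pow (s / 8) (by omega)
    omega
  have h4 : 2 * M ≤ 2 ^ (2 * (s / 8)) := by
    rw [two_mul (s / 8), pow_add]
    exact h2.le.trans (Nat.mul_le_mul h3 h3)
  have h5 : s / 8 * (s + 4) ≤ M / 3 := by
    have e : 8 * (s / 8) ≤ s := Nat.mul_div_le _ _
    rw [Nat.le_div_iff_mul_le (by norm_num)]
    nlinarith
  calc (2 * M) ^ (s + 4) * 4 ^ (2 * M / 3) ≤ (2 ^ (2 * (s / 8))) ^ (s + 4) * 4 ^ (2 * M / 3) := by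
        gcongr
    _ = 4 ^ (s / 8 * (s + 4) + 2 * M / 3) := by
        have e4 : ∀ j : ℕ, (4 : ℕ) ^ j = 2 ^ (2 * j) := fun j => by rw [pow_mul]; norm_num
        rw [e4, e4, ← pow_mul, ← pow_add]
        congr 1
        ring
    _ ≤ 4 ^ M := Nat.pow_le_pow_right (by norm_num) (by omega)

/-- Large `M`: a prime in `(M + 3, 2M]`. -/
theorem exists_prime_trimmed (M : ℕ) (hM : 2048 ≤ M) :
    ∃ q, q.Prime ∧ M + 3 < q ∧ q ≤ 2 * M := by
  by_contra hno
  push Not at hno
  have h4 : 4 ^ M < M * M.centralBinom := Nat.four_pow_lt_mul_centralBinom M (by omega)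
  let f : ℕ → ℕ := fun x => x ^ M.centralBinom.factorization x
  have hle : ∀ q, f q ≤ 2 * M := fun q => Nat.pow_factorization_choose_le (by omega)
  have hprod : M.centralBinom = ∏ q ∈ Finset.range (M + 4), f q := by
    refine (Eq.trans ?_ M.prod_pow_factorization_centralBinom).symm
    refine Finset.prod_subset (Finset.range_subset_range.2 (by omega)) fun x hx h2x => ?_
    rw [Finset.mem_range] at hx h2x
    by_cases hp : x.Prime
    · exact absurd (hno x hp (by omega)) (by omega)
    · show x ^ _ = 1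
      rw [Nat.factorization_eq_zero_of_not_prime M.centralBinom hp, pow_zero]
  have hsplit : Finset.range (M + 4) =
      Finset.range (M + 1) ∪ {M + 1, M + 2, M + 3} := by
    ext x
    simp only [Finset.mem_range, Finset.mem_union, Finset.mem_insert, Finset.mem_singleton]
    omega
  have hdisj : Disjoint (Finset.range (M + 1)) ({M + 1, M + 2, M + 3} : Finset ℕ) := by
    rw [Finset.disjoint_left]
    intro x hx hx'
    simp only [Finset.mem_range, Finset.mem_insert, Finset.mem_singleton] at hx hx'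
    omega
  rw [hsplit, Finset.prod_union hdisj] at hprod
  have htop : ∏ q ∈ ({M + 1, M + 2, M + 3} : Finset ℕ), f q ≤ (2 * M) ^ 3 := by
    refine (Finset.prod_le_prod' fun q _ => hle q).trans ?_
    rw [Finset.prod_const]
    exact Nat.pow_le_pow_right (by omega) Finset.card_le_three
  have hlow : ∏ q ∈ Finset.range (M + 1), f q ≤
      (2 * M) ^ Nat.sqrt (2 * M) * 4 ^ (2 * M / 3) := by
    let S := {q ∈ Finset.range (2 * M / 3 + 1) | Nat.Prime q}
    have e : ∏ q ∈ S, f q = ∏ q ∈ Finset.range (M + 1), f q := by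
      refine Finset.prod_subset (fun q hq => ?_) fun q hq hq' => ?_
      · have := (Finset.mem_filter.1 hq).1
        rw [Finset.mem_range] at this ⊢
        omega
      · show q ^ _ = 1
        by_cases hp : q.Prime
        · have hgt : 2 * M / 3 < q := by
            by_contra hc
            exact hq' (Finset.mem_filter.2 ⟨Finset.mem_range.2 (by omega), hp⟩)
          rw [Finset.mem_range] at hq
          rw [Nat.factorization_centralBinom_of_two_mul_self_lt_three_mul (by omega) (by omega)
            (by omega), pow_zero]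
        · rw [Nat.factorization_eq_zero_of_not_prime M.centralBinom hp, pow_zero]
    rw [← e, ← Finset.prod_filter_mul_prod_filter_not S (· ≤ Nat.sqrt (2 * M))]
    apply mul_le_mul'
    · refine (Finset.prod_le_prod' fun q _ => hle q).trans ?_
      rw [Finset.prod_const]
      refine Nat.pow_le_pow_right (by omega) ?_
      refine (Finset.card_le_card (t := Finset.Icc 1 (Nat.sqrt (2 * M))) fun x hx => ?_).trans
        (by rw [Nat.card_Icc]; omega)
      obtain ⟨h1, h2⟩ := Finset.mem_filter.1 hx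
      exact Finset.mem_Icc.mpr ⟨(Finset.mem_filter.1 h1).2.one_lt.le, h2⟩
    · refine le_trans ?_ (primorial_le_four_pow (2 * M / 3))
      refine (Finset.prod_le_prod' fun q hq => (?_ : f q ≤ q)).trans ?_
      · obtain ⟨h1, h2⟩ := Finset.mem_filter.1 hq
        refine (Nat.pow_le_pow_right (Finset.mem_filter.1 h1).2.pos ?_).trans (pow_one q).le
        exact Nat.factorization_choose_le_one (Nat.sqrt_lt'.mp <| not_le.1 h2)
      refine Finset.prod_le_prod_of_subset_of_one_le' (Finset.filter_subset _ _) ?_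
      exact fun q hq _ => (Finset.mem_filter.1 hq).2.one_lt.le
  have hineq := trimmed_inequality M hM
  have : M.centralBinom * M ≤ 4 ^ M := by
    calc M.centralBinom * M ≤ (2 * M) ^ Nat.sqrt (2 * M) * 4 ^ (2 * M / 3) * (2 * M) ^ 3 * (2 * M) := by
          rw [hprod]
          exact Nat.mul_le_mul (Nat.mul_le_mul hlow htop) (by omega)
      _ = (2 * M) ^ (Nat.sqrt (2 * M) + 4) * 4 ^ (2 * M / 3) := by ring
      _ ≤ 4 ^ M := hineq
  rw [mul_comm] at this
  omega

/-- A prime `q` with `q + 2 ≤ n` and `n + 5 ≤ 2q`. -/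
theorem exists_window_prime (n : ℕ) (hn : n = 9 ∨ 13 ≤ n) :
    ∃ q, q.Prime ∧ q + 2 ≤ n ∧ n + 5 ≤ 2 * q := by
  rcases lt_or_ge n 4100 with h | h
  · rcases hn with rfl | hn
    · exact ⟨7, by norm_num⟩
    by_cases h1 : n ≤ 17
    · exact ⟨11, by norm_num, by omega, by omega⟩
    by_cases h2 : n ≤ 21
    · exact ⟨13, by norm_num, by omega, by omega⟩
    by_cases h3 : n ≤ 33
    · exact ⟨19, by norm_num, by omega, by omega⟩
    by_cases h4 : n ≤ 57
    · exact ⟨31, by norm_num, by omega, by omega⟩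
    by_cases h5 : n ≤ 101
    · exact ⟨53, by norm_num, by omega, by omega⟩
    by_cases h6 : n ≤ 189
    · exact ⟨97, by norm_num, by omega, by omega⟩
    by_cases h7 : n ≤ 357
    · exact ⟨181, by norm_num, by omega, by omega⟩
    by_cases h8 : n ≤ 701
    · exact ⟨353, by norm_num, by omega, by omega⟩
    by_cases h9 : n ≤ 1377
    · exact ⟨691, by norm_num, by omega, by omega⟩
    by_cases h10 : n ≤ 2741
    · exact ⟨1373, by norm_num, by omega, by omega⟩
    exact ⟨2729, by norm_num, by omega, by omega⟩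
  · obtain ⟨q, hq, h1, h2⟩ := exists_prime_trimmed ((n - 2) / 2) (by omega)
    exact ⟨q, hq, by omega, by omega⟩

end Cfsg.Agent.GKKL
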