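import Cfsg.Agent.GKKL.Inst
import Cfsg.Agent.GKKL.PrimeWindow
import Cfsg.Agent.GKKL.CyclicPres
import Cfsg.Agent.Lib.CoxeterSym

/-!
Changing generators, and the presentations of all the symmetric and alternating groups.
-/

set_option autoImplicit false
set_option linter.unusedSectionVars false

namespace Cfsg.Agent.GKKL

open Equiv

/-- A presentation with generators `v` and at most `r` relators. -/
def HasPres {H : Type*} [Group H] {l : ℕ} (v : Fin l → H) (r : ℕ) : Prop :=
  ∃ rels : Finset (FreeGroup (Fin l)), rels.card ≤ r ∧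
    ∃ e : PresentedGroup (↑rels : Set (FreeGroup (Fin l))) ≃* H, ∀ i, e (PresentedGroup.of i) = v i

theorem HasPres.mono {H : Type*} [Group H] {l : ℕ} {v : Fin l → H} {r r' : ℕ}
    (h : HasPres v r) (hr : r ≤ r') : HasPres v r' := by
  obtain ⟨rels, hc, e⟩ := h
  exact ⟨rels, hc.trans hr, e⟩

/-- Change of generators: new relators are needed only for the new generators in `J`. -/
theorem HasPres.change {H : Type*} [Group H] {k l : ℕ} {x : Fin k → H} {v : Fin l → H} {r : ℕ}
    (h : HasPres x r) (hv : Subgroup.closure (Set.range v) = ⊤) (J : Finset (Fin l))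
    (hJ : ∀ j, j ∉ J → ∃ i, v j = x i ∧ ∀ j', j' ∉ J → v j' = x i → j' = j) :
    HasPres v (r + J.card) := by
  classical
  obtain ⟨rels, hc, e, he⟩ := h
  have hx : Subgroup.closure (Set.range x) = ⊤ := by
    have hrange : Set.range x = e.toMonoidHom '' Set.range PresentedGroup.of := by
      rw [← Set.range_comp]; exact congrArg Set.range (funext fun i => (he i).symm)
    rw [hrange, ← MonoidHom.map_closure, PresentedGroup.closure_range_of,
      Subgroup.map_top_of_surjective _ e.surjective]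
  have surjX : ∀ y : H, ∃ w, FreeGroup.lift x w = y := fun y =>
    MonoidHom.mem_range.1 ((FreeGroup.range_lift_eq_closure (f := x)).symm ▸ hx.symm ▸ trivial)
  have surjV : ∀ y : H, ∃ w, FreeGroup.lift v w = y := fun y =>
    MonoidHom.mem_range.1 ((FreeGroup.range_lift_eq_closure (f := v)).symm ▸ hv.symm ▸ trivial)
  -- old generators as words in the new ones
  have hW : ∀ i, ∃ w, FreeGroup.lift v w = x i ∧ ∀ j, j ∉ J → v j = x i → (∀ j', j' ∉ J →
      v j' = x i → j' = j) → w = FreeGroup.of j := by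
    intro i
    by_cases hex : ∃ j, j ∉ J ∧ v j = x i ∧ ∀ j', j' ∉ J → v j' = x i → j' = j
    · obtain ⟨j, hj, hji, hju⟩ := hex
      refine ⟨FreeGroup.of j, by rw [FreeGroup.lift_apply_of, hji], fun j' hj' h' _ => ?_⟩
      rw [hju j' hj' h']
    · obtain ⟨w, hw⟩ := surjV (x i)
      exact ⟨w, hw, fun j hj h' hu => absurd ⟨j, hj, h', hu⟩ hex⟩
  choose W hWv hWJ using hW
  choose W' hW' using fun j : Fin l => surjX (v j)
  let σ : FreeGroup (Fin k) →* FreeGroup (Fin l) := FreeGroup.lift W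
  let R : Finset (FreeGroup (Fin l)) :=
    rels.image σ ∪ J.image (fun j => (FreeGroup.of j)⁻¹ * σ (W' j))
  refine ⟨R, (Finset.card_union_le _ _).trans (Nat.add_le_add
    (Finset.card_image_le.trans hc) Finset.card_image_le), ?_⟩
  have hvσ : ∀ w, FreeGroup.lift v (σ w) = FreeGroup.lift x w := fun w =>
    DFunLike.congr_fun (FreeGroup.ext_hom ((FreeGroup.lift v).comp σ) (FreeGroup.lift x) fun i => by
      simp [σ, hWv]) w
  have hmk : ∀ w, e (PresentedGroup.mk _ w) = FreeGroup.lift x w := fun w =>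
    DFunLike.congr_fun (FreeGroup.ext_hom (e.toMonoidHom.comp (PresentedGroup.mk _))
      (FreeGroup.lift x) fun i => by
        simp only [MonoidHom.comp_apply, FreeGroup.lift_apply_of]
        exact he i) w
  have htrue : ∀ ρ ∈ (↑R : Set (FreeGroup (Fin l))), FreeGroup.lift v ρ = 1 := by
    intro ρ hρ
    simp only [R, Finset.coe_union, Finset.coe_image, Set.mem_union, Set.mem_image,
      Finset.mem_coe] at hρ
    rcases hρ with ⟨ρ, hρ, rfl⟩ | ⟨j, -, rfl⟩
    · rw [hvσ, ← hmk, PresentedGroup.one_of_mem hρ, map_one]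
    · rw [map_mul, map_inv, FreeGroup.lift_apply_of, hvσ, hW', inv_mul_cancel]
  set mk := PresentedGroup.mk (↑R : Set (FreeGroup (Fin l)))
  have hold : ∀ ρ ∈ (↑rels : Set (FreeGroup (Fin k))), FreeGroup.lift (fun i => mk (W i)) ρ = 1 := by
    intro ρ hρ
    rw [show FreeGroup.lift (fun i => mk (W i)) ρ = mk (σ ρ) from
      (DFunLike.congr_fun (FreeGroup.ext_hom (mk.comp σ) (FreeGroup.lift fun i => mk (W i))
        fun i => by simp [σ]) ρ).symm]
    exact PresentedGroup.one_of_mem (Finset.mem_coe.2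
      (Finset.mem_union_left _ (Finset.mem_image_of_mem _ hρ)))
  let f : PresentedGroup (↑R : Set (FreeGroup (Fin l))) →* H := PresentedGroup.toGroup htrue
  let g : H →* PresentedGroup (↑R : Set (FreeGroup (Fin l))) :=
    (PresentedGroup.toGroup hold).comp e.symm.toMonoidHom
  have hgx : ∀ w, g (FreeGroup.lift x w) = mk (σ w) := fun w =>
    DFunLike.congr_fun (FreeGroup.ext_hom (g.comp (FreeGroup.lift x)) (mk.comp σ) fun i => by
      simp [g, σ, ← he]) w
  have h1 : f.comp g = MonoidHom.id H := MonoidHom.eq_of_eqOn_dense hx (by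
    rintro _ ⟨i, rfl⟩
    have := hgx (FreeGroup.of i)
    rw [FreeGroup.lift_apply_of] at this
    show f (g (x i)) = x i
    rw [this]
    show FreeGroup.lift v (σ (FreeGroup.of i)) = x i
    rw [hvσ, FreeGroup.lift_apply_of])
  have h2 : g.comp f = MonoidHom.id _ := PresentedGroup.ext fun j => by
    show g (f (PresentedGroup.of j)) = PresentedGroup.of j
    rw [show f (PresentedGroup.of j) = v j from PresentedGroup.toGroup.of _]
    by_cases hj : j ∈ J
    · rw [← hW' j, hgx]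
      have := PresentedGroup.one_of_mem (rels := (↑R : Set (FreeGroup (Fin l))))
        (Finset.mem_coe.2 (Finset.mem_union_right _ (Finset.mem_image_of_mem
          (fun j => (FreeGroup.of j)⁻¹ * σ (W' j)) hj)))
      simp only [map_mul, map_inv, inv_mul_eq_one] at this
      exact this.symm
    · obtain ⟨i, hi, hu⟩ := hJ j hj
      rw [hi, ← FreeGroup.lift_apply_of (f := x) (x := i), hgx]
      simp only [σ, FreeGroup.lift_apply_of]
      rw [hWJ i j hj hi hu]
      rfl
  exact ⟨MonoidHom.toMulEquiv f g h2 h1, fun j => PresentedGroup.toGroup.of (h := htrue)⟩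

/-- The three-cycle `(0 1 2)`. -/
def x3 (n : ℕ) (hn : 3 ≤ n) : Perm (Fin n) :=
  cyc3 ⟨0, by omega⟩ ⟨1, by omega⟩ ⟨2, by omega⟩

theorem x3_mem (n : ℕ) (hn : 3 ≤ n) : x3 n hn ∈ alternatingGroup (Fin n) := by
  rw [Perm.mem_alternatingGroup, x3, cyc3, map_mul, Perm.sign_swap (by simp),
    Perm.sign_swap (by simp)]
  rfl

theorem embA_swap (p : ℕ) {n : ℕ} (h : p + 2 ≤ n) (a b : Fin (p + 2)) :
    embA p h (swap a b) = swap (Fin.castLE h a) (Fin.castLE h b) := by
  refine Equiv.ext fun x => ?_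
  by_cases hx : x.val < p + 2
  · obtain ⟨y, rfl⟩ : ∃ y, Fin.castLE h y = x := ⟨⟨x.val, hx⟩, rfl⟩
    rw [embA_apply]
    exact ((Fin.castLE_injective h).swap_apply a b y).symm
  · rw [show embA p h (swap a b) x = x from Perm.viaEmbedding_apply_of_notMem _ _ x (by
      rintro ⟨y, rfl⟩; exact hx y.2), swap_apply_of_ne_of_ne]
    · rintro rfl; exact hx a.2
    · rintro rfl; exact hx b.2

theorem embA_xp_zero (p : ℕ) [Fact p.Prime] {n : ℕ} (h : p + 2 ≤ n) :
    embA p h (xp p 0) = x3 n (by have := (Fact.out : p.Prime).two_le; omega) := by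
  rw [xp, cyc3, map_mul, embA_swap, embA_swap]
  have hv : ((ZMod.finEquiv p).symm (0 : ZMod p)).val = 0 := by
    rw [map_zero]; simp
  rw [x3, cyc3]
  congr 2 <;> apply Fin.ext <;> simp [ptEquiv, hv]

/-- The three generators used throughout. -/
theorem pres_glue (n : ℕ) (hn : n = 9 ∨ 13 ≤ n) :
    (∃ v : Fin 3 → alternatingGroup (Fin n), v 1 = ⟨x3 n (by omega), x3_mem n _⟩ ∧ HasPres v 7) ∧
    ∃ v : Fin 3 → Perm (Fin n), v 1 = x3 n (by omega) ∧ HasPres v 7 := by
  obtain ⟨p, hp, h1, h2⟩ := exists_window_prime n hn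
  haveI := Fact.mk hp
  obtain ⟨k, rfl⟩ : ∃ k, n = NN p k + 1 := ⟨n - p - 2, by unfold NN; omega⟩
  have hk : k + 7 ≤ p := by unfold NN at h2; omega
  constructor
  · obtain ⟨rels, hc, e, he⟩ := alt_pres_glue p k hk
    exact ⟨fun i => e (PresentedGroup.of i), he.trans (Subtype.ext (embA_xp_zero p _)),
      rels, hc, e, fun i => rfl⟩
  · obtain ⟨rels, hc, e, he⟩ := perm_pres_glue p k hk
    exact ⟨fun i => e (PresentedGroup.of i), he.trans (embA_xp_zero p _),
      rels, hc, e, fun i => rfl⟩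

theorem cycP_zero (m : ℕ) [NeZero m] (h : 3 ≤ m + 2) : cycP m 0 = x3 (m + 2) h := rfl

/-- Two generators for small degree. -/
theorem pres_small (n : ℕ) (h5 : 5 ≤ n) :
    (∃ v : Fin 2 → alternatingGroup (Fin n), v 1 = ⟨x3 n (by omega), x3_mem n _⟩ ∧
      HasPres v (2 + (n - 2) / 2)) ∧
    ∃ v : Fin 2 → Perm (Fin n), v 1 = x3 n (by omega) ∧
      HasPres v (2 + n % 2 + (n - 2) / 2) := by
  obtain ⟨m, rfl⟩ : ∃ m, n = m + 2 := ⟨n - 2, by omega⟩
  haveI : NeZero m := ⟨by omega⟩
  rw [show m + 2 - 2 = m by omega, show (m + 2) % 2 = m % 2 by omega]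
  constructor
  · obtain ⟨rels, hc, e, he⟩ := alt_pres_cyclic (m := m) (by omega)
    exact ⟨fun i => e (PresentedGroup.of i), he.trans (Subtype.ext (cycP_zero m (by omega))),
      rels, hc, e, fun i => rfl⟩
  · obtain ⟨rels, hc, e, he⟩ := perm_pres_cyclic (m := m) (by omega)
    exact ⟨fun i => e (PresentedGroup.of i), he.trans (cycP_zero m (by omega)), rels, hc, e, fun i => rfl⟩

/-- For every `n ≥ 5`: at most seven relators in two or three generators including `(0 1 2)`. -/
theorem pres_seven (n : ℕ) (h5 : 5 ≤ n) :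
    (∃ l, ∃ v : Fin l → alternatingGroup (Fin n),
      (∃ i, v i = ⟨x3 n (by omega), x3_mem n _⟩) ∧ HasPres v 7) ∧
    ∃ l, ∃ v : Fin l → Perm (Fin n), (∃ i, v i = x3 n (by omega)) ∧ HasPres v 7 := by
  by_cases hn : n = 9 ∨ 13 ≤ n
  · obtain ⟨⟨v, hv, h⟩, ⟨v', hv', h'⟩⟩ := pres_glue n hn
    exact ⟨⟨3, v, ⟨1, hv⟩, h⟩, ⟨3, v', ⟨1, hv'⟩, h'⟩⟩
  · obtain ⟨⟨v, hv, h⟩, ⟨v', hv', h'⟩⟩ := pres_small n h5
    exact ⟨⟨2, v, ⟨1, hv⟩, h.mono (by omega)⟩, ⟨2, v', ⟨1, hv'⟩, h'.mono (by omega)⟩⟩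

/-- A cycle on the points `lo, …, n - 1`. -/
noncomputable def tailCyc (n lo : ℕ) (h : lo < n) : Perm (Fin n) :=
  cyc (fun i : Fin (n - lo - 1 + 1) => (⟨lo + i.val, by omega⟩ : Fin n))
    (fun i j e => Fin.ext (by simpa using e))

theorem sign_tailCyc (n lo : ℕ) (h : lo < n) :
    Perm.sign (tailCyc n lo h) = (-1) ^ (n - lo - 1) := sign_cyc _ _

theorem tail_gen (n lo : ℕ) (h5 : 5 ≤ n) (hlo : lo = 1 ∨ lo = 2) (h : lo < n)
    {X : Subgroup (Perm (Fin n))} (hx : x3 n (by omega) ∈ X) (hc : tailCyc n lo h ∈ X) :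
    alternatingGroup (Fin n) ≤ X := by
  intro σ hσ
  set c : Fin n := ⟨0, by omega⟩
  set e : Fin n := ⟨1, by omega⟩
  refine altOn_le_of_cyc3 (T := Set.univ) (c := c) (e := e)
    (Fin.ne_of_val_ne (show (0 : ℕ) ≠ 1 by omega)) ?_
    ⟨Perm.mem_alternatingGroup.1 hσ, fun x hx => absurd (Set.mem_univ x) hx⟩
  intro t _ htc hte
  have ht : 2 ≤ t.val := by
    rcases t with ⟨_ | _ | v, hv⟩
    · exact absurd rfl htc
    · exact absurd rfl hte
    · simp
  set f : Fin (n - lo - 1 + 1) → Fin n := fun i => ⟨lo + i.val, by omega⟩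
  have hf : Function.Injective f := fun i j e => Fin.ext (by simpa [f] using e)
  obtain ⟨i, hi⟩ : ∃ i, t = f i := ⟨⟨t.val - lo, by omega⟩, Fin.ext (by simp [f]; omega)⟩
  have hfc : ∀ i, f i ≠ c := fun i e => by
    have : lo + i.val = 0 := congrArg Fin.val e
    omega
  have hpc : tailCyc n lo h c = c := cyc_fix _ _ hfc
  rw [hi]
  rcases hlo with rfl | rfl
  · have h0 : cyc3 c (f 0) (f 1) ∈ X := by
      have e1 : f 1 = ⟨2, by omega⟩ := Fin.ext (by
        show 1 + (1 : Fin (n - 1 - 1 + 1)).val = 2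
        rw [Fin.val_one', Nat.mod_eq_of_lt (by omega)])
      rw [show f 0 = e from Fin.ext (by simp [f, e]), e1]
      exact hx
    have := cyc3_mem_of_cyc f hc (cyc_apply _ _) hpc hfc h0 hf i (fun e' => hte (by
      rw [hi, e']; exact Fin.ext (by simp [f, e])))
    rwa [show f 0 = e from Fin.ext (by simp [f, e])] at this
  · have h0 : cyc3 (f 0) c e ∈ X := by
      rw [cyc3_rotate (hfc 0) (Fin.ne_of_val_ne (show (f 0).val ≠ 1 by simp [f]))]
      have : f 0 = ⟨2, by omega⟩ := Fin.ext (by simp [f])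
      rw [this]
      exact hx
    have hpe : tailCyc n 2 h e = e := cyc_fix _ _ fun i e' => by
      have : 2 + i.val = 1 := congrArg Fin.val e'
      omega
    obtain ⟨j, hj⟩ := cyc_reach f hf i
    have := cyc3_pow_mem hc hpc hpe h0 j
    rw [show tailCyc n 2 h = cyc f hf from rfl, hj] at this
    exact this

theorem partner_alt (n : ℕ) (h5 : 5 ≤ n) :
    ∃ w : alternatingGroup (Fin n),
      Subgroup.closure (Set.range ![(⟨x3 n (by omega), x3_mem n _⟩ :
        alternatingGroup (Fin n)), w]) = ⊤ := by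
  obtain ⟨lo, hlo⟩ : ∃ lo, lo = if n % 2 = 0 then 1 else 2 := ⟨_, rfl⟩
  have hlt : lo < n := by rw [hlo]; split_ifs <;> omega
  have hw : tailCyc n lo hlt ∈ alternatingGroup (Fin n) := by
    rw [Perm.mem_alternatingGroup, sign_tailCyc]
    refine (Nat.even_iff.2 ?_).neg_one_pow
    rw [hlo]; split_ifs <;> omega
  refine ⟨⟨_, hw⟩, ?_⟩
  rw [eq_top_iff]
  intro σ _
  have hle := tail_gen n lo h5 (by rw [hlo]; split_ifs <;> simp) hlt
    (X := (Subgroup.closure (Set.range ![(⟨x3 n (by omega), x3_mem n _⟩ :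
        alternatingGroup (Fin n)), ⟨_, hw⟩])).map (alternatingGroup (Fin n)).subtype)
    ⟨_, Subgroup.subset_closure ⟨0, rfl⟩, rfl⟩ ⟨_, Subgroup.subset_closure ⟨1, rfl⟩, rfl⟩ σ.2
  obtain ⟨τ, hτ, e⟩ := hle
  rwa [show τ = σ from Subtype.ext e] at hτ

theorem partner_perm (n : ℕ) (h5 : 5 ≤ n) :
    ∃ w : Perm (Fin n), Subgroup.closure (Set.range ![x3 n (by omega), w]) = ⊤ := by
  obtain ⟨lo, hlo⟩ : ∃ lo, lo = if n % 2 = 0 then 2 else 1 := ⟨_, rfl⟩
  have hlt : lo < n := by rw [hlo]; split_ifs <;> omega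
  refine ⟨tailCyc n lo hlt, ?_⟩
  set X := Subgroup.closure (Set.range ![x3 n (by omega), tailCyc n lo hlt])
  have hA := tail_gen n lo h5 (by rw [hlo]; split_ifs <;> simp) hlt (X := X)
    (Subgroup.subset_closure ⟨0, rfl⟩) (Subgroup.subset_closure ⟨1, rfl⟩)
  have hsgn : Perm.sign (tailCyc n lo hlt) = -1 := by
    rw [sign_tailCyc]
    refine (Nat.odd_iff.2 ?_).neg_one_pow
    rw [hlo]; split_ifs <;> omega
  rw [eq_top_iff]
  intro σ _
  rcases Int.units_eq_one_or (Perm.sign σ) with hs | hs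
  · exact hA (Perm.mem_alternatingGroup.2 hs)
  · have hm : σ * (tailCyc n lo hlt)⁻¹ ∈ alternatingGroup (Fin n) := by
      rw [Perm.mem_alternatingGroup, map_mul, map_inv, hs, hsgn]; rfl
    have := X.mul_mem (hA hm) (Subgroup.subset_closure ⟨1, rfl⟩ : tailCyc n lo hlt ∈ X)
    rwa [inv_mul_cancel_right] at this

/-- Two generators, eight relators. -/
theorem pres_eight {H : Type*} [Group H] {l : ℕ} {x : Fin l → H} {i : Fin l} {a w : H}
    (hi : x i = a) (h : HasPres x 7) (hg : Subgroup.closure (Set.range ![a, w]) = ⊤) :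
    HasPres ![a, w] 8 :=
  h.change hg {1} fun j hj => ⟨i, by
    fin_cases j
    · exact ⟨hi.symm, fun j' hj' _ => by
        fin_cases j'
        · rfl
        · simp at hj'⟩
    · simp at hj⟩

/-- Two prescribed generators, nine relators. -/
theorem pres_nine {H : Type*} [Group H] {l : ℕ} {x : Fin l → H} (h : HasPres x 7) (a b : H)
    (hg : Subgroup.closure ({a, b} : Set H) = ⊤) : HasPres ![a, b] 9 :=
  h.change (by
    rw [show Set.range ![a, b] = {a, b} by
      simp [Matrix.range_cons, Matrix.range_empty, Set.pair_comm]]; exact hg)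
    Finset.univ fun j hj => absurd (Finset.mem_univ j) hj

end Cfsg.Agent.GKKL
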