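import Cfsg.Agent.GKKL.Glued

/-!
Presentations of `A_{p+2+k}` and `S_{p+2+k}` with three generators and seven relations.
-/

set_option autoImplicit false
set_option linter.unusedSectionVars false

namespace Cfsg.Agent.GKKL

open Equiv

/-- A presentation with three generators and at most seven relators, the middle one sent to `x`. -/
def Pres (H : Type) [Group H] (x : H) : Prop :=
  ∃ rels : Finset (FreeGroup (Fin 3)), rels.card ≤ 7 ∧
    ∃ e : PresentedGroup (↑rels : Set (FreeGroup (Fin 3))) ≃* H, e (PresentedGroup.of 1) = x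

/-- Auxiliary: generators of `F`. -/
abbrev fa : FreeGroup (Fin 3) := FreeGroup.of 0
/-- Auxiliary: generators of `F`. -/
abbrev fz : FreeGroup (Fin 3) := FreeGroup.of 1
/-- Auxiliary: generators of `F`. -/
abbrev fu : FreeGroup (Fin 3) := FreeGroup.of 2

variable (p k : ℕ) [hp : Fact p.Prime]

theorem xp_cube (i : ZMod p) : xp p i ^ 3 = 1 := by
  have h : (xp p i).IsThreeCycle := by
    rw [xp, cyc3, swap_comm (ptEquiv p (Sum.inl 0))]
    exact Perm.isThreeCycle_swap_mul_swap_same (by simp) (by simp) (by simp)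
  rw [← h.orderOf, pow_orderOf_eq_one]

theorem cyc3_mul_cyc3 {Ω : Type*} [DecidableEq Ω] [Fintype Ω] {a b i j : Ω} (hab : a ≠ b)
    (hai : a ≠ i) (haj : a ≠ j) (hbi : b ≠ i) (hbj : b ≠ j) (hij : i ≠ j) :
    (cyc3 a b i * cyc3 a b j) ^ 2 = 1 := by
  have h1 := Equiv.swap_apply_apply (swap a b) b i
  rw [swap_apply_right, swap_apply_of_ne_of_ne hai.symm hbi.symm, Equiv.swap_inv] at h1
  have e : cyc3 a b i * cyc3 a b j = swap a i * swap b j := by
    rw [h1, cyc3, cyc3]; group
  have hd : Perm.Disjoint (swap a i) (swap b j) := fun x => by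
    by_cases h : x = a ∨ x = i
    · right
      rcases h with rfl | rfl
      · exact swap_apply_of_ne_of_ne hab haj
      · exact swap_apply_of_ne_of_ne hbi.symm hij
    · left
      push Not at h
      exact swap_apply_of_ne_of_ne h.1 h.2
  rw [e, hd.commute.mul_pow, sq, sq, swap_mul_self, swap_mul_self, one_mul]

/-- The relators. -/
noncomputable def relList (hk : k + 7 ≤ p) (s : ℕ) (wb : FreeGroup (ZMod p))
    (ub : Perm (Fin (NN p k + 1))) (last : FreeGroup (Fin 3)) : List (FreeGroup (Fin 3)) :=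
  [fa ^ p * (evalW p fa fz wb ^ (p - 1))⁻¹,
    evalW p fa fz wb * fa ^ s * (evalW p fa fz wb)⁻¹ * (fa ^ (s + 1))⁻¹,
    evalW p fa fz wb * fz * (evalW p fa fz wb)⁻¹ * fz,
    (fz * (fa * fz * fa⁻¹)) ^ 2 * (fz ^ 3)⁻¹,
    fu * (evalW p fa fz (wd p k (ub⁻¹ * gC p k hk * ub)) ^ (lenG p k + 1 + 1) * fz ^ 3) * fu⁻¹ *
      (evalW p fa fz (wd p k (gC p k hk)) ^ (lenG p k + 1 + 1))⁻¹,
    evalW p fa fz (wd p k (alC p k hk * sig p k)) *
        (fu * evalW p fa fz (wd p k (ub⁻¹ * beC p k hk * ub)) * fu⁻¹) *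
      ((fu * evalW p fa fz (wd p k (ub⁻¹ * beC p k hk * ub)) * fu⁻¹) *
        evalW p fa fz (wd p k (alC p k hk * sig p k)))⁻¹,
    last]

/-- The images of the generators. -/
noncomputable def genImg (ub : Perm (Fin (NN p k + 1))) : Fin 3 → Perm (Fin (NN p k + 1)) :=
  ![embA p (le_NN p k) (abar p), embA p (le_NN p k) (xp p 0), ub]

theorem genImg_evalW (ub : Perm (Fin (NN p k + 1))) (w : FreeGroup (ZMod p)) :
    FreeGroup.lift (genImg p k ub) (evalW p fa fz w) = evalN p (le_NN p k) w := by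
  rw [map_evalW, FreeGroup.lift_apply_of, FreeGroup.lift_apply_of]
  exact evalW_embA p (le_NN p k) w

variable {hk : k + 7 ≤ p} {s : ℕ} {g : (ZMod p)ˣ} {wb : FreeGroup (ZMod p)}
  {ub : Perm (Fin (NN p k + 1))} {last : FreeGroup (Fin 3)}

/-- The presented group. -/
abbrev GRP (hk : k + 7 ≤ p) (s : ℕ) (wb : FreeGroup (ZMod p)) (ub : Perm (Fin (NN p k + 1)))
    (last : FreeGroup (Fin 3)) : Type :=
  PresentedGroup (↑(relList p k hk s wb ub last).toFinset : Set (FreeGroup (Fin 3)))

theorem glueRels : GlueRels p k hk s wb ub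
    (PresentedGroup.of 0 : GRP p k hk s wb ub last) (PresentedGroup.of 1) (PresentedGroup.of 2) := by
  set mk := PresentedGroup.mk (↑(relList p k hk s wb ub last).toFinset : Set (FreeGroup (Fin 3)))
  have hmem : ∀ r ∈ relList p k hk s wb ub last, mk r = 1 := fun r hr =>
    PresentedGroup.one_of_mem (List.mem_toFinset.2 hr)
  have hev : ∀ w, evalW p (PresentedGroup.of 0 : GRP p k hk s wb ub last) (PresentedGroup.of 1) w =
      mk (evalW p fa fz w) := fun w => (map_evalW p mk fa fz w).symm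
  have h0 : mk fa = PresentedGroup.of 0 := rfl
  have h1 : mk fz = PresentedGroup.of 1 := rfl
  have h2 : mk fu = PresentedGroup.of 2 := rfl
  refine ⟨⟨?_, ?_, ?_, ?_⟩, ?_, ?_⟩ <;> (try simp only [hev])
  · have := hmem (fa ^ p * (evalW p fa fz wb ^ (p - 1))⁻¹) (by simp [relList])
    simp only [map_mul, map_inv, map_pow, h0] at this
    exact mul_inv_eq_one.1 this
  · have := hmem (evalW p fa fz wb * fa ^ s * (evalW p fa fz wb)⁻¹ * (fa ^ (s + 1))⁻¹)
      (by simp [relList])
    simp only [map_mul, map_inv, map_pow, h0] at this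
    exact mul_inv_eq_one.1 this
  · have := hmem (evalW p fa fz wb * fz * (evalW p fa fz wb)⁻¹ * fz) (by simp [relList])
    simp only [map_mul, map_inv, h1] at this
    exact eq_inv_of_mul_eq_one_left this
  · have := hmem ((fz * (fa * fz * fa⁻¹)) ^ 2 * (fz ^ 3)⁻¹) (by simp [relList])
    simp only [map_mul, map_inv, map_pow, h0, h1] at this
    exact mul_inv_eq_one.1 this
  · have := hmem (fu * (evalW p fa fz (wd p k (ub⁻¹ * gC p k hk * ub)) ^ (lenG p k + 1 + 1) *
      fz ^ 3) * fu⁻¹ * (evalW p fa fz (wd p k (gC p k hk)) ^ (lenG p k + 1 + 1))⁻¹)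
      (by simp [relList])
    simp only [map_mul, map_inv, map_pow, h1, h2] at this
    exact mul_inv_eq_one.1 this
  · have := hmem (evalW p fa fz (wd p k (alC p k hk * sig p k)) *
        (fu * evalW p fa fz (wd p k (ub⁻¹ * beC p k hk * ub)) * fu⁻¹) *
      ((fu * evalW p fa fz (wd p k (ub⁻¹ * beC p k hk * ub)) * fu⁻¹) *
        evalW p fa fz (wd p k (alC p k hk * sig p k)))⁻¹) (by simp [relList])
    rw [map_mul, map_inv, mul_inv_eq_one] at this
    simp only [map_mul, map_inv, h2] at this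
    exact this

variable (hs : (s : ZMod p) * ((g : ZMod p) - 1) = 1)
  (hg : ∀ x : (ZMod p)ˣ, x ∈ Subgroup.zpowers g) (hwb : evalPerm p wb = bbar p g)
  (hub : Conj p k ub) (hodd : p % 2 = 1)
include hs hwb hub hodd

theorem rels_true (hlast : FreeGroup.lift (genImg p k ub) last = 1) :
    ∀ r ∈ (↑(relList p k hk s wb ub last).toFinset : Set (FreeGroup (Fin 3))),
      FreeGroup.lift (genImg p k ub) r = 1 := by
  have hwb' : evalN p (le_NN p k) wb = embA p (le_NN p k) (bbar p g) := by
    rw [evalN, MonoidHom.comp_apply, hwb]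
  have h2 : p ≠ 2 := by omega
  have f0 : FreeGroup.lift (genImg p k ub) fa = embA p (le_NN p k) (abar p) :=
    FreeGroup.lift_apply_of ..
  have f1 : FreeGroup.lift (genImg p k ub) fz = embA p (le_NN p k) (xp p 0) :=
    FreeGroup.lift_apply_of ..
  have f2 : FreeGroup.lift (genImg p k ub) fu = ub := FreeGroup.lift_apply_of ..
  intro r hr
  rw [Finset.mem_coe, List.mem_toFinset, relList] at hr
  simp only [List.mem_cons, List.not_mem_nil, or_false] at hr
  rcases hr with rfl | rfl | rfl | rfl | rfl | rfl | rfl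
  · simp only [map_mul, map_inv, map_pow, genImg_evalW, f0, hwb']
    rw [← map_pow, ← map_pow, abar_pow_self, bbar_pow_pred p h2 g, map_one, inv_one, one_mul]
  · simp only [map_mul, map_inv, map_pow, genImg_evalW, f0, hwb']
    rw [← map_pow, ← map_pow, ← map_inv, ← map_mul, ← map_mul,
      bbar_conj_abar p g s (s + 1) (by push_cast; rw [mul_sub, mul_one] at hs; linear_combination -hs),
      mul_inv_eq_one]
  · simp only [map_mul, map_inv, genImg_evalW, f1, hwb']
    rw [← map_inv, ← map_mul, ← map_mul, bbar_conj p g 0, mul_zero, map_inv, inv_mul_cancel]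
  · simp only [map_mul, map_inv, map_pow, f0, f1]
    rw [← map_inv, ← map_mul, ← map_mul, ← map_mul, ← map_pow, ← map_pow, abar_conj p 0, zero_add,
      xp_cube, show (xp p 0 * xp p 1) ^ 2 = 1 from cyc3_mul_cyc3 (by simp) (by simp) (by simp)
        (by simp) (by simp) (by simp [zero_ne_one]), map_one, inv_one, one_mul]
  · simp only [map_mul, map_inv, map_pow, genImg_evalW, f1, f2]
    rw [evalN_wd p k (conj_mem_altOn ub hub.back (memB_g p k hodd)),
      evalN_wd p k (memA_g p k hodd), ← map_pow (embA p (le_NN p k)), xp_cube, map_one, mul_one,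
      ← conj_pow, mul_inv_eq_one]
    congr 1
    group
  · simp only [map_mul, map_inv, genImg_evalW, f2]
    rw [evalN_wd p k (conj_mem_altOn ub hub.back (beC_mem p k hk)), evalN_wd p k (memA_al p k),
      mul_inv_eq_one, show ub * (ub⁻¹ * beC p k hk * ub) * ub⁻¹ = beC p k hk by group]
    refine (commute_of_disjoint (S := seg (NN p k + 1) 0 p) (T := seg (NN p k + 1) p (NN p k + 1))
      (fun x hx hx' => absurd hx'.1 (not_le.2 hx.2)) ?_
      (beC_mem' p k hk)).eq
    exact mul_mem (alC_mem p k hk) (sig_mem p k hk (Nat.zero_le _) (by omega))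
  · exact hlast

/-- The hom to permutations. -/
noncomputable def toPerm (hlast : FreeGroup.lift (genImg p k ub) last = 1) :
    GRP p k hk s wb ub last →* Perm (Fin (NN p k + 1)) :=
  PresentedGroup.toGroup (rels_true p k hs hwb hub hodd hlast)

include hg

/-- Everything we need about the glued hom into the presented group. -/
theorem exists_data (hlast : FreeGroup.lift (genImg p k ub) last = 1)
    (hσ : ∀ (Ψ : altOn (seg (NN p k + 1) 0 (p + 2)) →* GRP p k hk s wb ub last),
      (∀ w hw, Ψ ⟨evalN p (le_NN p k) w, hw⟩ =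
        evalW p (PresentedGroup.of 0) (PresentedGroup.of 1) w) →
      (PresentedGroup.of 2 : GRP p k hk s wb ub last) *
        Ψ ⟨sig p k, memA_sig p k (hk := hk)⟩ * (PresentedGroup.of 2)⁻¹ =
        Ψ ⟨sig p k, memA_sig p k (hk := hk)⟩) :
    ∃ Φ : alternatingGroup (Fin (NN p k + 1)) →* GRP p k hk s wb ub last,
      (∀ σ, toPerm p k hs hwb hub hodd hlast (Φ σ) = σ.1) ∧
      (PresentedGroup.of 0 : GRP p k hk s wb ub last) ∈ Φ.range ∧
      (PresentedGroup.of 1 : GRP p k hk s wb ub last) ∈ Φ.range ∧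
      (∀ w, evalW p (PresentedGroup.of 0 : GRP p k hk s wb ub last) (PresentedGroup.of 1) w
        ∈ Φ.range) ∧
      (∀ w, (PresentedGroup.of 2 : GRP p k hk s wb ub last) *
          evalW p (PresentedGroup.of 0) (PresentedGroup.of 1) w *
          (PresentedGroup.of 2)⁻¹ ∈ Φ.range) := by
  have h : GlueRels p k hk s wb ub (PresentedGroup.of 0 : GRP p k hk s wb ub last)
      (PresentedGroup.of 1) (PresentedGroup.of 2) := glueRels p k
  have h2 : p ≠ 2 := by omega
  obtain ⟨Ψ, hΨ⟩ := exists_Psi p k h hs hg hub hodd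
  obtain ⟨Φ, hA, hB⟩ := exists_Phi p k h hs hg hub hodd Ψ hΨ (hσ Ψ hΨ)
  have hAlt : ∀ {lo hi : ℕ} {γ : Perm (Fin (NN p k + 1))},
      γ ∈ altOn (seg (NN p k + 1) lo hi) → γ ∈ alternatingGroup (Fin (NN p k + 1)) :=
    fun hγ => Perm.mem_alternatingGroup.2 hγ.1
  have hW : ∀ w, evalW p (PresentedGroup.of 0 : GRP p k hk s wb ub last) (PresentedGroup.of 1) w
      ∈ Φ.range := fun w => ⟨⟨_, hAlt (evalN_mem p (le_NN p k) w)⟩,
    (hA ⟨_, evalN_mem p (le_NN p k) w⟩ _).trans (hΨ w _)⟩
  have hU : ∀ w, (PresentedGroup.of 2 : GRP p k hk s wb ub last) *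
        evalW p (PresentedGroup.of 0) (PresentedGroup.of 1) w *
        (PresentedGroup.of 2)⁻¹ ∈ Φ.range := by
    intro w
    have hm := evalN_mem p (le_NN p k) w
    have hγ : ub * evalN p (le_NN p k) w * ub⁻¹ ∈ altOn (seg (NN p k + 1) k (NN p k + 1)) := by
      refine ⟨by rw [map_mul, map_mul, hm.1, map_inv, mul_one, mul_inv_cancel], fun x hx => ?_⟩
      rw [Perm.mul_apply, Perm.mul_apply, hm.2 _ fun hy => hx ⟨?_, x.2⟩]
      · exact ub.apply_symm_apply x
      · have := hub.fwd _ hy.2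
        rwa [show ub (ub⁻¹ x) = x from ub.apply_symm_apply x] at this
    refine ⟨⟨_, hAlt hγ⟩, (hB ⟨_, hγ⟩ (hAlt hγ)).trans ?_⟩
    rw [← hΨ w hm]
    show (PresentedGroup.of 2 : GRP p k hk s wb ub last) * Ψ ⟨_, _⟩ * (PresentedGroup.of 2)⁻¹ = _
    congr 2
    exact congrArg Ψ (Subtype.ext (show ub⁻¹ * (ub * evalN p (le_NN p k) w * ub⁻¹) * ub =
      evalN p (le_NN p k) w by group))
  have hπ : ∀ w, toPerm p k hs hwb hub hodd hlast
      (evalW p (PresentedGroup.of 0 : GRP p k hk s wb ub last) (PresentedGroup.of 1) w) =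
      evalN p (le_NN p k) w := fun w => by
    rw [map_evalW, toPerm, PresentedGroup.toGroup.of, PresentedGroup.toGroup.of]
    exact evalW_embA p (le_NN p k) w
  have hπu : toPerm p k hs hwb hub hodd hlast (PresentedGroup.of 2 : GRP p k hk s wb ub last) = ub :=
    PresentedGroup.toGroup.of _
  refine ⟨Φ, ?_, ?_, ?_, hW, hU⟩
  · let X : Subgroup (Perm (Fin (NN p k + 1))) :=
      (MonoidHom.eqLocus ((toPerm p k hs hwb hub hodd hlast).comp Φ)
        (alternatingGroup (Fin (NN p k + 1))).subtype).map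
        (alternatingGroup (Fin (NN p k + 1))).subtype
    have hle : altOn (seg (NN p k + 1) 0 (NN p k + 1)) ≤ X := by
      refine adj_gen (k := k) (Nat.zero_le _) (show k + 3 < p + 1 + k + 1 by omega) le_rfl
        fun i _ hi => ?_
      by_cases hiA : i + 1 < p + 2
      · have m1 : CoxeterSym.adjSwap (NN p k) i * CoxeterSym.adjSwap (NN p k) (k + 1) ∈
            altOn (seg (NN p k + 1) 0 (p + 2)) :=
          adj_mul_mem (Nat.zero_le _) hiA (Nat.zero_le _) (by omega) (le_NN p k)
        refine ⟨⟨_, hAlt m1⟩, ?_, rfl⟩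
        show toPerm p k hs hwb hub hodd hlast (Φ ⟨_, hAlt m1⟩) = _
        rw [hA ⟨_, m1⟩ (hAlt m1), ← Psi_wd p k Ψ hΨ m1, hπ, evalN_wd p k m1]
        rfl
      · have m1 : CoxeterSym.adjSwap (NN p k) i * CoxeterSym.adjSwap (NN p k) (k + 1) ∈
            altOn (seg (NN p k + 1) k (NN p k + 1)) :=
          adj_mul_mem (by omega) hi (by omega) (show k + 1 + 1 < p + 1 + k + 1 by omega) le_rfl
        refine ⟨⟨_, hAlt m1⟩, ?_, rfl⟩
        show toPerm p k hs hwb hub hodd hlast (Φ ⟨_, hAlt m1⟩) = _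
        rw [hB ⟨_, m1⟩ (hAlt m1)]
        show toPerm p k hs hwb hub hodd hlast ((PresentedGroup.of 2 : GRP p k hk s wb ub last) *
          Ψ ⟨_, conj_mem_altOn ub hub.back m1⟩ * (PresentedGroup.of 2)⁻¹) = _
        rw [map_mul, map_mul, map_inv, hπu, ← Psi_wd p k Ψ hΨ (conj_mem_altOn ub hub.back m1), hπ,
          evalN_wd p k (conj_mem_altOn ub hub.back m1)]
        show _ = CoxeterSym.adjSwap (NN p k) i * CoxeterSym.adjSwap (NN p k) (k + 1)
        group
    intro σ
    obtain ⟨σ', hσ', e⟩ := hle (show σ.1 ∈ altOn (seg (NN p k + 1) 0 (NN p k + 1)) from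
      ⟨Perm.mem_alternatingGroup.1 σ.2, fun x hx => absurd ⟨Nat.zero_le _, x.2⟩ hx⟩)
    obtain rfl : σ' = σ := Subtype.ext e
    exact hσ'
  · obtain ⟨ψ, hψ⟩ := h.core.exists_hom hs hg (cube_one p k h hs hg hub hodd)
    obtain ⟨w, hw⟩ := exists_word p (abar_mem p h2)
    have e := h.core.eq_hom_abar hs h2 hwb hg ψ hψ
    rw [show (⟨abar p, abar_mem p h2⟩ : alternatingGroup (Fin (p + 2))) =
      ⟨evalPerm p w, evalPerm_mem p w⟩ from Subtype.ext hw.symm, hom_evalW p ψ hψ] at e
    have := hW w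
    rwa [e] at this
  · have := hW (FreeGroup.of 0)
    simpa [evalW, zc] using this

theorem alt_pres (hlast : FreeGroup.lift (genImg p k ub) last = 1)
    (hσ : ∀ (Ψ : altOn (seg (NN p k + 1) 0 (p + 2)) →* GRP p k hk s wb ub last),
      (∀ w hw, Ψ ⟨evalN p (le_NN p k) w, hw⟩ =
        evalW p (PresentedGroup.of 0) (PresentedGroup.of 1) w) →
      (PresentedGroup.of 2 : GRP p k hk s wb ub last) *
        Ψ ⟨sig p k, memA_sig p k (hk := hk)⟩ * (PresentedGroup.of 2)⁻¹ =
        Ψ ⟨sig p k, memA_sig p k (hk := hk)⟩)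
    (hu : ∀ (R : Subgroup (GRP p k hk s wb ub last)),
      (∀ w, evalW p (PresentedGroup.of 0 : GRP p k hk s wb ub last) (PresentedGroup.of 1) w ∈ R) →
      (PresentedGroup.of 2 : GRP p k hk s wb ub last) *
        evalW p (PresentedGroup.of 0) (PresentedGroup.of 1) (wd p k (ub⁻¹ * beC p k hk * ub)) *
        (PresentedGroup.of 2)⁻¹ ∈ R → (PresentedGroup.of 2 : GRP p k hk s wb ub last) ∈ R)
    (hx : embA p (le_NN p k) (xp p 0) ∈ alternatingGroup (Fin (NN p k + 1))) :
    Pres (alternatingGroup (Fin (NN p k + 1))) ⟨embA p (le_NN p k) (xp p 0), hx⟩ := by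
  obtain ⟨Φ, hid, h0, h1, hW, hU⟩ := exists_data p k hs hg hwb hub hodd hlast hσ
  have hinj : Function.Injective Φ := fun x y e => Subtype.ext (by rw [← hid x, ← hid y, e])
  have hsurj : Function.Surjective Φ := by
    rw [← MonoidHom.range_eq_top, eq_top_iff, ← PresentedGroup.closure_range_of, Subgroup.closure_le]
    rintro _ ⟨i, rfl⟩
    fin_cases i
    · exact h0
    · exact h1
    · exact hu Φ.range hW (hU _)
  let e := (MulEquiv.ofBijective Φ ⟨hinj, hsurj⟩).symm
  refine ⟨(relList p k hk s wb ub last).toFinset, List.toFinset_card_le _, e, Subtype.ext ?_⟩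
  show (e (PresentedGroup.of 1)).1 = embA p (le_NN p k) (xp p 0)
  rw [← hid]
  show toPerm p k hs hwb hub hodd hlast (MulEquiv.ofBijective Φ ⟨hinj, hsurj⟩ (e _)) = _
  rw [MulEquiv.apply_symm_apply]
  exact PresentedGroup.toGroup.of _

theorem perm_pres (hlast : FreeGroup.lift (genImg p k ub) last = 1) (hodd_u : Perm.sign ub = -1)
    (hσ : ∀ (Ψ : altOn (seg (NN p k + 1) 0 (p + 2)) →* GRP p k hk s wb ub last),
      (∀ w hw, Ψ ⟨evalN p (le_NN p k) w, hw⟩ =
        evalW p (PresentedGroup.of 0) (PresentedGroup.of 1) w) →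
      (PresentedGroup.of 2 : GRP p k hk s wb ub last) *
        Ψ ⟨sig p k, memA_sig p k (hk := hk)⟩ * (PresentedGroup.of 2)⁻¹ =
        Ψ ⟨sig p k, memA_sig p k (hk := hk)⟩)
    (hu : ∃ w, (PresentedGroup.of 2 : GRP p k hk s wb ub last) * PresentedGroup.of 2 =
        evalW p (PresentedGroup.of 0) (PresentedGroup.of 1) w) :
    Pres (Perm (Fin (NN p k + 1))) (embA p (le_NN p k) (xp p 0)) := by
  classical
  obtain ⟨Φ, hid, h0, h1, hW, hU⟩ := exists_data p k hs hg hwb hub hodd hlast hσ
  set π := toPerm p k hs hwb hub hodd hlast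
  set u : GRP p k hk s wb ub last := PresentedGroup.of 2
  have hπu : π u = ub := PresentedGroup.toGroup.of _
  have hu2 : u * u ∈ Φ.range := by obtain ⟨w, hw⟩ := hu; rw [hw]; exact hW w
  let R : Subgroup (GRP p k hk s wb ub last) := Subgroup.closure
    (Set.range (fun w => evalW p (PresentedGroup.of 0 : GRP p k hk s wb ub last)
        (PresentedGroup.of 1) w) ∪
      Set.range (fun w => u * evalW p (PresentedGroup.of 0 : GRP p k hk s wb ub last)
        (PresentedGroup.of 1) w * u⁻¹))
  have hRle : R ≤ Φ.range := by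
    rw [Subgroup.closure_le]
    rintro _ (⟨w, rfl⟩ | ⟨w, rfl⟩)
    · exact hW w
    · exact hU w
  have huu : u * u ∈ R := by
    obtain ⟨w, hw⟩ := hu
    exact Subgroup.subset_closure (Or.inl ⟨w, hw.symm⟩)
  have hnorm : ∀ x ∈ R, u * x * u⁻¹ ∈ R := by
    have : R ≤ R.comap (MulAut.conj u).toMonoidHom := by
      refine (Subgroup.closure_le _).2 ?_
      rintro _ (⟨w, rfl⟩ | ⟨w, rfl⟩)
      · exact Subgroup.subset_closure (Or.inr ⟨w, rfl⟩)
      · show u * (u * _ * u⁻¹) * u⁻¹ ∈ R
        rw [show ∀ e : GRP p k hk s wb ub last,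
          u * (u * e * u⁻¹) * u⁻¹ = u * u * e * (u * u)⁻¹ from fun e => by group]
        exact R.mul_mem (R.mul_mem huu (Subgroup.subset_closure (Or.inl ⟨w, rfl⟩))) (R.inv_mem huu)
    exact fun x hx => this hx
  have hR0 : (PresentedGroup.of 0 : GRP p k hk s wb ub last) ∈ R := by
    obtain ⟨w, hw⟩ := exists_word p (abar_mem p (by omega : p ≠ 2))
    have h : GlueRels p k hk s wb ub (PresentedGroup.of 0 : GRP p k hk s wb ub last)
      (PresentedGroup.of 1) (PresentedGroup.of 2) := glueRels p k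
    obtain ⟨ψ, hψ⟩ := h.core.exists_hom hs hg (cube_one p k h hs hg hub hodd)
    have e := h.core.eq_hom_abar hs (by omega : p ≠ 2) hwb hg ψ hψ
    rw [show (⟨abar p, abar_mem p (by omega : p ≠ 2)⟩ : alternatingGroup (Fin (p + 2))) =
      ⟨evalPerm p w, evalPerm_mem p w⟩ from Subtype.ext hw.symm, hom_evalW p ψ hψ] at e
    exact Subgroup.subset_closure (Or.inl ⟨w, e⟩)
  have hR1 : (PresentedGroup.of 1 : GRP p k hk s wb ub last) ∈ R :=
    Subgroup.subset_closure (Or.inl ⟨FreeGroup.of 0, by simp [evalW, zc]⟩)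
  have hall : ∀ x : GRP p k hk s wb ub last, x ∈ R ∨ x * u⁻¹ ∈ R := by
    intro x
    have hx : x ∈ Subgroup.closure
        (Set.range (PresentedGroup.of : Fin 3 → GRP p k hk s wb ub last)) := by
      rw [PresentedGroup.closure_range_of]; trivial
    induction hx using Subgroup.closure_induction_left with
    | one => exact Or.inl R.one_mem
    | mul_left v hv y _ ih =>
      obtain ⟨i, rfl⟩ := hv
      have h2 : (PresentedGroup.of i : GRP p k hk s wb ub last) ∈ R ∨
          (PresentedGroup.of i : GRP p k hk s wb ub last) = u := by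
        fin_cases i
        · exact Or.inl hR0
        · exact Or.inl hR1
        · exact Or.inr rfl
      rcases h2 with hv | hv
      · rcases ih with h | h
        · exact Or.inl (R.mul_mem hv h)
        · exact Or.inr (by rw [mul_assoc]; exact R.mul_mem hv h)
      · rw [hv]
        rcases ih with h | h
        · exact Or.inr (hnorm y h)
        · exact Or.inl (by
            have := R.mul_mem (hnorm _ h) huu
            rwa [show u * (y * u⁻¹) * u⁻¹ * (u * u) = u * y by group] at this)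
    | inv_mul_cancel v hv y _ ih =>
      obtain ⟨i, rfl⟩ := hv
      have h2 : (PresentedGroup.of i : GRP p k hk s wb ub last) ∈ R ∨
          (PresentedGroup.of i : GRP p k hk s wb ub last) = u := by
        fin_cases i
        · exact Or.inl hR0
        · exact Or.inl hR1
        · exact Or.inr rfl
      rcases h2 with hv | hv
      · rcases ih with h | h
        · exact Or.inl (R.mul_mem (R.inv_mem hv) h)
        · exact Or.inr (by rw [mul_assoc]; exact R.mul_mem (R.inv_mem hv) h)
      · rw [hv]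
        rcases ih with h | h
        · exact Or.inr (by
            have := R.mul_mem (R.inv_mem huu) (hnorm _ h)
            rwa [show (u * u)⁻¹ * (u * y * u⁻¹) = u⁻¹ * y * u⁻¹ by group] at this)
        · exact Or.inl (by
            have := R.mul_mem (R.mul_mem (R.inv_mem huu) (hnorm _ h)) huu
            rwa [show (u * u)⁻¹ * (u * (y * u⁻¹) * u⁻¹) * (u * u) = u⁻¹ * y by group] at this)
  have hinj : Function.Injective π := by
    rw [injective_iff_map_eq_one]
    intro x hx
    rcases hall x with h | h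
    · obtain ⟨σ, rfl⟩ := hRle h
      rw [hid] at hx
      rw [show σ = 1 from Subtype.ext hx, map_one]
    · obtain ⟨σ, hσ'⟩ := hRle h
      have e := congrArg π hσ'
      rw [hid, map_mul, map_inv, hx, one_mul, hπu] at e
      have h1 := Perm.mem_alternatingGroup.1 σ.2
      rw [e, map_inv, hodd_u] at h1
      exact absurd h1 (by decide)
  have hsurj : Function.Surjective π := by
    intro τ
    rcases Int.units_eq_one_or (Perm.sign τ) with h | h
    · exact ⟨Φ ⟨τ, Perm.mem_alternatingGroup.2 h⟩, hid _⟩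
    · have hm : τ * ub⁻¹ ∈ alternatingGroup (Fin (NN p k + 1)) := by
        rw [Perm.mem_alternatingGroup, map_mul, map_inv, h, hodd_u]; rfl
      exact ⟨Φ ⟨_, hm⟩ * u, by rw [map_mul, hid, hπu]; exact inv_mul_cancel_right τ ub⟩
  exact ⟨(relList p k hk s wb ub last).toFinset, List.toFinset_card_le _,
    MulEquiv.ofBijective π ⟨hinj, hsurj⟩,
    PresentedGroup.toGroup.of (h := rels_true p k (hk := hk) hs hwb hub hodd hlast)⟩

end Cfsg.Agent.GKKL
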