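import Cfsg.Agent.PSLTwoSub.AltHom
import Cfsg.Agent.GKKL.AltOn

/-!
Gluing two alternating groups along a common one, given that far apart parts commute.
-/

set_option autoImplicit false

namespace Cfsg.Agent.GKKL

open Equiv Cfsg.Agent.CoxeterSym Cfsg.Agent.PSLTwoSub

/-- The points `lo ≤ x < hi`. -/
def seg (n lo hi : ℕ) : Set (Fin n) := {x | lo ≤ x.val ∧ x.val < hi}

theorem adjSwap_eq {N i : ℕ} (h : i < N) :
    adjSwap N i = swap (⟨i, by omega⟩ : Fin (N + 1)) ⟨i + 1, by omega⟩ := by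
  rw [adjSwap, dif_pos h]; rfl

theorem adj_mul_mem {N lo hi i j : ℕ} (hi1 : lo ≤ i) (hi2 : i + 1 < hi) (hj1 : lo ≤ j)
    (hj2 : j + 1 < hi) (hhi : hi ≤ N + 1) :
    adjSwap N i * adjSwap N j ∈ altOn (seg (N + 1) lo hi) := by
  rw [adjSwap_eq (show i < N by omega), adjSwap_eq (show j < N by omega)]
  refine swap_mul_swap_mem (by simp [Fin.ext_iff]) (by simp [Fin.ext_iff]) ⟨?_, ?_⟩ ⟨?_, ?_⟩
    ⟨?_, ?_⟩ ⟨?_, ?_⟩ <;> simp <;> omega

/-- The products `s_i s_{k+1}` generate. -/
theorem adj_gen {N lo hi k : ℕ} (hlo : lo ≤ k) (hk : k + 3 < hi) (hhi : hi ≤ N + 1)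
    {X : Subgroup (Perm (Fin (N + 1)))}
    (h : ∀ i, lo ≤ i → i + 1 < hi → adjSwap N i * adjSwap N (k + 1) ∈ X) :
    altOn (seg (N + 1) lo hi) ≤ X := by
  set c : Fin (N + 1) := ⟨k + 1, by omega⟩
  set e : Fin (N + 1) := ⟨k + 2, by omega⟩
  have hne : ∀ a b : Fin (N + 1), a.val ≠ b.val → a ≠ b := fun a b h e => h (congrArg _ e)
  refine altOn_le_of_cyc3 (c := c) (e := e) (hne _ _ (by simp [c, e])) ?_
  have hτ : adjSwap N (k + 1) = swap c e := adjSwap_eq (by omega)
  have key : ∀ t : Fin (N + 1), t.val ≠ k + 1 → t.val ≠ k + 2 → t.val + 1 ≠ k + 1 →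
      (ht : t.val + 1 < N + 1) → t.val + 1 ≠ k + 2 → lo ≤ t.val → t.val + 1 < hi →
      (cyc3 t c e ∈ X ↔ cyc3 ⟨t.val + 1, ht⟩ c e ∈ X) := by
    intro t h1 h2 h3 ht h4 hl hh
    set t' : Fin (N + 1) := ⟨t.val + 1, ht⟩
    set π := adjSwap N t.val * adjSwap N (k + 1)
    have hπX : π ∈ X := h _ hl hh
    have n1 : c ≠ t := hne _ _ (Ne.symm h1)
    have n2 : c ≠ t' := hne _ _ (Ne.symm h3)
    have n3 : e ≠ t := hne _ _ (Ne.symm h2)
    have n4 : e ≠ t' := hne _ _ (Ne.symm h4)
    have hπ : π = swap t t' * swap c e := by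
      simp only [π, hτ, adjSwap_eq (show t.val < N by omega)]
      rfl
    have a1 : π c = e := by rw [hπ, Perm.mul_apply, swap_apply_left, swap_apply_of_ne_of_ne n3 n4]
    have a2 : π e = c := by rw [hπ, Perm.mul_apply, swap_apply_right, swap_apply_of_ne_of_ne n1 n2]
    have a3 : π t = t' := by
      rw [hπ, Perm.mul_apply, swap_apply_of_ne_of_ne n1.symm n3.symm, swap_apply_left]
    have hinv : cyc3 t' e c = (cyc3 t' c e)⁻¹ := by
      rw [cyc3_rotate n2.symm n4.symm, cyc3_rotate n4.symm n2.symm]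
      exact (cyc3_swap n2.symm n4.symm)
    have hc : π * cyc3 t c e * π⁻¹ = (cyc3 t' c e)⁻¹ := by rw [conj_cyc3, a1, a2, a3, hinv]
    constructor
    · intro hm
      have := X.mul_mem (X.mul_mem hπX hm) (X.inv_mem hπX)
      rwa [hc, X.inv_mem_iff] at this
    · intro hm
      have := X.mul_mem (X.mul_mem (X.inv_mem hπX) (X.inv_mem hm)) hπX
      rwa [show π⁻¹ * (cyc3 t' c e)⁻¹ * π = cyc3 t c e by rw [← hc]; group] at this
  have hk0 : cyc3 (⟨k, by omega⟩ : Fin (N + 1)) c e ∈ X := by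
    have := h k hlo (by omega)
    rwa [hτ, adjSwap_eq (show k < N by omega)] at this
  have hk3 : cyc3 (⟨k + 3, by omega⟩ : Fin (N + 1)) c e ∈ X := by
    have := X.inv_mem (h (k + 2) (by omega) (by omega))
    rw [hτ, adjSwap_eq (show k + 2 < N by omega), mul_inv_rev, Equiv.swap_inv, Equiv.swap_inv]
      at this
    rw [cyc3_rotate (hne _ _ (by simp [c])) (hne _ _ (by simp [e]))]
    exact this
  intro t ht htc hte
  have h1 : t.val ≠ k + 1 := fun h => htc (Fin.ext h)
  have h2 : t.val ≠ k + 2 := fun h => hte (Fin.ext h)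
  rcases Nat.lt_or_ge t.val (k + 1) with hlt | hge
  · have : ∀ d (hd : d ≤ k - lo), cyc3 (⟨k - d, by omega⟩ : Fin (N + 1)) c e ∈ X := by
      intro d hd
      induction d with
      | zero => exact hk0
      | succ d ih =>
        refine (key ⟨k - (d + 1), by omega⟩ (by simp; omega) (by simp; omega) (by simp; omega)
          (by simp; omega) (by simp; omega) (by simp; omega) (by simp; omega)).2 ?_
        convert ih (by omega) using 3
        simp; omega
    convert this (k - t.val) (by have := ht.1; omega) using 2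
    exact Fin.ext (by simp; omega)
  · have : ∀ d (hd : k + 3 + d < hi), cyc3 (⟨k + 3 + d, by omega⟩ : Fin (N + 1)) c e ∈ X := by
      intro d hd
      induction d with
      | zero => exact hk3
      | succ d ih =>
        exact (key ⟨k + 3 + d, by omega⟩ (by simp; omega) (by simp; omega) (by simp; omega)
          (by simp; omega) (by simp; omega) (by simp; omega) (by simp; omega)).1 (ih (by omega))
    convert this (t.val - (k + 3)) (by have := ht.2; omega) using 2
    exact Fin.ext (by simp; omega)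

variable {W : Type*} [Group W]

/-- The gluing theorem. -/
theorem exists_glue_hom {N hiA k : ℕ} (hkA : k + 5 ≤ hiA) (hA : hiA ≤ N + 1)
    (ψ : altOn (seg (N + 1) 0 hiA) →* W) (ψ' : altOn (seg (N + 1) k (N + 1)) →* W)
    (hagree : ∀ γ (h1 : γ ∈ altOn (seg (N + 1) 0 hiA)) (h2 : γ ∈ altOn (seg (N + 1) k (N + 1))),
      γ ∈ altOn (seg (N + 1) k hiA) → ψ ⟨γ, h1⟩ = ψ' ⟨γ, h2⟩)
    (hcomm : ∀ (γ : altOn (seg (N + 1) 0 hiA)) (δ : altOn (seg (N + 1) k (N + 1))),
      γ.1 ∈ altOn (seg (N + 1) 0 (k + 3)) → δ.1 ∈ altOn (seg (N + 1) (k + 3) (N + 1)) →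
        Commute (ψ γ) (ψ' δ)) :
    ∃ Φ : alternatingGroup (Fin (N + 1)) →* W,
      (∀ (γ : altOn (seg (N + 1) 0 hiA)) (h : γ.1 ∈ alternatingGroup (Fin (N + 1))),
        Φ ⟨γ.1, h⟩ = ψ γ) ∧
      ∀ (γ : altOn (seg (N + 1) k (N + 1))) (h : γ.1 ∈ alternatingGroup (Fin (N + 1))),
        Φ ⟨γ.1, h⟩ = ψ' γ := by
  classical
  set τ := adjSwap N (k + 1)
  let a : ℕ → W := fun i =>
    if h : i + 1 < hiA then ψ ⟨adjSwap N i * τ, adj_mul_mem (by omega) h (by omega) (by omega) hA⟩
    else if h' : i + 1 < N + 1 then ψ' ⟨adjSwap N i * τ,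
      adj_mul_mem (by omega) h' (by omega) (by omega) le_rfl⟩ else 1
  have hττ : τ * τ = 1 := (adjSwap_relA N).1 (k + 1) (by omega)
  have haA : ∀ i (hi : i + 1 < hiA) hm, a i = ψ ⟨adjSwap N i * τ, hm⟩ := fun i hi _ => dif_pos hi
  have haB : ∀ i (hi : k ≤ i) (hi' : i + 1 < N + 1) hm, a i = ψ' ⟨adjSwap N i * τ, hm⟩ := by
    intro i hi hi' hm
    by_cases h : i + 1 < hiA
    · rw [haA i h (adj_mul_mem (by omega) h (by omega) (by omega) hA)]
      exact hagree _ _ hm (adj_mul_mem (by omega) h (by omega) (by omega) hA)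
    · simp only [a, dif_neg h, dif_pos hi']
  have hdiv : ∀ i j, adjSwap N i * τ * (adjSwap N j * τ)⁻¹ = adjSwap N i * (adjSwap N j)⁻¹ :=
    fun i j => by group
  have hadj : ∀ j, j < N → (adjSwap N j)⁻¹ = adjSwap N j := fun j hj =>
    inv_eq_of_mul_eq_one_right ((adjSwap_relA N).1 j hj)
  have hAA : ∀ i j, i + 1 < hiA → j + 1 < hiA → ∀ hm,
      a i * (a j)⁻¹ = ψ ⟨adjSwap N i * adjSwap N j, hm⟩ := fun i j hi hj hm => by
    rw [haA i hi (adj_mul_mem (by omega) hi (by omega) (by omega) hA),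
      haA j hj (adj_mul_mem (by omega) hj (by omega) (by omega) hA), ← map_inv, ← map_mul]
    congr 1
    exact Subtype.ext ((hdiv i j).trans (by rw [hadj j (by omega)]))
  have hBB : ∀ i j, k ≤ i → i + 1 < N + 1 → k ≤ j → j + 1 < N + 1 → ∀ hm,
      a i * (a j)⁻¹ = ψ' ⟨adjSwap N i * adjSwap N j, hm⟩ := fun i j hi hi' hj hj' hm => by
    rw [haB i hi hi' (adj_mul_mem (by omega) hi' (by omega) (by omega) le_rfl),
      haB j hj hj' (adj_mul_mem (by omega) hj' (by omega) (by omega) le_rfl), ← map_inv, ← map_mul]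
    congr 1
    exact Subtype.ext ((hdiv i j).trans (by rw [hadj j (by omega)]))
  have hinv : ∀ i, i < k → a i * a i = 1 := by
    intro i hi
    rw [haA i (by omega) (adj_mul_mem (by omega) (by omega) (by omega) (by omega) hA), ← map_mul,
      ← map_one ψ]
    congr 1
    refine Subtype.ext ?_
    show adjSwap N i * τ * (adjSwap N i * τ) = 1
    rw [Commute.mul_mul_mul_comm ((adjSwap_relA N).2.2 i (k + 1) (by omega) (by omega)).symm,
      (adjSwap_relA N).1 i (by omega), hττ, one_mul]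
  have hrel : RelAlt a N := by
    constructor
    · intro i hi
      have e : (adjSwap N i * adjSwap N (i + 1)) ^ 3 = 1 := by
        have hb := (adjSwap_relA N).2.1 i hi
        set s := adjSwap N i
        set t := adjSwap N (i + 1)
        calc (s * t) ^ 3 = s * t * s * (t * s * t) := by simp [pow_three, mul_assoc]
          _ = s * t * s * (s * t * s) := by rw [hb]
          _ = s * (t * ((s * s) * t)) * s := by simp only [mul_assoc]
          _ = 1 := by rw [(adjSwap_relA N).1 i (by omega), one_mul,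
              (adjSwap_relA N).1 _ hi, mul_one, (adjSwap_relA N).1 i (by omega)]
      by_cases h : i + 1 + 1 < hiA
      · rw [hAA i (i + 1) (by omega) h (adj_mul_mem (by omega) (by omega) (by omega) h hA),
          ← map_pow, ← map_one ψ]
        exact congrArg ψ (Subtype.ext e)
      · rw [hBB i (i + 1) (by omega) (by omega) (by omega) (by omega)
          (adj_mul_mem (by omega) (by omega) (by omega) (by omega) le_rfl), ← map_pow, ← map_one ψ']
        exact congrArg ψ' (Subtype.ext e)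
    · intro i j hij hj
      have e : (adjSwap N i * adjSwap N j) ^ 2 = 1 := by
        rw [((adjSwap_relA N).2.2 i j hij hj).mul_pow, sq, sq, (adjSwap_relA N).1 i (by omega),
          (adjSwap_relA N).1 j hj, one_mul]
      by_cases h : j + 1 < hiA
      · rw [hAA i j (by omega) h (adj_mul_mem (by omega) (by omega) (by omega) h hA), ← map_pow,
          ← map_one ψ]
        exact congrArg ψ (Subtype.ext e)
      by_cases h' : k ≤ i
      · rw [hBB i j h' (by omega) (by omega) (by omega)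
          (adj_mul_mem h' (by omega) (by omega) (by omega) le_rfl), ← map_pow, ← map_one ψ']
        exact congrArg ψ' (Subtype.ext e)
      set φ := adjSwap N (k + 3)
      have hγ : adjSwap N i * τ ∈ altOn (seg (N + 1) 0 (k + 3)) :=
        adj_mul_mem (by omega) (by omega) (by omega) (by omega) (by omega)
      have hδ : adjSwap N j * φ ∈ altOn (seg (N + 1) (k + 3) (N + 1)) :=
        adj_mul_mem (by omega) (by omega) (by omega) (by omega) le_rfl
      have m1 : adjSwap N i * τ ∈ altOn (seg (N + 1) 0 hiA) :=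
        adj_mul_mem (by omega) (by omega) (by omega) (by omega) hA
      have m2 : adjSwap N j * φ ∈ altOn (seg (N + 1) k (N + 1)) :=
        adj_mul_mem (by omega) (by omega) (by omega) (by omega) le_rfl
      have m3 : φ * τ ∈ altOn (seg (N + 1) k (N + 1)) :=
        adj_mul_mem (by omega) (by omega) (by omega) (by omega) le_rfl
      have m4 : φ * τ ∈ altOn (seg (N + 1) 0 hiA) :=
        adj_mul_mem (by omega) (by omega) (by omega) (by omega) hA
      have m5 : φ * τ ∈ altOn (seg (N + 1) k hiA) :=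
        adj_mul_mem (by omega) (by omega) (by omega) (by omega) hA
      have hj' : a j = ψ' ⟨_, m2⟩ * ψ' ⟨_, m3⟩ := by
        rw [haB j (by omega) (by omega) (adj_mul_mem (by omega) (by omega) (by omega) (by omega)
          le_rfl), ← map_mul]
        congr 1
        refine Subtype.ext ?_
        show _ = adjSwap N j * φ * (φ * τ)
        rw [mul_assoc, ← mul_assoc φ φ, (adjSwap_relA N).1 _ (by omega), one_mul]
      have hc1 : Commute (a i) (ψ' ⟨_, m2⟩) := by
        rw [haA i (by omega) m1]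
        exact hcomm ⟨_, m1⟩ ⟨_, m2⟩ hγ hδ
      have hc2 : Commute (a i) (ψ' ⟨_, m3⟩) := by
        rw [haA i (by omega) m1, ← hagree _ m4 m3 m5]
        refine Commute.map (Subtype.ext ?_) ψ
        show adjSwap N i * τ * (φ * τ) = φ * τ * (adjSwap N i * τ)
        have c1 : Commute (adjSwap N i) τ := (adjSwap_relA N).2.2 i (k + 1) (by omega) (by omega)
        have c2 : Commute (adjSwap N i) φ := (adjSwap_relA N).2.2 i (k + 3) (by omega) (by omega)
        have c3 : Commute τ φ := (adjSwap_relA N).2.2 (k + 1) (k + 3) (by omega) (by omega)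
        exact ((c2.mul_right c1).mul_left (c3.mul_right (Commute.refl τ))).eq
      have hc : Commute (a i) (a j) := hj' ▸ hc1.mul_right hc2
      have hjj : a j * a j = 1 := by
        rw [haB j (by omega) (by omega) (adj_mul_mem (by omega) (by omega) (by omega) (by omega)
          le_rfl), ← map_mul, ← map_one ψ']
        congr 1
        refine Subtype.ext ?_
        show adjSwap N j * τ * (adjSwap N j * τ) = 1
        rw [Commute.mul_mul_mul_comm ((adjSwap_relA N).2.2 (k + 1) j (by omega) hj),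
          (adjSwap_relA N).1 j hj, hττ, one_mul]
      rw [inv_eq_of_mul_eq_one_right hjj, hc.mul_pow, sq, sq, hinv i (by omega), hjj, one_mul]
  obtain ⟨Φ, hΦ⟩ := exists_alt_hom hrel
  refine ⟨Φ, ?_, ?_⟩
  · intro γ hγ
    let X : Subgroup (Perm (Fin (N + 1))) :=
      { carrier := {σ | ∃ (h1 : σ ∈ altOn (seg (N + 1) 0 hiA))
          (h2 : σ ∈ alternatingGroup (Fin (N + 1))), Φ ⟨σ, h2⟩ = ψ ⟨σ, h1⟩}
        one_mem' := ⟨one_mem _, one_mem _, by
          rw [show (⟨1, one_mem _⟩ : alternatingGroup (Fin (N + 1))) = 1 from rfl,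
            show (⟨1, one_mem _⟩ : altOn (seg (N + 1) 0 hiA)) = 1 from rfl, map_one, map_one]⟩
        mul_mem' := fun {x y} ⟨a1, a2, a3⟩ ⟨b1, b2, b3⟩ => ⟨mul_mem a1 b1, mul_mem a2 b2, by
          have e1 := map_mul Φ ⟨x, a2⟩ ⟨y, b2⟩
          have e2 := map_mul ψ ⟨x, a1⟩ ⟨y, b1⟩
          rw [a3, b3, ← e2] at e1
          exact e1⟩
        inv_mem' := fun {x} ⟨a1, a2, a3⟩ => ⟨inv_mem a1, inv_mem a2, by
          have e1 := map_inv Φ ⟨x, a2⟩
          rw [a3, ← map_inv] at e1
          exact e1⟩ }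
    obtain ⟨h1, h2, h3⟩ : γ.1 ∈ X := adj_gen (k := k) (by omega) (by omega) hA (fun i _ hi => by
      refine ⟨adj_mul_mem (by omega) hi (by omega) (by omega) hA,
        Perm.mem_alternatingGroup.2 (adj_mul_mem (by omega) hi (by omega) (by omega) hA).1, ?_⟩
      rw [hΦ i (k + 1) (by omega) (by omega), hAA i (k + 1) hi (by omega)]) γ.2
    exact h3
  · intro γ hγ
    let X : Subgroup (Perm (Fin (N + 1))) :=
      { carrier := {σ | ∃ (h1 : σ ∈ altOn (seg (N + 1) k (N + 1)))
          (h2 : σ ∈ alternatingGroup (Fin (N + 1))), Φ ⟨σ, h2⟩ = ψ' ⟨σ, h1⟩}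
        one_mem' := ⟨one_mem _, one_mem _, by
          rw [show (⟨1, one_mem _⟩ : alternatingGroup (Fin (N + 1))) = 1 from rfl,
            show (⟨1, one_mem _⟩ : altOn (seg (N + 1) k (N + 1))) = 1 from rfl, map_one, map_one]⟩
        mul_mem' := fun {x y} ⟨a1, a2, a3⟩ ⟨b1, b2, b3⟩ => ⟨mul_mem a1 b1, mul_mem a2 b2, by
          have e1 := map_mul Φ ⟨x, a2⟩ ⟨y, b2⟩
          have e2 := map_mul ψ' ⟨x, a1⟩ ⟨y, b1⟩
          rw [a3, b3, ← e2] at e1
          exact e1⟩
        inv_mem' := fun {x} ⟨a1, a2, a3⟩ => ⟨inv_mem a1, inv_mem a2, by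
          have e1 := map_inv Φ ⟨x, a2⟩
          rw [a3, ← map_inv] at e1
          exact e1⟩ }
    obtain ⟨h1, h2, h3⟩ : γ.1 ∈ X := adj_gen (k := k) le_rfl (by omega) le_rfl (fun i hi hi' => by
      refine ⟨adj_mul_mem hi hi' (by omega) (by omega) le_rfl,
        Perm.mem_alternatingGroup.2 (adj_mul_mem hi hi' (by omega) (by omega) le_rfl).1, ?_⟩
      rw [hΦ i (k + 1) (by omega) (by omega), hBB i (k + 1) hi hi' (by omega) (by omega)]) γ.2
    exact h3

end Cfsg.Agent.GKKL
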