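import Cfsg.Agent.GKKL.Data

/-!
The relations for gluing, and the resulting homomorphism.
-/

set_option autoImplicit false
set_option linter.unusedSectionVars false

namespace Cfsg.Agent.GKKL

open Equiv

variable (p k : ℕ) [hp : Fact p.Prime]

theorem le_NN : p + 2 ≤ NN p k + 1 := by unfold NN; omega

/-- Words in the first block. -/
noncomputable def wd (γ : Perm (Fin (NN p k + 1))) : FreeGroup (ZMod p) := wordN p (le_NN p k) γ

theorem evalN_wd {γ : Perm (Fin (NN p k + 1))} (hγ : γ ∈ altOn (seg (NN p k + 1) 0 (p + 2))) :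
    evalN p (le_NN p k) (wd p k γ) = γ := evalN_wordN p _ hγ

variable {W : Type*} [Group W]

/-- The relations. -/
structure GlueRels (hk : k + 7 ≤ p) (s : ℕ) (wb : FreeGroup (ZMod p))
    (ub : Perm (Fin (NN p k + 1))) (a z u : W) : Prop where
  core : Rels p s wb a z
  e1 : u * (evalW p a z (wd p k (ub⁻¹ * gC p k hk * ub)) ^ (lenG p k + 1 + 1) * z ^ 3) * u⁻¹ =
    evalW p a z (wd p k (gC p k hk)) ^ (lenG p k + 1 + 1)
  e3 : Commute (evalW p a z (wd p k (alC p k hk * sig p k)))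
    (u * evalW p a z (wd p k (ub⁻¹ * beC p k hk * ub)) * u⁻¹)

/-- Transporting the first block by a conjugator. -/
noncomputable def psiB {hk : k + 7 ≤ p} {ub : Perm (Fin (NN p k + 1))} (hub : Conj p k ub)
    (Ψ : altOn (seg (NN p k + 1) 0 (p + 2)) →* W) (u : W) :
    altOn (seg (NN p k + 1) k (NN p k + 1)) →* W :=
  have _ := hk
  (MulAut.conj u).toMonoidHom.comp <| Ψ.comp <|
    MonoidHom.mk' (fun γ => ⟨ub⁻¹ * γ.1 * ub, conj_mem_altOn ub hub.back γ.2⟩)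
      fun γ δ => Subtype.ext (by
        show ub⁻¹ * (γ.1 * δ.1) * ub = ub⁻¹ * γ.1 * ub * (ub⁻¹ * δ.1 * ub)
        group)

variable {hk : k + 7 ≤ p} {s : ℕ} {wb : FreeGroup (ZMod p)} {g : (ZMod p)ˣ}
  {ub : Perm (Fin (NN p k + 1))} {a z u : W}

theorem seg_mono {lo hi lo' hi' : ℕ} (h1 : lo' ≤ lo) (h2 : hi ≤ hi') :
    seg (NN p k + 1) lo hi ⊆ seg (NN p k + 1) lo' hi' :=
  fun _ hx => ⟨h1.trans hx.1, hx.2.trans_le h2⟩

theorem memA_g (hodd : p % 2 = 1) : gC p k hk ∈ altOn (seg (NN p k + 1) 0 (p + 2)) :=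
  altOn_mono (seg_mono p k (Nat.zero_le _) le_rfl) (gC_mem p k hk hodd)

theorem memB_g (hodd : p % 2 = 1) : gC p k hk ∈ altOn (seg (NN p k + 1) k (NN p k + 1)) :=
  altOn_mono (seg_mono p k le_rfl (le_NN p k)) (gC_mem p k hk hodd)

include hk in
theorem memA_sig : sig p k ∈ altOn (seg (NN p k + 1) 0 (p + 2)) :=
  sig_mem p k hk (Nat.zero_le _) (by omega)

theorem memA_al : alC p k hk * sig p k ∈ altOn (seg (NN p k + 1) 0 (p + 2)) :=
  mul_mem (altOn_mono (seg_mono p k le_rfl (by omega)) (alC_mem p k hk)) (memA_sig p k (hk := hk))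

variable (h : GlueRels p k hk s wb ub a z u) (hs : (s : ZMod p) * ((g : ZMod p) - 1) = 1)
  (hg : ∀ x : (ZMod p)ˣ, x ∈ Subgroup.zpowers g) (hub : Conj p k ub) (hodd : p % 2 = 1)
include h hs hg

theorem cube_comm_evalW (w : FreeGroup (ZMod p)) : Commute (z ^ 3) (evalW p a z w) := by
  induction w using FreeGroup.induction_on with
  | C1 => rw [map_one]; exact Commute.one_right _
  | of x => rw [evalW, FreeGroup.lift_apply_of]; exact h.core.cube_comm_zc hs hg x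
  | inv_of x hx => rw [map_inv]; exact hx.inv_right
  | mul x y hx hy => rw [map_mul]; exact hx.mul_right hy

include hub hodd

theorem cube_one : z ^ 3 = 1 := by
  set c := z ^ 3
  set L := lenG p k + 1
  have hgL : gC p k hk ^ L = 1 := cyc_pow_self _ _
  have hL : Odd L := (Nat.even_iff.2 (lenG_even p k hk hodd)).add_one
  have hcc : c * c = 1 := h.core.cube_sq hs hg
  have key : ∀ γ, γ ∈ altOn (seg (NN p k + 1) 0 (p + 2)) → γ ^ L = 1 →
      (evalW p a z (wd p k γ) ^ (L + 1)) ^ L = 1 := by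
    intro γ hγ hγL
    have hw : evalPerm p (wd p k γ ^ L) = 1 := by
      apply Perm.viaEmbeddingHom_injective (Fin.castLEEmb (le_NN p k))
      show embA p (le_NN p k) _ = embA p (le_NN p k) _
      rw [map_one]
      show evalN p (le_NN p k) (wd p k γ ^ L) = 1
      rw [map_pow, evalN_wd p k hγ, hγL]
    obtain ⟨j, hj⟩ := Subgroup.mem_zpowers_iff.1 (h.core.evalW_mem hs hg _ hw)
    rw [← pow_mul, mul_comm, pow_mul, ← map_pow, ← hj]
    obtain ⟨i, hi⟩ := hL.add_one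
    rw [hi, show i + i = 2 * i by omega, pow_mul, sq, ← zpow_add, ← two_mul, zpow_mul,
      zpow_ofNat, sq, hcc, one_zpow, one_pow]
  have e := congrArg (· ^ L) h.e1
  rw [conj_pow, key _ (memA_g p k hodd) hgL,
    ((cube_comm_evalW p k h hs hg _).symm.pow_left _).mul_pow, key _
      (conj_mem_altOn ub hub.back (memB_g p k hodd))
      (by
        rw [show ub⁻¹ * gC p k hk * ub = ub⁻¹ * gC p k hk * ub⁻¹⁻¹ by rw [inv_inv], conj_pow, hgL,
          mul_one, inv_inv, inv_mul_cancel]), one_mul, conj_eq_one_iff] at e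
  obtain ⟨i, hi⟩ := hL
  rw [hi, pow_succ, pow_mul, sq, hcc, one_pow, one_mul] at e
  exact e

theorem exists_Psi : ∃ Ψ : altOn (seg (NN p k + 1) 0 (p + 2)) →* W,
    ∀ w hw, Ψ ⟨evalN p (le_NN p k) w, hw⟩ = evalW p a z w := by
  obtain ⟨ψ, hψ⟩ := h.core.exists_hom hs hg (cube_one p k h hs hg hub hodd)
  exact exists_psiN p (le_NN p k) ψ hψ

variable (Ψ : altOn (seg (NN p k + 1) 0 (p + 2)) →* W)
  (hΨ : ∀ w hw, Ψ ⟨evalN p (le_NN p k) w, hw⟩ = evalW p a z w)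
include hΨ

omit h hs hg hub hodd in
theorem Psi_wd {γ : Perm (Fin (NN p k + 1))} (hγ : γ ∈ altOn (seg (NN p k + 1) 0 (p + 2))) :
    evalW p a z (wd p k γ) = Ψ ⟨γ, hγ⟩ := by
  rw [← hΨ (wd p k γ) (evalN_mem p _ _)]
  exact congrArg Ψ (Subtype.ext (evalN_wd p k hγ))

theorem sig_comm_T :
    Commute (Ψ ⟨sig p k, memA_sig p k (hk := hk)⟩)
      (psiB p k (hk := hk) hub Ψ u ⟨beC p k hk, beC_mem p k hk⟩) := by
  have e := h.e3
  rw [Psi_wd p k Ψ hΨ (memA_al p k),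
    Psi_wd p k Ψ hΨ (conj_mem_altOn ub hub.back (beC_mem p k hk))] at e
  have e' := e.pow_left ((k + extra k + 1) * (k + extra k + 1))
  rw [← map_pow] at e'
  have : (⟨alC p k hk * sig p k, memA_al p k⟩ : altOn (seg (NN p k + 1) 0 (p + 2))) ^
      ((k + extra k + 1) * (k + extra k + 1)) = ⟨sig p k, memA_sig p k (hk := hk)⟩ :=
    Subtype.ext (sig_eq_pow p k hk)
  rw [this] at e'
  exact e'

/-- The glued homomorphism, given that the conjugator centralizes the image of `σ`. -/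
theorem exists_Phi (hσ : u * Ψ ⟨sig p k, memA_sig p k (hk := hk)⟩ * u⁻¹ =
      Ψ ⟨sig p k, memA_sig p k (hk := hk)⟩) :
    ∃ Φ : alternatingGroup (Fin (NN p k + 1)) →* W,
      (∀ (γ : altOn (seg (NN p k + 1) 0 (p + 2)))
        (hm : γ.1 ∈ alternatingGroup (Fin (NN p k + 1))), Φ ⟨γ.1, hm⟩ = Ψ γ) ∧
      ∀ (γ : altOn (seg (NN p k + 1) k (NN p k + 1)))
        (hm : γ.1 ∈ alternatingGroup (Fin (NN p k + 1))),
        Φ ⟨γ.1, hm⟩ = psiB p k (hk := hk) hub Ψ u γ := by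
  have hz := cube_one p k h hs hg hub hodd
  set ΨB := psiB p k (hk := hk) hub Ψ u with hΨB
  have hBapp : ∀ γ hγ hγ', ΨB ⟨γ, hγ⟩ = u * Ψ ⟨ub⁻¹ * γ * ub, hγ'⟩ * u⁻¹ := fun _ _ _ => rfl
  let XC : Subgroup (Perm (Fin (NN p k + 1))) :=
    { carrier := {γ | ∃ (h1 : γ ∈ altOn (seg (NN p k + 1) 0 (p + 2)))
        (h2 : γ ∈ altOn (seg (NN p k + 1) k (NN p k + 1))), Ψ ⟨γ, h1⟩ = ΨB ⟨γ, h2⟩}
      one_mem' := ⟨one_mem _, one_mem _, (map_one Ψ).trans (map_one ΨB).symm⟩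
      mul_mem' := fun {x y} ⟨a1, a2, a3⟩ ⟨b1, b2, b3⟩ => ⟨mul_mem a1 b1, mul_mem a2 b2,
        ((map_mul Ψ ⟨x, a1⟩ ⟨y, b1⟩).trans (congrArg₂ (· * ·) a3 b3)).trans
          (map_mul ΨB ⟨x, a2⟩ ⟨y, b2⟩).symm⟩
      inv_mem' := fun {x} ⟨a1, a2, a3⟩ => ⟨inv_mem a1, inv_mem a2,
        ((map_inv Ψ ⟨x, a1⟩).trans (congrArg (·⁻¹) a3)).trans (map_inv ΨB ⟨x, a2⟩).symm⟩ }
  have hgL : gC p k hk ^ (lenG p k + 1) = 1 := cyc_pow_self _ _
  have hgX : gC p k hk ∈ XC := by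
    refine ⟨memA_g p k hodd, memB_g p k hodd, ?_⟩
    have m1 := conj_mem_altOn ub hub.back (memB_g p k (hk := hk) hodd)
    rw [hBapp _ _ m1]
    have e := h.e1
    rw [Psi_wd p k Ψ hΨ (memA_g p k hodd), Psi_wd p k Ψ hΨ m1, hz, mul_one, ← map_pow,
      ← map_pow] at e
    have e2 : (⟨gC p k hk, memA_g p k hodd⟩ : altOn (seg (NN p k + 1) 0 (p + 2))) ^
        (lenG p k + 1 + 1) = ⟨gC p k hk, memA_g p k hodd⟩ := Subtype.ext (by
      show gC p k hk ^ (lenG p k + 1 + 1) = gC p k hk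
      rw [pow_succ, hgL, one_mul])
    have e3 : (⟨ub⁻¹ * gC p k hk * ub, m1⟩ : altOn (seg (NN p k + 1) 0 (p + 2))) ^
        (lenG p k + 1 + 1) = ⟨ub⁻¹ * gC p k hk * ub, m1⟩ := Subtype.ext (by
      show (ub⁻¹ * gC p k hk * ub) ^ (lenG p k + 1 + 1) = ub⁻¹ * gC p k hk * ub
      rw [show ub⁻¹ * gC p k hk * ub = ub⁻¹ * gC p k hk * ub⁻¹⁻¹ by rw [inv_inv], conj_pow,
        pow_succ, hgL, one_mul])
    rw [e2, e3] at e
    exact e.symm
  have hσX : sig p k ∈ XC := by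
    refine ⟨memA_sig p k (hk := hk), sig_mem p k hk (by omega) (show k + 3 < p + 1 + k + 1 by omega), ?_⟩
    have e : ub⁻¹ * sig p k * ub = sig p k := by
      rw [mul_assoc, hub.comm.eq, inv_mul_cancel_left]
    rw [hBapp _ _ (by rw [e]; exact memA_sig p k (hk := hk))]
    simp only [e]
    exact hσ.symm
  have hC : altOn (seg (NN p k + 1) k (p + 2)) ≤ XC := gen_common p k hk hgX hσX
  have hagree : ∀ γ (h1 : γ ∈ altOn (seg (NN p k + 1) 0 (p + 2)))
      (h2 : γ ∈ altOn (seg (NN p k + 1) k (NN p k + 1))),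
      γ ∈ altOn (seg (NN p k + 1) k (p + 2)) → Ψ ⟨γ, h1⟩ = ΨB ⟨γ, h2⟩ := fun γ _ _ hγ => by
    obtain ⟨_, _, e⟩ := hC hγ
    exact e
  set β : altOn (seg (NN p k + 1) k (NN p k + 1)) := ⟨beC p k hk, beC_mem p k hk⟩ with hβ
  let X1 : Subgroup (Perm (Fin (NN p k + 1))) :=
    (((Subgroup.centralizer {ΨB β}).comap Ψ).map
      (altOn (seg (NN p k + 1) 0 (p + 2))).subtype)
  have hX1 : ∀ γ (hγ : γ ∈ altOn (seg (NN p k + 1) 0 (p + 2))),
      Commute (Ψ ⟨γ, hγ⟩) (ΨB β) → γ ∈ X1 := fun γ hγ hc =>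
    ⟨⟨γ, hγ⟩, Subgroup.mem_centralizer_singleton_iff.2 hc.eq, rfl⟩
  have hX1' : altOn (seg (NN p k + 1) 0 p) ≤ X1 := by
    have hσ1 : sig p k ∈ X1 := hX1 _ _ (sig_comm_T p k h hs hg hub hodd Ψ hΨ)
    have hα1 : alC p k hk * sig p k ∈ X1 := by
      refine hX1 _ (memA_al p k) ?_
      have e := h.e3
      rw [Psi_wd p k Ψ hΨ (memA_al p k),
        Psi_wd p k Ψ hΨ (conj_mem_altOn ub hub.back (beC_mem p k hk))] at e
      exact e
    refine gen_first p k hk ?_ fun γ hγ => ?_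
    · simpa using X1.mul_mem hα1 (X1.inv_mem hσ1)
    · have m1 : γ ∈ altOn (seg (NN p k + 1) 0 (p + 2)) :=
        altOn_mono (seg_mono p k (Nat.zero_le _) (by omega)) hγ
      have m2 : γ ∈ altOn (seg (NN p k + 1) k (NN p k + 1)) :=
        altOn_mono (seg_mono p k le_rfl (by unfold NN; omega)) hγ
      refine hX1 γ m1 ?_
      rw [hagree γ m1 m2 (altOn_mono (seg_mono p k le_rfl (by omega)) hγ)]
      refine Commute.map (Subtype.ext ?_) ΨB
      exact (commute_of_disjoint (fun x hx hx' => absurd hx'.1 (not_le.2 hx.2)) hγ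
        (beC_mem' p k hk)).eq
  have hcomm : ∀ (γ : altOn (seg (NN p k + 1) 0 (p + 2)))
      (δ : altOn (seg (NN p k + 1) k (NN p k + 1))),
      γ.1 ∈ altOn (seg (NN p k + 1) 0 (k + 3)) →
      δ.1 ∈ altOn (seg (NN p k + 1) (k + 3) (NN p k + 1)) → Commute (Ψ γ) (ΨB δ) := by
    intro γ δ hγ hδ
    obtain ⟨γ', hc, he⟩ := hX1' (altOn_mono (seg_mono p k le_rfl (by omega)) hγ)
    obtain rfl : γ' = γ := Subtype.ext he
    let X2 : Subgroup (Perm (Fin (NN p k + 1))) :=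
      (((Subgroup.centralizer {Ψ γ'}).comap ΨB).map
        (altOn (seg (NN p k + 1) k (NN p k + 1))).subtype)
    have hX2 : ∀ ε (hε : ε ∈ altOn (seg (NN p k + 1) k (NN p k + 1))),
        Commute (Ψ γ') (ΨB ⟨ε, hε⟩) → ε ∈ X2 := fun ε hε hc =>
      ⟨⟨ε, hε⟩, Subgroup.mem_centralizer_singleton_iff.2 hc.eq.symm, rfl⟩
    obtain ⟨δ', hc2, he2⟩ : δ.1 ∈ X2 := by
      refine gen_second p k hk (lo := k + 3) ?_ le_rfl (by omega) (fun ε hε => ?_) hδ
      · exact hX2 _ (beC_mem p k hk) (Subgroup.mem_centralizer_singleton_iff.1 hc)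
      · have m1 : ε ∈ altOn (seg (NN p k + 1) 0 (p + 2)) :=
          altOn_mono (seg_mono p k (Nat.zero_le _) le_rfl) hε
        have m2 : ε ∈ altOn (seg (NN p k + 1) k (NN p k + 1)) :=
          altOn_mono (seg_mono p k (by omega) (le_NN p k)) hε
        refine hX2 ε m2 ?_
        rw [← hagree ε m1 m2 (altOn_mono (seg_mono p k (by omega) le_rfl) hε)]
        refine Commute.map (Subtype.ext ?_) Ψ
        exact (commute_of_disjoint (fun x hx hx' => absurd hx'.1 (not_le.2 hx.2)) hγ hε).eq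
    obtain rfl : δ' = δ := Subtype.ext he2
    exact (Subgroup.mem_centralizer_singleton_iff.1 hc2).symm
  exact exists_glue_hom (by omega) (le_NN p k) Ψ ΨB hagree hcomm

end Cfsg.Agent.GKKL
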