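import Cfsg.Agent.GKKL.Final

/-!
The gluing presentations, instantiated.
-/

set_option autoImplicit false
set_option linter.unusedSectionVars false

namespace Cfsg.Agent.GKKL

open Equiv

variable (p k : ℕ) [hp : Fact p.Prime]

theorem exists_params (hp2 : 5 ≤ p) : ∃ (g : (ZMod p)ˣ) (s : ℕ) (wb : FreeGroup (ZMod p)),
    (∀ x : (ZMod p)ˣ, x ∈ Subgroup.zpowers g) ∧ (s : ZMod p) * ((g : ZMod p) - 1) = 1 ∧
      evalPerm p wb = bbar p g := by
  obtain ⟨g, hg⟩ := IsCyclic.exists_generator (α := (ZMod p)ˣ)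
  have hg1 : (g : ZMod p) ≠ 1 := by
    intro h
    have hg' : g = 1 := Units.ext h
    have h2 : ∀ x : (ZMod p)ˣ, x = 1 := fun x => by
      have := hg x; rwa [hg', Subgroup.zpowers_one_eq_bot, Subgroup.mem_bot] at this
    have := Fintype.card_le_one_iff_subsingleton.2 ⟨fun a b => (h2 a).trans (h2 b).symm⟩
    rw [ZMod.card_units] at this
    omega
  obtain ⟨wb, hwb⟩ := exists_word p (bbar_mem p (by omega) g hg)
  exact ⟨g, ((g : ZMod p) - 1)⁻¹.val, wb, hg,
    by rw [ZMod.natCast_zmod_val, inv_mul_cancel₀ (sub_ne_zero.2 hg1)], hwb⟩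

theorem tr_fix (hk : k + 7 ≤ p) {x : Fin (NN p k + 1)} (h : x.val ≠ k) (h' : x.val ≠ k + 4) :
    tr p k x = x := by
  refine swap_apply_of_ne_of_ne (fun e => h ?_) (fun e => h' ?_)
  · rw [e, pt_val p k (by omega)]
  · rw [e, pt_val p k (by omega)]

theorem pow_fix {Ω : Type*} {σ : Perm Ω} {x : Ω} (h : σ x = x) (j : ℕ) : (σ ^ j) x = x := by
  induction j with
  | zero => rfl
  | succ j ih => rw [pow_succ', Perm.mul_apply, ih, h]

theorem ends_tr (hk : k + 7 ≤ p) : Commute (ends p k k) (tr p k) := by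
  refine Perm.Disjoint.commute fun x => ?_
  by_cases h : x.val = k ∨ x.val = k + 4
  · left
    refine Fin.ext ?_
    rw [ends_apply p k (by omega) k le_rfl]
    split_ifs <;> omega
  · right
    push Not at h
    exact tr_fix p k hk h.1 h.2

theorem sign_tr (hk : k + 7 ≤ p) : Perm.sign (tr p k) = -1 :=
  Perm.sign_swap (pt_ne p k (by omega) (by omega) (by omega))

theorem xp_zero_mem : embA p (le_NN p k) (xp p 0) ∈ alternatingGroup (Fin (NN p k + 1)) :=
  Perm.mem_alternatingGroup.2 (embA_mem p (le_NN p k) (xp_mem p 0)).1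

/-- Seven relators for the alternating group. -/
theorem alt_pres_glue (hk : k + 7 ≤ p) :
    Pres (alternatingGroup (Fin (NN p k + 1))) ⟨_, xp_zero_mem p k⟩ := by
  obtain ⟨g, s, wb, hg, hs, hwb⟩ := exists_params p (by omega)
  have hodd : p % 2 = 1 := (hp.out.eq_two_or_odd).resolve_left (by omega)
  set ub := ends p k k * tr p k ^ k with hub_def
  have hub : Conj p k ub :=
    conj_of p k hk (fun x hx => pow_fix (tr_fix p k hk (by omega) (by omega)) k)
      ((sig_tr p k hk).pow_right k)
  set S := seg (NN p k + 1) (k + 1) (k + 4)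
  have hubS : ub ∈ altOn (seg (NN p k + 1) 0 (NN p k + 1) \ S) := by
    refine ⟨?_, fun x hx => ?_⟩
    · rw [hub_def, map_mul, map_pow, sign_ends p k k le_rfl, sign_tr p k hk, ← mul_pow]
      simp
    · have hxS : k + 1 ≤ x.val ∧ x.val < k + 4 := by
        by_contra hc
        exact hx ⟨⟨Nat.zero_le _, x.2⟩, hc⟩
      rw [hub_def, Perm.mul_apply, pow_fix (tr_fix p k hk (by omega) (by omega))]
      refine Fin.ext ?_
      rw [ends_apply p k (by omega) k le_rfl]
      split_ifs <;> omega
  let gens : Set (FreeGroup (Fin 3)) :=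
    {w | ∃ γ, γ ∈ altOn (seg (NN p k + 1) 0 (p + 2) \ S) ∧ w = evalW p fa fz (wd p k γ)} ∪
      {fu * evalW p fa fz (wd p k (ub⁻¹ * beC p k hk * ub)) * fu⁻¹}
  obtain ⟨Wd, hWK, hWub⟩ : ∃ w ∈ Subgroup.closure gens, FreeGroup.lift (genImg p k ub) w = ub := by
    let X := (Subgroup.closure gens).map (FreeGroup.lift (genImg p k ub))
    have h1 : beC p k hk ∈ X := by
      refine ⟨_, Subgroup.subset_closure (Or.inr rfl), ?_⟩
      rw [map_mul, map_mul, map_inv, genImg_evalW,
        evalN_wd p k (conj_mem_altOn ub hub.back (beC_mem p k hk)), FreeGroup.lift_apply_of]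
      show ub * (ub⁻¹ * beC p k hk * ub) * ub⁻¹ = _
      group
    have h2 : altOn (seg (NN p k + 1) 0 (p + 2) \ S) ≤ X := fun γ hγ => by
      refine ⟨_, Subgroup.subset_closure (Or.inl ⟨γ, hγ, rfl⟩), ?_⟩
      rw [genImg_evalW, evalN_wd p k (altOn_mono Set.diff_subset hγ)]
    exact gen_off_sig p k hk h1 h2 hubS
  set last := fu * Wd⁻¹ with hlast_def
  have hlast : FreeGroup.lift (genImg p k ub) last = 1 := by
    rw [hlast_def, map_mul, map_inv, hWub, FreeGroup.lift_apply_of]
    exact mul_inv_cancel ub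
  set mk := PresentedGroup.mk
    (↑(relList p k hk s wb ub last).toFinset : Set (FreeGroup (Fin 3))) with hmk
  have hmku : (PresentedGroup.of 2 : GRP p k hk s wb ub last) = mk Wd := by
    have h1 : mk last = 1 := PresentedGroup.one_of_mem (List.mem_toFinset.2 (by simp [relList]))
    replace h1 : mk (fu * Wd⁻¹) = 1 := h1
    rw [map_mul, map_inv, mul_inv_eq_one] at h1
    exact h1
  have hev : ∀ w, mk (evalW p fa fz w) =
      evalW p (PresentedGroup.of 0 : GRP p k hk s wb ub last) (PresentedGroup.of 1) w :=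
    fun w => map_evalW p mk fa fz w
  refine alt_pres p k (hk := hk) hs hg hwb hub hodd hlast ?_ ?_ (xp_zero_mem p k)
  · intro Ψ hΨ
    have hle : Subgroup.closure gens ≤
        (Subgroup.centralizer {Ψ ⟨sig p k, memA_sig p k (hk := hk)⟩}).comap mk := by
      rw [Subgroup.closure_le]
      rintro w (⟨γ, hγ, rfl⟩ | hw)
      · show mk _ ∈ Subgroup.centralizer _
        rw [Subgroup.mem_centralizer_singleton_iff, hev,
          Psi_wd p k Ψ hΨ (altOn_mono Set.diff_subset hγ)]
        refine (Commute.map (Subtype.ext ?_) Ψ).eq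
        exact (commute_of_disjoint (fun x hx hx' => hx.2 hx') hγ
          (sig_mem p k hk le_rfl (by omega : k + 3 < k + 4))).eq
      · rw [Set.mem_singleton_iff] at hw
        subst hw
        show mk _ ∈ Subgroup.centralizer _
        have hc := sig_comm_T p k (glueRels p k (last := last)) hs hg hub hodd Ψ hΨ
        rw [Subgroup.mem_centralizer_singleton_iff, map_mul, map_mul, map_inv, hev,
          Psi_wd p k Ψ hΨ (conj_mem_altOn ub hub.back (beC_mem p k hk))]
        exact hc.eq.symm
    have := Subgroup.mem_centralizer_singleton_iff.1 (hle hWK)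
    rw [← hmku] at this
    rw [mul_inv_eq_iff_eq_mul]
    exact this
  · intro R hR hβ
    have hle : Subgroup.closure gens ≤ R.comap mk := by
      rw [Subgroup.closure_le]
      rintro w (⟨γ, hγ, rfl⟩ | hw)
      · show mk _ ∈ R
        rw [hev]
        exact hR _
      · rw [Set.mem_singleton_iff] at hw
        subst hw
        show mk _ ∈ R
        rw [map_mul, map_mul, map_inv, hev]
        exact hβ
    rw [hmku]
    exact hle hWK

/-- Seven relators for the symmetric group. -/
theorem perm_pres_glue (hk : k + 7 ≤ p) :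
    Pres (Perm (Fin (NN p k + 1))) (embA p (le_NN p k) (xp p 0)) := by
  obtain ⟨g, s, wb, hg, hs, hwb⟩ := exists_params p (by omega)
  have hodd : p % 2 = 1 := (hp.out.eq_two_or_odd).resolve_left (by omega)
  set ub := ends p k k * (tr p k ^ (k + 1) * sig p k) with hub_def
  have hσfix : ∀ x : Fin (NN p k + 1), p + 2 ≤ x.val → sig p k x = x := fun x hx =>
    (sig_mem p k hk (lo := k + 1) (hi := k + 4) le_rfl (by omega)).2 x fun h => by
      have := h.2; omega
  have hub : Conj p k ub :=
    conj_of p k hk (fun x hx => by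
      rw [Perm.mul_apply, hσfix x hx, pow_fix (tr_fix p k hk (by omega) (by omega))])
      (((sig_tr p k hk).pow_right _).mul_right (Commute.refl _))
  have hsig : Perm.sign (sig p k) = 1 := (sig_mem p k hk (lo := k + 1) (hi := k + 4) le_rfl
    (by omega)).1
  have hsgn : Perm.sign ub = -1 := by
    rw [hub_def, map_mul, map_mul, map_pow, hsig, mul_one, sign_ends p k k le_rfl, sign_tr p k hk,
      pow_succ, ← mul_assoc, ← mul_pow]
    simp
  have hσm : sig p k * sig p k ∈ altOn (seg (NN p k + 1) 0 (p + 2)) :=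
    mul_mem (memA_sig p k (hk := hk)) (memA_sig p k (hk := hk))
  have hub2 : ub * ub = sig p k * sig p k := by
    have c1 : Commute (tr p k ^ (k + 1) * sig p k) (ends p k k) :=
      (((ends_tr p k hk).pow_right _).mul_right (sig_ends p k hk).symm).symm
    have c2 : Commute (sig p k) (tr p k ^ (k + 1)) := (sig_tr p k hk).pow_right _
    have htt : tr p k ^ (k + 1) * tr p k ^ (k + 1) = 1 := by
      rw [← pow_add, ← two_mul, pow_mul, sq, tr, swap_mul_self, one_pow]
    rw [hub_def, c1.mul_mul_mul_comm, ends_sq p k (by omega), one_mul, c2.mul_mul_mul_comm,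
      htt, one_mul]
  set last := fu * fu * (evalW p fa fz (wd p k (sig p k * sig p k)))⁻¹ with hlast_def
  have hlast : FreeGroup.lift (genImg p k ub) last = 1 := by
    rw [hlast_def, map_mul, map_mul, map_inv, genImg_evalW, evalN_wd p k hσm, mul_inv_eq_one,
      FreeGroup.lift_apply_of]
    exact hub2
  set mk := PresentedGroup.mk
    (↑(relList p k hk s wb ub last).toFinset : Set (FreeGroup (Fin 3))) with hmk
  have h1 : mk last = 1 := PresentedGroup.one_of_mem (List.mem_toFinset.2 (by simp [relList]))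
  replace h1 : mk (fu * fu * (evalW p fa fz (wd p k (sig p k * sig p k)))⁻¹) = 1 := h1
  rw [map_mul, map_mul, map_inv, mul_inv_eq_one] at h1
  have huu : (PresentedGroup.of 2 : GRP p k hk s wb ub last) * PresentedGroup.of 2 =
      evalW p (PresentedGroup.of 0) (PresentedGroup.of 1) (wd p k (sig p k * sig p k)) :=
    h1.trans (map_evalW p mk fa fz _)
  refine perm_pres p k (hk := hk) hs hg hwb hub hodd hlast hsgn ?_ ⟨_, huu⟩
  intro Ψ hΨ
  set u : GRP p k hk s wb ub last := PresentedGroup.of 2
  have e : Ψ ⟨sig p k, memA_sig p k (hk := hk)⟩ = (u * u) * (u * u) := by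
    rw [huu, Psi_wd p k Ψ hΨ hσm, ← map_mul]
    congr 1
    refine Subtype.ext ?_
    show sig p k = sig p k * sig p k * (sig p k * sig p k)
    have h3 : sig p k * sig p k * sig p k = 1 := by
      rw [← sig_cube p k hk, pow_three, mul_assoc]
    rw [← mul_assoc, h3, one_mul]
  rw [e]
  group

end Cfsg.Agent.GKKL
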