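import Cfsg.Agent.GKKL.Tiny

/-!
Moore's presentation of the symmetric group on two generators with merged relators.
-/

set_option autoImplicit false

namespace Cfsg.Agent.GKKL

open Equiv Cfsg.Agent.CoxeterSym

/-- The product `g 0 * ⋯ * g (k - 1)`. -/
def prodUp {W : Type*} [Group W] (g : ℕ → W) : ℕ → W
  | 0 => 1
  | k + 1 => prodUp g k * g k

section

variable {W : Type*} [Group W]

theorem mul_pow_prodUp (R s : W) (k : ℕ) :
    (s * R) ^ k = prodUp (fun i => R ^ i * s * (R ^ i)⁻¹) k * R ^ k := by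
  induction k with
  | zero => simp [prodUp]
  | succ k ih => rw [pow_succ, ih, prodUp, pow_succ]; group

theorem relA_of_moore (R s : W) (N : ℕ) (hs : s * s = 1) (hN : (s * R) ^ N = R ^ (N + 1))
    (hc : ∀ j, 2 ≤ j → 2 * j ≤ N + 1 → Commute s (R ^ j * s * (R ^ j)⁻¹)) :
    RelA (fun i => R ^ i * s * (R ^ i)⁻¹) N ∧
      prodUp (fun i => R ^ i * s * (R ^ i)⁻¹) N = R := by
  set g : ℕ → W := fun i => R ^ i * s * (R ^ i)⁻¹ with hg
  have hcR : Commute (R ^ (N + 1)) R := Commute.pow_self R _
  have hcs : Commute (R ^ (N + 1)) s := by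
    have h1 : Commute (R ^ (N + 1)) (s * R) := hN ▸ Commute.pow_self (s * R) N
    have h2 := h1.mul_right hcR.inv_right
    rwa [mul_inv_cancel_right] at h2
  have hper : ∀ i, g (i + (N + 1)) = g i := fun i => by
    simp only [hg, pow_add R i]
    rw [mul_assoc (R ^ i) (R ^ (N + 1)) s, hcs.eq]
    group
  have hsq : ∀ i, g i * g i = 1 := fun i => by
    simp only [hg]
    rw [show ∀ a : W, a * s * a⁻¹ * (a * s * a⁻¹) = a * (s * s) * a⁻¹ from fun a => by group, hs]
    group
  have key : ∀ i j, 2 ≤ j → 2 * j ≤ N + 1 → Commute (g i) (g (i + j)) := fun i j h1 h2 => by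
    have h := (hc j h1 h2).map (MulAut.conj (R ^ i)).toMonoidHom
    simp only [MulEquiv.coe_toMonoidHom, MulAut.conj_apply] at h
    rwa [show R ^ i * (R ^ j * s * (R ^ j)⁻¹) * (R ^ i)⁻¹ = g (i + j) by
      simp only [hg, pow_add]; group] at h
  have hcomm : ∀ i j, i + 2 ≤ j → j < N → Commute (g i) (g j) := by
    intro i j h1 h2
    by_cases hd : 2 * (j - i) ≤ N + 1
    · have := key i (j - i) (by omega) hd
      rwa [show i + (j - i) = j by omega] at this
    · have := key j (N + 1 - (j - i)) (by omega) (by omega)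
      rw [show j + (N + 1 - (j - i)) = i + (N + 1) by omega, hper] at this
      exact this.symm
  have hprod : prodUp g N = R := by
    have h := mul_pow_prodUp R s N
    rw [hN, pow_succ'] at h
    exact (mul_right_cancel h).symm
  refine ⟨⟨fun i _ => hsq i, fun i hi => ?_, hcomm⟩, hprod⟩
  have hlow : ∀ k, k ≤ i → Commute (prodUp g k) (g (i + 1)) := by
    intro k hk
    induction k with
    | zero => exact Commute.one_left _
    | succ k ih => exact (ih (by omega)).mul_left (hcomm k (i + 1) (by omega) (by omega))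
  have hhigh : ∀ k, i + 2 ≤ k → k ≤ N → prodUp g k * g i * (prodUp g k)⁻¹ =
      prodUp g i * (g i * g (i + 1) * g i * (g (i + 1))⁻¹ * (g i)⁻¹) * (prodUp g i)⁻¹ := by
    intro k h1 h2
    induction k, h1 using Nat.le_induction with
    | base => simp only [prodUp]; group
    | succ k hk ih =>
      rw [prodUp, mul_inv_rev, ← mul_assoc, mul_assoc (prodUp g k) (g k) (g i),
        ← (hcomm i k hk (by omega)).eq, ← mul_assoc, mul_inv_cancel_right]
      exact ih (by omega)
  have h := hhigh N (by omega) le_rfl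
  rw [hprod, show R * g i * R⁻¹ = g (i + 1) by simp only [hg, pow_succ']; group] at h
  have h3 : g (i + 1) = g i * g (i + 1) * g i * (g (i + 1))⁻¹ * (g i)⁻¹ := by
    have h4 := congrArg (fun x => (prodUp g i)⁻¹ * x * prodUp g i) h
    simp only [mul_assoc, inv_mul_cancel_left, inv_mul_cancel, mul_one] at h4
    rw [← (hlow i le_rfl).eq, inv_mul_cancel_left] at h4
    exact h4.trans (by group)
  calc g i * g (i + 1) * g i
      = g i * g (i + 1) * g i * (g (i + 1))⁻¹ * (g i)⁻¹ * (g i * g (i + 1)) := by group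
    _ = g (i + 1) * (g i * g (i + 1)) := congrArg (· * (g i * g (i + 1))) h3.symm
    _ = g (i + 1) * g i * g (i + 1) := (mul_assoc _ _ _).symm

end

/-- Two generators and six relators for `S_11`. -/
theorem perm_eleven : ∃ v : Fin 2 → Perm (Fin 11), HasPres v 6 := by
  classical
  let fR : FreeGroup (Fin 2) := FreeGroup.of 0
  let fs : FreeGroup (Fin 2) := FreeGroup.of 1
  let L : List (FreeGroup (Fin 2)) := [fs * fs, (fs * fR) ^ 10 * (fR ^ 11)⁻¹] ++
    [2, 3, 4, 5].map fun j => fs * (fR ^ j * fs * (fR ^ j)⁻¹) *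
      ((fR ^ j * fs * (fR ^ j)⁻¹) * fs)⁻¹
  set G := PresentedGroup (↑L.toFinset : Set (FreeGroup (Fin 2)))
  set R : G := PresentedGroup.of 0
  set s : G := PresentedGroup.of 1
  have hmk : ∀ r ∈ L, PresentedGroup.mk (↑L.toFinset : Set (FreeGroup (Fin 2))) r = 1 :=
    fun r hr => PresentedGroup.one_of_mem (List.mem_toFinset.2 hr)
  obtain ⟨hrel, hprod⟩ := relA_of_moore R s 10
    (by
      have := hmk (fs * fs) (by simp [L])
      rwa [map_mul] at this)
    (by
      have := hmk ((fs * fR) ^ 10 * (fR ^ 11)⁻¹) (by simp [L])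
      rw [map_mul, map_inv, map_pow, map_pow, map_mul] at this
      exact mul_inv_eq_one.1 this)
    (fun j h1 h2 => by
      have := hmk (fs * (fR ^ j * fs * (fR ^ j)⁻¹) * ((fR ^ j * fs * (fR ^ j)⁻¹) * fs)⁻¹) (by
        simp only [L, List.mem_append, List.mem_map]
        refine Or.inr ⟨j, ?_, rfl⟩
        simp; omega)
      simp only [map_mul, map_inv, map_pow] at this
      exact mul_inv_eq_one.1 this)
  obtain ⟨φ, hφ, -⟩ := exists_hom _ 10 hrel
  have hφP : ∀ k ≤ 10, φ (prodUp (adjSwap 10) k) =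
      prodUp (fun i => R ^ i * s * (R ^ i)⁻¹) k := by
    intro k hk
    induction k with
    | zero => exact map_one φ
    | succ k ih => rw [prodUp, prodUp, map_mul, ih (by omega), hφ k (by omega)]
  refine ⟨![prodUp (adjSwap 10) 10, adjSwap 10 0], hasPres_of_hom _ ?_ L.toFinset
    ((List.toFinset_card_le _).trans (by simp [L])) ?_ φ fun i => ?_⟩
  · rw [eq_top_iff, ← closure_adjSwap 10, Subgroup.closure_le]
    rintro _ ⟨i, hi, rfl⟩
    have h0 : adjSwap 10 i = prodUp (adjSwap 10) 10 ^ i * adjSwap 10 0 *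
        (prodUp (adjSwap 10) 10 ^ i)⁻¹ := by
      obtain ⟨i, rfl⟩ : ∃ i' : Fin 10, i = i'.val := ⟨⟨i, hi⟩, rfl⟩
      revert i
      decide +kernel
    rw [h0]
    set X := Subgroup.closure (Set.range ![prodUp (adjSwap 10) 10, adjSwap 10 0])
    have hP : prodUp (adjSwap 10) 10 ∈ X := Subgroup.subset_closure ⟨0, rfl⟩
    exact X.mul_mem (X.mul_mem (X.pow_mem hP _) (Subgroup.subset_closure ⟨1, rfl⟩))
      (X.inv_mem (X.pow_mem hP _))
  · intro ρ hρ
    rw [Finset.mem_coe, List.mem_toFinset] at hρ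
    simp only [L, List.map_cons, List.map_nil, List.cons_append, List.nil_append, List.mem_cons,
      List.not_mem_nil, or_false] at hρ
    rcases hρ with rfl | rfl | rfl | rfl | rfl | rfl <;>
      simp only [fR, fs, map_mul, map_inv, map_pow, FreeGroup.lift_apply_of, Matrix.cons_val_zero,
        Matrix.cons_val_one] <;>
      decide +kernel
  · fin_cases i
    · exact (hφP 10 le_rfl).trans hprod
    · exact (hφ 0 (by norm_num)).trans (by simp [s])

end Cfsg.Agent.GKKL
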