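import Cfsg.Agent.GKKL.Derive

/-!
Adding a redundant generator to a presentation.
-/

set_option autoImplicit false

namespace Cfsg.Agent.GKKL

/-- One more generator, killed by one more relator. -/
theorem pad_generator {H : Type*} [Group H] {k r : ℕ} {x : Fin k → H} (h : HasPres x r) :
    ∃ rels : Finset (FreeGroup (Fin (k + 1))), rels.card ≤ r + 1 ∧
      Nonempty (PresentedGroup (↑rels : Set (FreeGroup (Fin (k + 1)))) ≃* H) := by
  classical
  obtain ⟨rels, hc, e, -⟩ := h
  let ι : FreeGroup (Fin k) →* FreeGroup (Fin (k + 1)) := FreeGroup.map Fin.castSucc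
  let R : Finset (FreeGroup (Fin (k + 1))) := insert (FreeGroup.of (Fin.last k)) (rels.image ι)
  refine ⟨R, (Finset.card_insert_le _ _).trans (Nat.add_le_add_right
    (Finset.card_image_le.trans hc) 1), ⟨MulEquiv.trans ?_ e⟩⟩
  let a : Fin (k + 1) → PresentedGroup (↑rels : Set (FreeGroup (Fin k))) :=
    Fin.lastCases 1 fun i => PresentedGroup.of i
  let b : Fin k → PresentedGroup (↑R : Set (FreeGroup (Fin (k + 1)))) :=
    fun i => PresentedGroup.of i.castSucc
  have hιa : ∀ w, FreeGroup.lift a (ι w) = PresentedGroup.mk (↑rels : Set (FreeGroup (Fin k))) w :=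
    fun w => DFunLike.congr_fun (FreeGroup.ext_hom ((FreeGroup.lift a).comp ι)
      (PresentedGroup.mk _) fun i => by simp [ι, a]; rfl) w
  have ha : ∀ ρ ∈ (↑R : Set (FreeGroup (Fin (k + 1)))), FreeGroup.lift a ρ = 1 := by
    intro ρ hρ
    simp only [R, Finset.coe_insert, Finset.coe_image, Set.mem_insert_iff, Set.mem_image,
      Finset.mem_coe] at hρ
    rcases hρ with rfl | ⟨ρ, hρ, rfl⟩
    · simp [a]
    · rw [hιa]; exact PresentedGroup.one_of_mem hρ
  have hb : ∀ ρ ∈ (↑rels : Set (FreeGroup (Fin k))), FreeGroup.lift b ρ = 1 := by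
    intro ρ hρ
    rw [show FreeGroup.lift b ρ = PresentedGroup.mk (↑R : Set (FreeGroup (Fin (k + 1)))) (ι ρ) from
      DFunLike.congr_fun (FreeGroup.ext_hom (FreeGroup.lift b)
        ((PresentedGroup.mk _).comp ι) fun i => by simp [ι, b]; rfl) ρ]
    exact PresentedGroup.one_of_mem (Finset.mem_coe.2
      (Finset.mem_insert_of_mem (Finset.mem_image_of_mem _ hρ)))
  refine MonoidHom.toMulEquiv (PresentedGroup.toGroup ha) (PresentedGroup.toGroup hb)
    (PresentedGroup.ext fun j => ?_) (PresentedGroup.ext fun i => ?_)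
  · refine Fin.lastCases ?_ (fun i => ?_) j
    · simp only [MonoidHom.comp_apply, PresentedGroup.toGroup.of, a, Fin.lastCases_last, map_one,
        MonoidHom.id_apply]
      exact (PresentedGroup.one_of_mem (Finset.mem_coe.2 (Finset.mem_insert_self _ _))).symm
    · simp [a, b]
  · simp [a, b]

end Cfsg.Agent.GKKL
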