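import Cfsg.Agent.GKKL.Core
import Cfsg.Agent.GKKL.Glue
import Cfsg.Agent.GKKL.Cycle

/-!
The permutations and words used to glue two copies of `A_{p+2}` inside `A_{p+2+k}`.
-/

set_option autoImplicit false

namespace Cfsg.Agent.GKKL

open Equiv

section embedding

variable (p : ℕ) [hp : Fact p.Prime] {n : ℕ} (h : p + 2 ≤ n)

/-- `Perm (Fin (p+2))` inside `Perm (Fin n)`. -/
noncomputable def embA : Perm (Fin (p + 2)) →* Perm (Fin n) :=
  Perm.viaEmbeddingHom (Fin.castLEEmb h)

omit hp in
theorem embA_apply (σ : Perm (Fin (p + 2))) (x : Fin (p + 2)) :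
    embA p h σ (Fin.castLE h x) = Fin.castLE h (σ x) :=
  Perm.viaEmbedding_apply σ (Fin.castLEEmb h) x

omit hp in
theorem embA_mem {σ : Perm (Fin (p + 2))} (hσ : σ ∈ alternatingGroup (Fin (p + 2))) :
    embA p h σ ∈ altOn (seg n 0 (p + 2)) := by
  refine ⟨?_, fun x hx => Perm.viaEmbedding_apply_of_notMem _ _ x ?_⟩
  · rw [embA, Perm.viaEmbeddingHom_apply, Perm.viaEmbedding, Perm.sign_extendDomain]
    exact Perm.mem_alternatingGroup.1 hσ
  · rintro ⟨y, rfl⟩
    exact hx ⟨Nat.zero_le _, y.2⟩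

omit hp in
theorem embA_surj {γ : Perm (Fin n)} (hγ : γ ∈ altOn (seg n 0 (p + 2))) :
    ∃ σ, σ ∈ alternatingGroup (Fin (p + 2)) ∧ embA p h σ = γ := by
  have hpres : ∀ x : Fin n, (γ x).val < p + 2 ↔ x.val < p + 2 := by
    intro x
    by_cases hx : x.val < p + 2
    · refine ⟨fun _ => hx, fun _ => ?_⟩
      by_contra hc
      have h1 := γ.injective (hγ.2 (γ x) fun hs => hc hs.2)
      exact hc (h1.symm ▸ hx)
    · rw [hγ.2 x fun hs => hx hs.2]
  let σ : Perm (Fin (p + 2)) := (Fin.castLEquiv h).symm.permCongr (γ.subtypePerm hpres)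
  have e : embA p h σ = γ := by
    refine Equiv.ext fun x => ?_
    by_cases hx : x.val < p + 2
    · obtain ⟨y, rfl⟩ : ∃ y, Fin.castLE h y = x := ⟨⟨x.val, hx⟩, rfl⟩
      rw [embA_apply]
      exact Fin.ext rfl
    · rw [hγ.2 x fun hs => hx hs.2]
      refine Perm.viaEmbedding_apply_of_notMem _ _ x ?_
      rintro ⟨y, rfl⟩
      exact hx y.2
  refine ⟨σ, Perm.mem_alternatingGroup.2 ?_, e⟩
  have := hγ.1
  rwa [← e, embA, Perm.viaEmbeddingHom_apply, Perm.viaEmbedding, Perm.sign_extendDomain] at this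

/-- The word evaluation into `Perm (Fin n)`. -/
noncomputable def evalN : FreeGroup (ZMod p) →* Perm (Fin n) := (embA p h).comp (evalPerm p)

theorem evalPerm_mem (w : FreeGroup (ZMod p)) :
    evalPerm p w ∈ alternatingGroup (Fin (p + 2)) := by
  induction w using FreeGroup.induction_on with
  | C1 => rw [map_one]; exact one_mem _
  | of x => rw [evalPerm, FreeGroup.lift_apply_of]; exact xp_mem p x
  | inv_of x hx => rw [map_inv]; exact inv_mem hx
  | mul x y hx hy => rw [map_mul]; exact mul_mem hx hy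

theorem evalN_mem (w : FreeGroup (ZMod p)) : evalN p h w ∈ altOn (seg n 0 (p + 2)) :=
  embA_mem p h (evalPerm_mem p w)

theorem exists_wordN {γ : Perm (Fin n)} (hγ : γ ∈ altOn (seg n 0 (p + 2))) :
    ∃ w, evalN p h w = γ := by
  obtain ⟨σ, hσ, rfl⟩ := embA_surj p h hγ
  obtain ⟨w, rfl⟩ := exists_word p hσ
  exact ⟨w, rfl⟩

/-- A word for a permutation of the first block. -/
noncomputable def wordN (γ : Perm (Fin n)) : FreeGroup (ZMod p) :=
  open scoped Classical in
  if hγ : γ ∈ altOn (seg n 0 (p + 2)) then (exists_wordN p h hγ).choose else 1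

theorem evalN_wordN {γ : Perm (Fin n)} (hγ : γ ∈ altOn (seg n 0 (p + 2))) :
    evalN p h (wordN p h γ) = γ := by
  rw [wordN, dif_pos hγ]
  exact (exists_wordN p h hγ).choose_spec

variable {W : Type*} [Group W]

/-- The hom on the first block from one on `A_{p+2}`. -/
theorem exists_psiN (ψ : alternatingGroup (Fin (p + 2)) →* W) {a z : W}
    (hψ : ∀ i, ψ ⟨xp p i, xp_mem p i⟩ = zc p a z i) :
    ∃ Ψ : altOn (seg n 0 (p + 2)) →* W,
      ∀ w hw, Ψ ⟨evalN p h w, hw⟩ = evalW p a z w := by
  let f : alternatingGroup (Fin (p + 2)) →* altOn (seg n 0 (p + 2)) :=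
    ((embA p h).comp (alternatingGroup (Fin (p + 2))).subtype).codRestrict _
      fun σ => embA_mem p h σ.2
  have hf : Function.Bijective f := by
    refine ⟨fun x y e => Subtype.ext (Perm.viaEmbeddingHom_injective _ (congrArg Subtype.val e)),
      fun γ => ?_⟩
    obtain ⟨σ, hσ, e⟩ := embA_surj p h γ.2
    exact ⟨⟨σ, hσ⟩, Subtype.ext e⟩
  refine ⟨ψ.comp (MulEquiv.ofBijective f hf).symm.toMonoidHom, fun w hw => ?_⟩
  have e : (⟨evalN p h w, hw⟩ : altOn (seg n 0 (p + 2))) =
      MulEquiv.ofBijective f hf ⟨evalPerm p w, evalPerm_mem p w⟩ := Subtype.ext rfl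
  rw [e, MonoidHom.comp_apply]
  refine (congrArg ψ ((MulEquiv.ofBijective f hf).symm_apply_apply _)).trans ?_
  exact hom_evalW p ψ hψ w _

theorem zc_perm (i : ZMod p) : zc p (abar p) (xp p 0) i = xp p i := by
  have h1 : ∀ j : ℕ, abar p ^ j * xp p 0 * (abar p ^ j)⁻¹ = xp p (j : ZMod p) := by
    intro j
    induction j with
    | zero => simp
    | succ j ih =>
      rw [pow_succ', mul_inv_rev, Nat.cast_succ, ← abar_conj p (j : ZMod p), ← ih]
      group
  rw [zc, h1, ZMod.natCast_zmod_val]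

theorem evalW_embA (w : FreeGroup (ZMod p)) :
    evalW p (embA p h (abar p)) (embA p h (xp p 0)) w = evalN p h w := by
  rw [← map_evalW, evalN, MonoidHom.comp_apply]
  congr 1
  exact DFunLike.congr_fun (FreeGroup.ext_hom _ _ fun i => by
    simp [evalW, evalPerm, zc_perm] : evalW p (abar p) (xp p 0) = evalPerm p) w

end embedding

section data

variable (p k : ℕ) [hp : Fact p.Prime]

/-- The number of points minus one. -/
abbrev NN : ℕ := p + 1 + k

/-- A point (with junk for values out of range). -/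
def pt (i : ℕ) : Fin (NN p k + 1) := ⟨i % (NN p k + 1), Nat.mod_lt _ (Nat.succ_pos _)⟩

omit hp in
theorem pt_val {i : ℕ} (hi : i < p + 2 + k) : (pt p k i).val = i :=
  Nat.mod_eq_of_lt (show i < p + 1 + k + 1 by omega)

omit hp in
theorem pt_ne {i j : ℕ} (hi : i < p + 2 + k) (hj : j < p + 2 + k) (hij : i ≠ j) :
    pt p k i ≠ pt p k j :=
  fun e => hij (by rw [← pt_val p k hi, ← pt_val p k hj, e])

/-- The transpositions exchanging the two ends. -/
def ends : ℕ → Perm (Fin (NN p k + 1))
  | 0 => 1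
  | j + 1 => ends j * swap (pt p k j) (pt p k (p + 2 + j))

omit hp in
theorem sign_ends (j : ℕ) (hj : j ≤ k) : Perm.sign (ends p k j) = (-1) ^ j := by
  induction j with
  | zero => simp [ends]
  | succ j ih =>
    rw [ends, map_mul, ih (by omega), Perm.sign_swap (pt_ne p k (by omega) (by omega) (by omega)),
      pow_succ]

omit hp in
theorem ends_apply (hkp : k ≤ p + 2) (j : ℕ) (hj : j ≤ k) (x : Fin (NN p k + 1)) :
    (ends p k j x).val =
      if x.val < j then p + 2 + x.val
      else if p + 2 ≤ x.val ∧ x.val < p + 2 + j then x.val - (p + 2) else x.val := by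
  induction j generalizing x with
  | zero => simp [ends]
  | succ j ih =>
    have v1 := pt_val p k (i := j) (by omega)
    have v2 := pt_val p k (i := p + 2 + j) (by omega)
    rw [ends, Perm.mul_apply, ih (by omega)]
    by_cases h1 : x = pt p k j
    · subst h1
      rw [swap_apply_left, v1, v2]
      split_ifs <;> omega
    by_cases h2 : x = pt p k (p + 2 + j)
    · subst h2
      rw [swap_apply_right, v1, v2]
      split_ifs <;> omega
    rw [swap_apply_of_ne_of_ne h1 h2]
    have n1 : x.val ≠ j := fun e => h1 (Fin.ext (e.trans v1.symm))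
    have n2 : x.val ≠ p + 2 + j := fun e => h2 (Fin.ext (e.trans v2.symm))
    split_ifs <;> omega

omit hp in
theorem ends_sq (hkp : k ≤ p + 2) : ends p k k * ends p k k = 1 := by
  refine Equiv.ext fun x => Fin.ext ?_
  rw [Perm.mul_apply, ends_apply p k hkp k le_rfl, ends_apply p k hkp k le_rfl]
  have h1 : x.val < p + 1 + k + 1 := x.2
  split_ifs <;> simp <;> omega

/-- The three-cycle that is fixed by the conjugator. -/
def sig : Perm (Fin (NN p k + 1)) := cyc3 (pt p k (k + 1)) (pt p k (k + 2)) (pt p k (k + 3))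

/-- The small transposition fixing the parity. -/
def tr : Perm (Fin (NN p k + 1)) := swap (pt p k k) (pt p k (k + 4))

variable (hk : k + 7 ≤ p)
include hk

omit hp in
theorem sig_mem {lo hi : ℕ} (h1 : lo ≤ k + 1) (h2 : k + 3 < hi) :
    sig p k ∈ altOn (seg (NN p k + 1) lo hi) := by
  refine cyc3_mem (pt_ne p k (by omega) (by omega) (by omega))
    (pt_ne p k (by omega) (by omega) (by omega)) ⟨?_, ?_⟩ ⟨?_, ?_⟩ ⟨?_, ?_⟩ <;>
    (rw [pt_val p k (by omega)]; omega)

omit hp in
theorem sig_cube : sig p k ^ 3 = 1 := by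
  have hne : ∀ i j, i < p + 2 + k → j < p + 2 + k → i ≠ j → pt p k i ≠ pt p k j :=
    fun i j => pt_ne p k
  have h1 : (sig p k).IsThreeCycle :=
    Perm.isThreeCycle_swap_mul_swap_same (hne _ _ (by omega) (by omega) (by omega : k + 2 ≠ k + 1))
      (hne _ _ (by omega) (by omega) (by omega : k + 2 ≠ k + 3))
      (hne _ _ (by omega) (by omega) (by omega : k + 1 ≠ k + 3)) |> fun h => by
        rw [sig, cyc3, swap_comm (pt p k (k + 1))]; exact h
  rw [← h1.orderOf, pow_orderOf_eq_one]

omit hp in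
theorem sig_tr : Commute (sig p k) (tr p k) := by
  refine Perm.Disjoint.commute fun x => ?_
  by_cases h : x = pt p k k ∨ x = pt p k (k + 4)
  · left
    rcases h with rfl | rfl <;>
    · refine (sig_mem p k hk (lo := k + 1) (hi := k + 4) le_rfl (by omega)).2 _ ?_
      simp only [seg, Set.mem_ofPred_eq, pt_val p k (show k < p + 2 + k by omega),
        pt_val p k (show k + 4 < p + 2 + k by omega)]
      omega
  · right
    push Not at h
    exact swap_apply_of_ne_of_ne h.1 h.2

omit hp in
theorem sig_ends : Commute (sig p k) (ends p k k) := by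
  refine Perm.Disjoint.commute fun x => ?_
  by_cases h : k + 1 ≤ x.val ∧ x.val < k + 4
  · right
    refine Fin.ext ?_
    rw [ends_apply p k (by omega) k le_rfl]
    split_ifs <;> omega
  · left
    exact (sig_mem p k hk (lo := k + 1) (hi := k + 4) le_rfl (by omega)).2 _ h

/-- A conjugator: exchanges the ends and preserves the common part. -/
structure Conj (ub : Perm (Fin (NN p k + 1))) : Prop where
  back : ∀ x, ub x ∈ seg (NN p k + 1) k (NN p k + 1) → x ∈ seg (NN p k + 1) 0 (p + 2)
  comm : Commute (sig p k) ub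
  fwd : ∀ x : Fin (NN p k + 1), x.val < p + 2 → k ≤ (ub x).val

omit hp in
theorem conj_of {ρ : Perm (Fin (NN p k + 1))} (hρ : ∀ x : Fin (NN p k + 1), p + 2 ≤ x.val → ρ x = x)
    (hc : Commute (sig p k) ρ) : Conj p k (ends p k k * ρ) := by
  refine ⟨fun x hx => ?_, (sig_ends p k hk).mul_right hc, fun x hx => ?_⟩
  swap
  · rw [Perm.mul_apply, ends_apply p k (by omega) k le_rfl]
    have hρx : (ρ x).val < p + 2 := by
      by_contra hge
      push Not at hge
      have := ρ.injective (hρ _ hge)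
      omega
    split_ifs <;> omega
  refine ⟨Nat.zero_le _, ?_⟩
  by_contra hlt
  push Not at hlt
  have h1 := hx.1
  rw [Perm.mul_apply, hρ x hlt, ends_apply p k (by omega) k le_rfl] at h1
  have h2 : x.val < p + 1 + k + 1 := x.2
  split_ifs at h1 <;> omega

end data

end Cfsg.Agent.GKKL
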