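import Cfsg.Agent.GKKL.Derive

/-!
Presentations of `S_n` and `A_n` for `n ≤ 4`.
-/

set_option autoImplicit false

namespace Cfsg.Agent.GKKL

open Equiv Cfsg.Agent.CoxeterSym

/-- A presentation from a hom back. -/
theorem hasPres_of_hom {H : Type*} [Group H] {l : ℕ} (v : Fin l → H)
    (hv : Subgroup.closure (Set.range v) = ⊤) (rels : Finset (FreeGroup (Fin l))) {r : ℕ}
    (hr : rels.card ≤ r) (htrue : ∀ ρ ∈ (↑rels : Set (FreeGroup (Fin l))), FreeGroup.lift v ρ = 1)
    (ψ : H →* PresentedGroup (↑rels : Set (FreeGroup (Fin l))))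
    (hψ : ∀ i, ψ (v i) = PresentedGroup.of i) : HasPres v r := by
  refine ⟨rels, hr, MonoidHom.toMulEquiv (PresentedGroup.toGroup htrue) ψ
    (PresentedGroup.ext fun i => ?_) (MonoidHom.eq_of_eqOn_dense hv ?_),
    fun i => PresentedGroup.toGroup.of (h := htrue)⟩
  · show ψ (PresentedGroup.toGroup htrue (PresentedGroup.of i)) = PresentedGroup.of i
    rw [PresentedGroup.toGroup.of]
    exact hψ i
  · rintro _ ⟨i, rfl⟩
    show PresentedGroup.toGroup htrue (ψ (v i)) = v i
    rw [hψ i, PresentedGroup.toGroup.of]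

theorem hasPres_trivial {H : Type*} [Group H] [Subsingleton H] :
    ∃ v : Fin 2 → H, HasPres v 8 := by
  classical
  refine ⟨fun _ => 1, hasPres_of_hom _ (Subsingleton.elim _ _)
    {FreeGroup.of 0, FreeGroup.of 1} ((Finset.card_le_two).trans (by norm_num))
    (fun _ _ => Subsingleton.elim _ _) 1 fun i => ?_⟩
  refine (PresentedGroup.one_of_mem ?_).symm
  fin_cases i <;> simp

/-- Braid relation from the order of a product. -/
theorem braid_of_cube' {G : Type*} [Group G] {x y : G} (hx : x * x = 1) (hy : y * y = 1)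
    (h : (x * y) ^ 3 = 1) : x * y * x = y * x * y := by
  have e : x * y * x * (y * x * y) = 1 := by rw [← h, pow_three]; simp [mul_assoc]
  rw [eq_inv_of_mul_eq_one_left e, mul_inv_rev, mul_inv_rev, inv_eq_of_mul_eq_one_right hx,
    inv_eq_of_mul_eq_one_right hy, mul_assoc]

theorem commute_of_sq' {G : Type*} [Group G] {x y : G} (hx : x * x = 1) (hy : y * y = 1)
    (h : (x * y) ^ 2 = 1) : Commute x y := by
  have e : x * y * (x * y) = 1 := by rw [← h, sq]
  show x * y = y * x
  rw [eq_inv_of_mul_eq_one_left e, mul_inv_rev, inv_eq_of_mul_eq_one_right hx,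
    inv_eq_of_mul_eq_one_right hy]

theorem perm_two : ∃ v : Fin 2 → Perm (Fin 2), HasPres v 8 := by
  classical
  let rels : Finset (FreeGroup (Fin 2)) := {FreeGroup.of 0 ^ 2, FreeGroup.of 1}
  have h0 : (PresentedGroup.of 0 : PresentedGroup (↑rels : Set (FreeGroup (Fin 2)))) ^ 2 = 1 :=
    PresentedGroup.one_of_mem (x := FreeGroup.of 0 ^ 2) (by simp [rels])
  obtain ⟨φ, hφ, -⟩ := exists_hom (fun _ => (PresentedGroup.of 0 :
    PresentedGroup (↑rels : Set (FreeGroup (Fin 2))))) 1
    ⟨fun i _ => by rw [← sq]; exact h0, fun i hi => absurd hi (by omega),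
      fun i j hi hj => absurd hj (by omega)⟩
  refine ⟨![adjSwap 1 0, 1], hasPres_of_hom _ ?_ rels ((Finset.card_le_two).trans (by norm_num))
    ?_ φ ?_⟩
  · rw [eq_top_iff, ← closure_adjSwap 1, Subgroup.closure_le]
    rintro _ ⟨i, hi, rfl⟩
    obtain rfl : i = 0 := by simp at hi; omega
    exact Subgroup.subset_closure ⟨0, rfl⟩
  · intro ρ hρ
    simp only [rels, Finset.coe_insert, Finset.coe_singleton, Set.mem_insert_iff,
      Set.mem_singleton_iff] at hρ
    rcases hρ with rfl | rfl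
    · rw [map_pow, FreeGroup.lift_apply_of, sq]
      exact (adjSwap_relA 1).1 0 (by norm_num)
    · rw [FreeGroup.lift_apply_of]; rfl
  · intro i
    fin_cases i
    · exact hφ 0 (by norm_num)
    · exact (map_one φ).trans (PresentedGroup.one_of_mem (x := FreeGroup.of 1) (by simp [rels])).symm

theorem perm_three : ∃ v : Fin 2 → Perm (Fin 3), HasPres v 8 := by
  classical
  let rels : Finset (FreeGroup (Fin 2)) :=
    {FreeGroup.of 0 ^ 2, FreeGroup.of 1 ^ 2, (FreeGroup.of 0 * FreeGroup.of 1) ^ 3}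
  let G := PresentedGroup (↑rels : Set (FreeGroup (Fin 2)))
  let s : G := PresentedGroup.of 0
  let t : G := PresentedGroup.of 1
  have hs : s * s = 1 := by
    rw [← sq]; exact PresentedGroup.one_of_mem (x := FreeGroup.of 0 ^ 2) (by simp [rels])
  have ht : t * t = 1 := by
    rw [← sq]; exact PresentedGroup.one_of_mem (x := FreeGroup.of 1 ^ 2) (by simp [rels])
  have hst : (s * t) ^ 3 = 1 :=
    PresentedGroup.one_of_mem (x := (FreeGroup.of 0 * FreeGroup.of 1) ^ 3) (by simp [rels])
  obtain ⟨φ, hφ, -⟩ := exists_hom (fun i => if i = 0 then s else t) 2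
    ⟨fun i _ => by beta_reduce; split_ifs <;> assumption, fun i hi => by
      obtain rfl : i = 0 := by omega
      exact braid_of_cube' hs ht hst,
      fun i j hi hj => absurd hj (by omega)⟩
  refine ⟨fun i => adjSwap 2 i.val, hasPres_of_hom _ ?_ rels
    ((Finset.card_le_three).trans (by norm_num)) ?_ φ ?_⟩
  · rw [eq_top_iff, ← closure_adjSwap 2, Subgroup.closure_le]
    rintro _ ⟨i, hi, rfl⟩
    exact Subgroup.subset_closure ⟨⟨i, hi⟩, rfl⟩
  · intro ρ hρ
    simp only [rels, Finset.coe_insert, Finset.coe_singleton, Set.mem_insert_iff,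
      Set.mem_singleton_iff] at hρ
    have hR := adjSwap_relA 2
    rcases hρ with rfl | rfl | rfl
    · rw [map_pow, FreeGroup.lift_apply_of, sq]; exact hR.1 0 (by norm_num)
    · rw [map_pow, FreeGroup.lift_apply_of, sq]; exact hR.1 1 (by norm_num)
    · simp only [map_pow, map_mul, FreeGroup.lift_apply_of]
      have hb := hR.2.1 0 (by norm_num)
      show (adjSwap 2 0 * adjSwap 2 1) ^ 3 = 1
      set x := adjSwap 2 0
      set y := adjSwap 2 1
      calc (x * y) ^ 3 = x * y * x * (y * x * y) := by simp [pow_three, mul_assoc]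
        _ = x * y * x * (x * y * x) := by rw [hb]
        _ = 1 := by
          rw [show x * y * x * (x * y * x) = x * y * (x * x) * y * x by group,
            show x * x = 1 from hR.1 0 (by norm_num), mul_one, mul_assoc x y y,
            show y * y = 1 from hR.1 1 (by norm_num), mul_one]
          exact hR.1 0 (by norm_num)
  · intro i
    rw [hφ i.val i.2]
    fin_cases i <;> rfl

theorem perm_four : ∃ v : Fin 2 → Perm (Fin 4), HasPres v 8 := by
  classical
  let a : FreeGroup (Fin 3) := FreeGroup.of 0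
  let b : FreeGroup (Fin 3) := FreeGroup.of 1
  let c : FreeGroup (Fin 3) := FreeGroup.of 2
  let rels : Finset (FreeGroup (Fin 3)) :=
    [a ^ 2, b ^ 2, c ^ 2, (a * b) ^ 3, (b * c) ^ 3, (a * c) ^ 2].toFinset
  let G := PresentedGroup (↑rels : Set (FreeGroup (Fin 3)))
  have hm : ∀ ρ ∈ [a ^ 2, b ^ 2, c ^ 2, (a * b) ^ 3, (b * c) ^ 3, (a * c) ^ 2],
      PresentedGroup.mk (↑rels : Set (FreeGroup (Fin 3))) ρ = 1 := fun ρ hρ =>
    PresentedGroup.one_of_mem (Finset.mem_coe.2 (List.mem_toFinset.2 hρ))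
  let x : Fin 3 → G := fun i => PresentedGroup.of i
  have h0 : x 0 * x 0 = 1 := by rw [← sq]; exact hm (a ^ 2) (by simp)
  have h1 : x 1 * x 1 = 1 := by rw [← sq]; exact hm (b ^ 2) (by simp)
  have h2 : x 2 * x 2 = 1 := by rw [← sq]; exact hm (c ^ 2) (by simp)
  let g : ℕ → G := fun i => if i = 0 then x 0 else if i = 1 then x 1 else x 2
  obtain ⟨φ, hφ, -⟩ := exists_hom g 3
    ⟨fun i hi => by
      simp only [g]; split_ifs <;> assumption,
    fun i hi => by
      rcases (show i = 0 ∨ i = 1 by omega) with rfl | rfl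
      · exact braid_of_cube' h0 h1 (hm ((a * b) ^ 3) (by simp))
      · exact braid_of_cube' h1 h2 (hm ((b * c) ^ 3) (by simp)),
    fun i j hi hj => by
      obtain ⟨rfl, rfl⟩ : i = 0 ∧ j = 2 := by omega
      exact commute_of_sq' h0 h2 (hm ((a * c) ^ 2) (by simp))⟩
  have h : HasPres (fun i : Fin 3 => adjSwap 3 i.val) 6 := by
    refine hasPres_of_hom _ ?_ rels ((List.toFinset_card_le _).trans (by simp)) ?_ φ ?_
    · rw [eq_top_iff, ← closure_adjSwap 3, Subgroup.closure_le]
      rintro _ ⟨i, hi, rfl⟩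
      exact Subgroup.subset_closure ⟨⟨i, hi⟩, rfl⟩
    · intro ρ hρ
      rw [Finset.mem_coe, List.mem_toFinset] at hρ
      simp only [List.mem_cons, List.not_mem_nil, or_false] at hρ
      rcases hρ with rfl | rfl | rfl | rfl | rfl | rfl <;>
        simp only [a, b, c, map_pow, map_mul, FreeGroup.lift_apply_of] <;> decide
    · intro i
      rw [hφ i.val i.2]
      fin_cases i <;> rfl
  have hσ : (finRotate 4).IsCycle := isCycle_finRotate
  refine ⟨![finRotate 4, swap 0 (finRotate 4 0)], ?_⟩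
  have := h.change (v := ![finRotate 4, swap (0 : Fin 4) (finRotate 4 0)]) (by
    rw [show Set.range ![finRotate 4, swap (0 : Fin 4) (finRotate 4 0)] =
      {finRotate 4, swap (0 : Fin 4) (finRotate 4 0)} by
        simp [Matrix.range_cons, Matrix.range_empty, Set.pair_comm]]
    exact Perm.closure_cycle_adjacent_swap hσ support_finRotate 0)
    Finset.univ fun j hj => absurd (Finset.mem_univ j) hj
  simpa using this

theorem alt_three : ∃ v : Fin 2 → alternatingGroup (Fin 3), HasPres v 8 := by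
  classical
  let rels : Finset (FreeGroup (Fin 2)) := {FreeGroup.of 0 ^ 3, FreeGroup.of 1}
  have h0 : (PresentedGroup.of 0 : PresentedGroup (↑rels : Set (FreeGroup (Fin 2)))) ^ 3 = 1 :=
    PresentedGroup.one_of_mem (x := FreeGroup.of 0 ^ 3) (by simp [rels])
  obtain ⟨ψ, hψ⟩ := exists_carm_hom (W := PresentedGroup (↑rels : Set (FreeGroup (Fin 2))))
    (z := fun _ => PresentedGroup.of 0) (m := 1)
    ⟨fun i _ => h0, fun i j hi hj hij => absurd hij (by omega)⟩
  have hmem : cyc3 (0 : Fin 3) 1 2 ∈ alternatingGroup (Fin 3) :=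
    Perm.mem_alternatingGroup.2 (by decide)
  refine ⟨![⟨_, hmem⟩, 1], hasPres_of_hom _ ?_ rels ((Finset.card_le_two).trans (by norm_num))
    ?_ ψ ?_⟩
  · rw [eq_top_iff]
    intro σ _
    have key : ∀ τ : Perm (Fin 3), Perm.sign τ = 1 →
        τ = 1 ∨ τ = cyc3 0 1 2 ∨ τ = cyc3 0 1 2 * cyc3 0 1 2 := by decide
    have h := Subgroup.subset_closure (k := Set.range ![(⟨_, hmem⟩ : alternatingGroup (Fin 3)), 1])
      ⟨0, rfl⟩
    rcases key σ.1 (Perm.mem_alternatingGroup.1 σ.2) with e | e | e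
    · rw [show σ = 1 from Subtype.ext e]; exact one_mem _
    · rw [show σ = ⟨_, hmem⟩ from Subtype.ext e]; exact h
    · rw [show σ = ⟨_, hmem⟩ * ⟨_, hmem⟩ from Subtype.ext e]; exact mul_mem h h
  · intro ρ hρ
    simp only [rels, Finset.coe_insert, Finset.coe_singleton, Set.mem_insert_iff,
      Set.mem_singleton_iff] at hρ
    rcases hρ with rfl | rfl
    · rw [map_pow, FreeGroup.lift_apply_of]
      apply Subtype.ext
      show cyc3 (0 : Fin 3) 1 2 ^ 3 = 1
      decide
    · rw [FreeGroup.lift_apply_of]; rfl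
  · intro i
    fin_cases i
    · exact hψ 0 (by norm_num) hmem
    · exact (map_one ψ).trans (PresentedGroup.one_of_mem (x := FreeGroup.of 1) (by simp [rels])).symm

theorem alt_four : ∃ v : Fin 2 → alternatingGroup (Fin 4), HasPres v 8 := by
  classical
  let a : FreeGroup (Fin 2) := FreeGroup.of 0
  let b : FreeGroup (Fin 2) := FreeGroup.of 1
  let rels : Finset (FreeGroup (Fin 2)) := [a ^ 3, b ^ 3, (a * b) ^ 2, (b * a) ^ 2].toFinset
  let G := PresentedGroup (↑rels : Set (FreeGroup (Fin 2)))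
  have hm : ∀ ρ ∈ [a ^ 3, b ^ 3, (a * b) ^ 2, (b * a) ^ 2],
      PresentedGroup.mk (↑rels : Set (FreeGroup (Fin 2))) ρ = 1 := fun ρ hρ =>
    PresentedGroup.one_of_mem (Finset.mem_coe.2 (List.mem_toFinset.2 hρ))
  let z : ℕ → G := fun i => if i = 0 then PresentedGroup.of 0 else PresentedGroup.of 1
  obtain ⟨ψ, hψ⟩ := exists_carm_hom (z := z) (m := 2)
    ⟨fun i hi => by
      rcases (show i = 0 ∨ i = 1 by omega) with rfl | rfl
      · exact hm (a ^ 3) (by simp)
      · exact hm (b ^ 3) (by simp),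
    fun i j hi hj hij => by
      rcases (show i = 0 ∧ j = 1 ∨ i = 1 ∧ j = 0 by omega) with ⟨rfl, rfl⟩ | ⟨rfl, rfl⟩
      · exact hm ((a * b) ^ 2) (by simp)
      · exact hm ((b * a) ^ 2) (by simp)⟩
  have m0 : cyc3 (0 : Fin 4) 1 2 ∈ alternatingGroup (Fin 4) :=
    Perm.mem_alternatingGroup.2 (by decide)
  have m1 : cyc3 (0 : Fin 4) 1 3 ∈ alternatingGroup (Fin 4) :=
    Perm.mem_alternatingGroup.2 (by decide)
  refine ⟨![⟨_, m0⟩, ⟨_, m1⟩], hasPres_of_hom _ ?_ rels
    ((List.toFinset_card_le _).trans (by simp)) ?_ ψ ?_⟩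
  · rw [eq_top_iff]
    intro σ _
    let X := (Subgroup.closure (Set.range ![(⟨_, m0⟩ : alternatingGroup (Fin 4)), ⟨_, m1⟩])).map
      (alternatingGroup (Fin 4)).subtype
    have hX : altOn (Set.univ : Set (Fin 4)) ≤ X := by
      refine altOn_le_of_cyc3 (c := (0 : Fin 4)) (e := 1) (by decide) fun t _ h0 h1 => ?_
      rw [cyc3_rotate h0 h1]
      fin_cases t
      · exact absurd rfl h0
      · exact absurd rfl h1
      · exact ⟨_, Subgroup.subset_closure ⟨0, rfl⟩, rfl⟩
      · exact ⟨_, Subgroup.subset_closure ⟨1, rfl⟩, rfl⟩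
    obtain ⟨τ, hτ, e⟩ := hX ⟨Perm.mem_alternatingGroup.1 σ.2, fun x hx => absurd (Set.mem_univ x) hx⟩
    rwa [show τ = σ from Subtype.ext e] at hτ
  · intro ρ hρ
    rw [Finset.mem_coe, List.mem_toFinset] at hρ
    simp only [List.mem_cons, List.not_mem_nil, or_false] at hρ
    rcases hρ with rfl | rfl | rfl | rfl <;>
      simp only [a, b, map_pow, map_mul, FreeGroup.lift_apply_of] <;>
      (apply Subtype.ext;
        simp only [Matrix.cons_val_zero, Matrix.cons_val_one, SubmonoidClass.coe_pow,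
          Subgroup.coe_mul, OneMemClass.coe_one];
        decide)
  · intro i
    fin_cases i
    · exact hψ 0 (by norm_num) m0
    · exact hψ 1 (by norm_num) m1

/-- All degrees up to four. -/
theorem pres_tiny (n : ℕ) (hn : n ≤ 4) :
    (∃ v : Fin 2 → Perm (Fin n), HasPres v 8) ∧
      ∃ v : Fin 2 → alternatingGroup (Fin n), HasPres v 8 := by
  have hsub : ∀ m ≤ 2, Subsingleton (alternatingGroup (Fin m)) := fun m hm => by
    refine ⟨fun x y => Subtype.ext ?_⟩
    have h : ∀ σ τ : Perm (Fin m), Perm.sign σ = 1 → Perm.sign τ = 1 → σ = τ := by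
      interval_cases m <;> decide
    exact h _ _ (Perm.mem_alternatingGroup.1 x.2) (Perm.mem_alternatingGroup.1 y.2)
  interval_cases n
  · exact ⟨hasPres_trivial, haveI := hsub 0 (by norm_num); hasPres_trivial⟩
  · exact ⟨hasPres_trivial, haveI := hsub 1 (by norm_num); hasPres_trivial⟩
  · exact ⟨perm_two, haveI := hsub 2 le_rfl; hasPres_trivial⟩
  · exact ⟨perm_three, alt_three⟩
  · exact ⟨perm_four, alt_four⟩

end Cfsg.Agent.GKKL
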